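import Cfsg.Agent.H10.Sieve3
import Cfsg.Agent.H10.Sieve2
import Cfsg.Agent.H10.E4
import Cfsg.Prelude.Def_DegreeGraph
/-! The sieve continued: `H10.chk` (all solutions of the degree equation satisfy a predicate),
`mem_degreePrimes_of_chk`, `card_ne_3360`, `not_mem_hints2` (orders between 1092 and 3640). -/

namespace H10
open H5 Cfsg Subgroup

/-- All solutions of the degree equation for the prime `p` satisfy `Q`. -/
def chk (Q : ℕ → ℕ → List ℤ → Bool) (B N p : ℕ) : Bool :=
  isP p && N % p == 0 && N % (p * p) != 0 && decide (N ≤ B ^ 2) &&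
  (List.range (N / (p * p) + 1)).all fun n => n == 0 || N % (1 + n * p) != 0 ||
    (List.range p).all fun e => decide (e < 2) || (p - 1) % e != 0 ||
      N % (p * (1 + n * p) * e) != 0 || solIn (Q (1 + n * p) e) B N p e (1 + n * p)

variable {G : Type*} [Group G] [Finite G] [IsSimpleGroup G] {p : ℕ}

theorem exists_of_chk [hp : Fact p.Prime] [Fintype G] [DecidableEq (IrrCharacter G)]
    (hG : ¬ IsMulCommutative G) {Q : ℕ → ℕ → List ℤ → Bool} {B : ℕ}
    (h : chk Q B (Nat.card G) p = true) : ∃ (P : Sylow p G) (e t : ℕ) (D : PB P e t) (l : List ℤ),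
      (l : Multiset ℤ) = ((D.X.erase (irrOne G)).val.map fun χ =>
      D.δ χ * charDegree (χ : G → ℂ)) ∧ 1 + l.sum = D.ε * D.f ∧
        Q (Nat.card (Sylow p G)) e l = true := by
  simp only [chk, Bool.and_eq_true, beq_iff_eq, bne_iff_ne, decide_eq_true_eq] at h
  obtain ⟨⟨⟨⟨-, h1⟩, h0⟩, hB⟩, h⟩ := h
  replace h1 := Nat.dvd_of_mod_eq_zero h1
  obtain ⟨P⟩ : Nonempty (Sylow p G) := inferInstance
  have hP : Nat.card (P : Subgroup G) = p := by
    rw [P.card_eq_multiplicity, factorization_eq_one_of hp.out h1 fun e => h0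
      (Nat.mod_eq_zero_of_dvd (by rwa [← sq])), pow_one]
  obtain ⟨e, t, he, ⟨D⟩⟩ := exists_PB_of_perfect (commutator_eq_top_of_simple hG) P hP
  refine ⟨P, e, t, D, D.exists_sol hG hB ?_⟩
  obtain ⟨n, hn⟩ := exists_card_sylow_eq p G
  obtain ⟨c, hc⟩ := card_dvd_of_le (comm_of_card_prime D.hP)
  have h6 := card_sylow_mul_eq P
  rw [D.he, hc, D.hP] at h6
  have h4 := D.te
  have h5 := D.e_pos
  have h2 : 0 < c := Nat.pos_of_ne_zero (by rintro rfl; exact Nat.card_pos.ne' hc)
  replace h := List.all_eq_true.1 h n (List.mem_range.2 (Nat.lt_succ_of_le ((Nat.le_div_iff_mul_le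
    (Nat.mul_pos hp.out.pos hp.out.pos)).2 (by
      rw [← h6, hn]
      nlinarith [Nat.mul_le_mul (Nat.le_add_left (n * p) 1) (Nat.mul_le_mul h5
        (Nat.le_mul_of_pos_right p h2))]))))
  simp only [← hn, Bool.or_eq_true, beq_iff_eq, bne_iff_ne, decide_eq_true_eq, List.all_eq_true,
    List.mem_range] at h
  obtain (rfl | h) | h := h
  · exact (card_sylow_ne_one_of_simple hG h1 (by simpa using hn)).elim
  · exact (h (Nat.mod_eq_zero_of_dvd (Dvd.intro _ h6))).elim
  obtain ((h7 | h7) | h7) | h7 := h e (by nlinarith [D.t_pos])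
  · omega
  · exact (h7 (Nat.mod_eq_zero_of_dvd ⟨t, by rw [mul_comm]; omega⟩)).elim
  · exact (h7 (Nat.mod_eq_zero_of_dvd ⟨c, by rw [← h6]; ring⟩)).elim
  · exact h7

omit [IsSimpleGroup G] in
theorem PB.sc_of_card [hp : Fact p.Prime] [Fintype G] {P : Sylow p G} {e t : ℕ} (D : PB P e t)
    (h : Nat.card G = p * Nat.card (Sylow p G) * e) : SC P := by
  refine ⟨D.hP, (eq_of_le_of_card_ge (comm_of_card_prime D.hP) ?_).symm⟩
  have h6 := card_sylow_mul_eq P
  rw [D.he, h] at h6
  rw [D.hP]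
  exact (Nat.eq_of_mul_eq_mul_left (Nat.mul_pos (Nat.card_pos (α := Sylow p G)) D.e_pos)
    (by linarith)).le

/-- `P` is self-centralising and the principal block does not exhaust the order. -/
def Q0 (N p m e : ℕ) (l : List ℤ) : Bool := N == p * m * e &&
  decide (1 + (l.map fun x => x.natAbs ^ 2).sum + ((p - 1) / e) * (1 + l.sum).natAbs ^ 2 < N)

theorem mem_degreePrimes_of_chk (hG : ¬ IsMulCommutative G) {N : ℕ} (hN : Nat.card G = N)
    (h : chk (Q0 N p) 80 N p = true) : p ∈ degreePrimes G := by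
  classical
  subst hN
  have hp : p.Prime := prime_of_isP (by
    simp only [chk, Bool.and_eq_true] at h; exact h.1.1.1.1)
  have := Fact.mk hp
  have := Fintype.ofFinite G
  obtain ⟨P, e, t, D, l, hl, h11, hQ⟩ := exists_of_chk hG h
  simp only [Q0, Bool.and_eq_true, beq_iff_eq, decide_eq_true_eq] at hQ
  have S := D.sc_of_card hQ.1
  by_contra hn
  have h1 : ∀ χ : IrrCharacter G, χ ∈ D.X ∪ D.Y := fun χ => by
    rw [Finset.mem_union]
    rcases D.mem_or_dvd S χ with h | h | h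
    exacts [.inl h, .inr h, (hn ⟨hp, _, ⟨χ, rfl⟩, h⟩).elim]
  have h2 := sum_sq_degrees (G := G)
  rw [Finset.sum_congr rfl (g := fun χ : IrrCharacter G => (charDegree (χ : G → ℂ) : ℂ) ^ 2)
    fun χ _ => by rw [χ.2.coe_charDegree]] at h2
  have h' : ∑ χ : IrrCharacter G, charDegree (χ : G → ℂ) ^ 2 = Nat.card G := by exact_mod_cast h2
  have h3 : t * D.f ^ 2 = ∑ χ ∈ D.Y, charDegree (χ : G → ℂ) ^ 2 := by
    rw [Finset.sum_congr rfl (g := fun _ => D.f ^ 2) fun θ hθ => by rw [D.degY θ hθ]]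
    simp [D.cardY]
  rw [← Finset.eq_univ_iff_forall.2 h1, Finset.sum_union D.disj, ← h3,
    ← Finset.add_sum_erase _ _ D.one_mem, H7.charDegree_eq (n := 1) (by simp)] at h'
  have h8 : ∀ χ ∈ D.X, (D.δ χ * charDegree (χ : G → ℂ)).natAbs = charDegree (χ : G → ℂ) :=
    fun χ hχ => by rcases D.δ_sign χ hχ with h | h <;> simp [h]
  have h9 : (((D.X.erase (irrOne G)).val.map fun χ => D.δ χ * charDegree (χ : G → ℂ)).map
      fun x => x.natAbs ^ 2).sum = ∑ χ ∈ D.X.erase (irrOne G), charDegree (χ : G → ℂ) ^ 2 := by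
    rw [Multiset.map_map]
    exact Finset.sum_congr rfl fun χ hχ => by
      simp only [Function.comp, h8 χ (Finset.mem_of_mem_erase hχ)]
  have h12 : (D.ε * D.f).natAbs = D.f := by rcases D.ε_sign with h | h <;> simp [h]
  have h4 : (p - 1) / e = t := Nat.div_eq_of_eq_mul_left D.e_pos (by have := D.te; omega)
  have h10 := hQ.2
  rw [h11, h12, h4, ← Multiset.sum_coe, ← Multiset.map_coe, hl, h9] at h10
  omega

theorem card_ne_3360 : Nat.card G ≠ 3360 := by
  classical
  intro hc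
  have hG := not_comm_of_simple_of_not_prime (G := G) (by rw [hc]; norm_num)
  have := Fintype.ofFinite G
  have := Fact.mk Nat.prime_five
  have := Fact.mk (by norm_num : Nat.Prime 7)
  obtain ⟨P, e, t, D, l, hl, h1, hQ⟩ := exists_of_chk (p := 5) (B := 80) hG
    (Q := fun m e l => 3360 == 5 * m * e && l == [6]) (by rw [hc]; decide +kernel)
  obtain ⟨P', e', t', D', l', -, h1', hQ'⟩ := exists_of_chk (p := 7) (B := 80) hG
    (Q := fun _ _ l => l == [15]) (by rw [hc]; decide +kernel)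
  simp only [Bool.and_eq_true, beq_iff_eq] at hQ hQ'
  obtain ⟨h2, rfl⟩ := hQ
  subst hQ'
  have h3 : D.f = 7 := by rcases D.ε_sign with h | h <;> rw [h] at h1 <;> simp at h1 <;> omega
  have h4 : D'.f = 16 := by rcases D'.ε_sign with h | h <;> rw [h] at h1' <;> simp at h1' <;> omega
  obtain ⟨θ, hθ⟩ := D'.Y_nonempty
  have h5 := D'.degY θ hθ
  rcases D.mem_or_dvd (D.sc_of_card (hc.trans h2)) θ with h | h | h
  · have : D.δ θ * charDegree (θ : G → ℂ) ∈ (([6] : List ℤ) : Multiset ℤ) := by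
      rw [hl]
      exact Multiset.mem_map_of_mem _ (Finset.mem_erase.2 ⟨D'.ne_one_of_mem_Y hθ, h⟩)
    rw [h5, h4] at this
    rcases D.δ_sign θ h with h | h <;> simp [h] at this
  · have := D.degY θ h
    omega
  · omega

/-- Hints. -/
def hints2 : List (ℕ × ℕ × ℕ) := [
  (1104,1,23), (1120,1,7), (1136,0,71), (1152,0,3), (1168,0,73), (1176,2,7), (1184,0,37),
  (1200,1,3), (1216,0,19), (1232,1,11), (1248,2,13), (1264,0,79), (1280,0,5), (1288,2,23),
  (1296,0,3), (1312,0,41), (1328,0,83), (1344,1,7), (1360,2,17), (1376,0,43), (1392,2,29),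
  (1400,1,7), (1408,0,11), (1424,0,89), (1440,1,5), (1456,2,7), (1472,0,23), (1488,2,31),
  (1504,0,47), (1512,1,7), (1520,1,19), (1536,0,3), (1552,0,97), (1568,0,7), (1584,1,11),
  (1600,0,5), (1616,0,101), (1624,2,29), (1632,2,17), (1648,0,103), (1664,0,13), (1680,1,5),
  (1696,0,53), (1712,0,107), (1728,0,3), (1736,2,31), (1744,0,109), (1760,2,11), (1776,2,37),
  (1792,0,7), (1808,0,113), (1824,1,19), (1840,2,23), (1848,1,11), (1856,0,29), (1872,1,13),
  (1888,0,59), (1904,2,17), (1920,1,5), (1936,0,11), (1952,0,61), (1960,2,7), (1968,2,41),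
  (1984,0,31), (2000,0,5), (2016,1,7), (2032,0,127), (2048,2,2), (2064,2,43), (2072,2,37),
  (2080,1,13), (2096,0,131), (2112,1,11), (2128,2,19), (2144,0,67), (2160,1,5), (2176,0,17),
  (2184,1,13), (2192,0,137), (2208,1,23), (2224,0,139), (2240,1,7), (2256,1,47), (2272,0,71),
  (2288,2,13), (2296,2,41), (2304,0,3), (2320,2,29), (2336,0,73), (2352,2,7), (2368,0,37),
  (2384,0,149), (2400,1,3), (2408,2,43), (2416,0,151), (2432,0,19), (2464,1,11), (2480,2,31),
  (2496,2,13), (2512,0,157), (2528,0,79), (2544,2,53), (2560,0,5), (2576,2,23), (2592,0,3),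
  (2608,0,163), (2624,0,41), (2632,2,47), (2640,1,11), (2656,0,83), (2672,0,167), (2688,1,7),
  (2704,0,13), (2720,2,17), (2736,2,19), (2744,0,7), (2752,0,43), (2768,0,173), (2784,2,29),
  (2800,1,7), (2816,0,11), (2832,2,59), (2848,0,89), (2856,2,17), (2864,0,179), (2880,1,5),
  (2896,0,181), (2912,2,7), (2928,2,61), (2944,0,23), (2960,2,37), (2968,2,53), (2976,1,31),
  (2992,2,17), (3008,0,47), (3024,1,7), (3040,1,19), (3056,0,191), (3072,0,3), (3080,1,11),
  (3088,0,193), (3104,0,97), (3120,1,13), (3136,0,7), (3152,0,197), (3168,1,11), (3184,0,199),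
  (3192,2,19), (3200,0,5), (3216,2,67), (3232,0,101), (3248,2,29), (3264,2,17), (3280,2,41),
  (3296,0,103), (3304,2,59), (3312,1,23), (3328,0,13), (3344,2,19), (3376,0,211), (3392,0,53),
  (3408,2,71), (3416,2,61), (3424,0,107), (3440,2,43), (3456,0,3), (3472,2,31), (3488,0,109),
  (3504,2,73), (3520,1,11), (3536,2,13), (3552,2,37), (3568,0,223), (3584,0,7), (3616,0,113),
  (3632,0,227), (3640,1,13)]

theorem hints2_ok : hints2.all (fun h => kills 80 h.1 h.2.1 h.2.2) = true := by decide +kernel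

theorem not_mem_hints2 (hG : ¬ IsMulCommutative G) : Nat.card G ∉ hints2.map Prod.fst := fun h => by
  obtain ⟨⟨N, k, p⟩, h1, h2⟩ := List.mem_map.1 h
  exact not_kills hG 80 k p (h2 ▸ List.all_eq_true.1 hints2_ok _ h1)

theorem hints2_cover : (List.range 3641).all (fun N => !(N % 16 == 0 || N % 56 == 0) ||
    decide (N ≤ 1092) || decide (N ∈ [2448, 2520, 3360, 3528, 3600]) ||
      decide (N ∈ hints2.map Prod.fst)) = true := by
  decide +kernel

theorem deg_primes_chk : [(60, 5), (168, 7), (360, 5), (504, 7), (660, 11), (1092, 13), (2448, 17),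
    (2520, 5), (2520, 7), (3420, 19), (4080, 17), (5616, 13)].all
      (fun h : ℕ × ℕ => chk (Q0 h.1 h.2) 80 h.1 h.2) = true := by decide +kernel

theorem mem_degreePrimes_of_mem (hG : ¬ IsMulCommutative G) {N : ℕ} (hN : Nat.card G = N)
    (h : (N, p) ∈ [(60, 5), (168, 7), (360, 5), (504, 7), (660, 11), (1092, 13), (2448, 17),
    (2520, 5), (2520, 7), (3420, 19), (4080, 17), (5616, 13)]) : p ∈ degreePrimes G :=
  mem_degreePrimes_of_chk hG hN (List.all_eq_true.1 deg_primes_chk _ h)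

end H10
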