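import Cfsg.Agent.H10.Syl2
import Cfsg.Agent.H10.PB
import Cfsg.Agent.H1.Coprime
import Cfsg.Agent.H1.Fitting
import Cfsg.Agent.H6.Extension
import Cfsg.Prelude.Def_DegreeGraph
/-! Normality of a Sylow subgroup of prime order: `H10.Good`, `le_C_of_good`, `ns_of_quot`,
`ns_of_good`, and `not_mem_degreePrimes_of_solv`. -/

namespace H10
open H5 Cfsg Subgroup

universe u
variable {G : Type u} [Group G] [Finite G] {p : ℕ}

/-- No prime power dividing `n` is `1` modulo `p`. -/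
def Good (p n : ℕ) : Prop := ∀ d ∈ n.divisors, IsPrimePow d → ¬ p ∣ d - 1

theorem Good.of_dvd {m n : ℕ} (h : Good p n) (hn : n ≠ 0) (hm : m ∣ n) : Good p m := fun d hd =>
  h d (Nat.mem_divisors.2 ⟨(Nat.dvd_of_mem_divisors hd).trans hm, hn⟩)

theorem dvd_card_sub [hp : Fact p.Prime] {P R : Subgroup G} (hP : Nat.card P = p) (hn : P ≤ 𝐍[R]) :
    p ∣ Nat.card R - Nat.card (R ⊓ 𝐂[P] : Subgroup G) := by
  have h := card_dvd_ncard_of_conj_free P (S := (R : Set G) \ (R ⊓ 𝐂[P] : Subgroup G))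
    (Set.toFinite _) (fun a ha s hs => ⟨(mem_normalizer_iff.1 (hn ha) s).1 hs.1, fun h => hs.2 ⟨hs.1,
      by simpa [mul_assoc] using (𝐂[P]).mul_mem ((𝐂[P]).mul_mem (inv_mem (comm_of_card_prime hP ha)) h.2)
          (comm_of_card_prime hP ha)⟩⟩)
    fun a ha s hs h => by
      by_contra h1
      refine hs.2 ⟨hs.1, ?_⟩
      rw [← centralizer_eq_of_card_prime hP ha h1]
      exact mem_centralizer_singleton_iff.2 h.symm
  rwa [Set.ncard_sdiff (fun x hx => hx.1), hP, ← Nat.card_coe_set_eq, ← Nat.card_coe_set_eq] at h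

theorem exists_pow_of_not_le [hp : Fact p.Prime] {P R : Subgroup G} (hP : Nat.card P = p)
    (hn : P ≤ 𝐍[R]) {q : ℕ} [hq : Fact q.Prime] (hR : IsPGroup q R) (hqp : q ≠ p)
    (h : ¬ R ≤ 𝐂[P]) : ∃ i, 0 < i ∧ p ∣ q ^ i - 1 ∧
      Nat.card R = q ^ i * Nat.card (R ⊓ 𝐂[P] : Subgroup G) := by
  have h1 := dvd_card_sub hP hn
  obtain ⟨a, ha⟩ := IsPGroup.iff_card.1 hR
  obtain ⟨b, hb⟩ := IsPGroup.iff_card.1 (hR.to_inf_left (K := 𝐂[P]))
  have h2 : b < a := by
    have := card_lt_card_of_lt (inf_lt_left.2 h)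
    rwa [ha, hb, Nat.pow_lt_pow_iff_right hq.out.one_lt] at this
  obtain ⟨i, rfl⟩ := Nat.exists_eq_add_of_lt h2
  refine ⟨i + 1, by omega, ?_, by rw [ha, hb]; ring⟩
  rw [ha, hb, add_assoc, pow_add, ← Nat.mul_sub_one] at h1
  exact ((Nat.Prime.dvd_mul hp.out).1 h1).resolve_left fun h =>
    hqp ((Nat.prime_dvd_prime_iff_eq hp.out hq.out).1 (hp.out.dvd_of_dvd_pow h)).symm

theorem exists_sylowIn_le_C [hp : Fact p.Prime] {P N : Subgroup G} (hP : Nat.card P = p)
    (hn : P ≤ 𝐍[N]) (hN : ¬ p ∣ Nat.card N) {q : ℕ} [hq : Fact q.Prime]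
    (h : ∀ i, 0 < i → q ^ i ∣ Nat.card N → ¬ p ∣ q ^ i - 1) :
    ∃ Q, H1.IsSylowIn q Q N ∧ Q ≤ 𝐂[P] := by
  obtain ⟨Q, h1, h2⟩ := H1.exists_invariant_isSylowIn hn
    (by rw [hP]; exact (Nat.Prime.coprime_iff_not_dvd hp.out).2 hN)
    (.inl (isSolvable_of_card_prime (by rw [hP]; exact hp.out))) q
  refine ⟨Q, h1, ?_⟩
  by_cases e : q = p
  · subst e
    obtain ⟨a, ha⟩ := IsPGroup.iff_card.1 h1.isPGroup
    have := card_dvd_of_le h1.le
    rcases a with _ | a
    · rw [card_eq_one.1 (by simpa using ha : Nat.card Q = 1)]; exact bot_le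
    · exact (hN ((dvd_pow_self q a.succ_ne_zero).trans (ha ▸ this))).elim
  by_contra h3
  obtain ⟨i, h4, h5, h6⟩ := exists_pow_of_not_le hP h2 h1.isPGroup e h3
  exact h i h4 ((Dvd.intro _ h6.symm).trans (card_dvd_of_le h1.le)) h5

theorem le_C_of_good [hp : Fact p.Prime] {P N : Subgroup G} (hP : Nat.card P = p)
    (hn : P ≤ 𝐍[N]) (hN : ¬ p ∣ Nat.card N) (h : Good p (Nat.card N)) : N ≤ 𝐂[P] :=
  H1.le_of_sylow_le fun q hq _ => by
    obtain ⟨Q, h1, h2⟩ := exists_sylowIn_le_C hP hn hN (q := q) fun i hi h3 =>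
      h _ (Nat.mem_divisors.2 ⟨h3, Nat.card_pos.ne'⟩) (hq.out.isPrimePow.pow hi.ne')
    exact ⟨h1.toSylow, h1.map_toSylow.le.trans h2⟩

/-- The Sylow `p`-subgroup is normal. -/
abbrev NS (p : ℕ) (G : Type*) [Group G] : Prop := Subsingleton (Sylow p G)

variable [hp : Fact p.Prime]

theorem ns_of_normal (P : Sylow p G) (h : (P : Subgroup G).Normal) : NS p G :=
  (P.unique_of_normal h).instSubsingleton

theorem ns_of_not_dvd (h : ¬ p ∣ Nat.card G) : NS p G := by
  obtain ⟨P⟩ : Nonempty (Sylow p G) := inferInstance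
  refine ns_of_normal P ?_
  rw [card_eq_one.1 (by rw [P.card_eq_multiplicity, Nat.factorization_eq_zero_of_not_dvd h, pow_zero] :
    Nat.card (P : Subgroup G) = 1)]
  infer_instance

omit [Finite G] hp in
theorem NS.sub (h : NS p G) (H : Subgroup G) : NS p H := ⟨fun P Q => by
  obtain ⟨P', h1⟩ := P.exists_comap_subtype_eq
  obtain ⟨Q', h2⟩ := Q.exists_comap_subtype_eq
  exact Sylow.ext (by rw [← h1, ← h2, Subsingleton.elim P' Q'])⟩

theorem sylow_le_of_not_dvd (N : Subgroup G) [N.Normal] (h : ¬ p ∣ N.index) (P : Sylow p G) :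
    (P : Subgroup G) ≤ N := by
  obtain ⟨a, ha⟩ := IsPGroup.iff_card.1 (P.isPGroup'.map (QuotientGroup.mk' N))
  have := card_subgroup_dvd_card ((P : Subgroup G).map (QuotientGroup.mk' N))
  rcases a with _ | a
  · rw [← QuotientGroup.ker_mk' N, ← Subgroup.map_eq_bot_iff]
    exact card_eq_one.1 (by simpa using ha)
  · exact (h ((dvd_pow_self p a.succ_ne_zero).trans (ha ▸ this))).elim

theorem ns_of_sub (N : Subgroup G) [N.Normal] (h : ¬ p ∣ N.index) (hN : NS p N) : NS p G :=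
  ⟨fun P Q => Sylow.subtype_injective (hP := sylow_le_of_not_dvd N h P)
    (hQ := sylow_le_of_not_dvd N h Q) (Subsingleton.elim _ _)⟩

theorem card_sylow_prime (h1 : p ∣ Nat.card G) (h2 : ¬ p ^ 2 ∣ Nat.card G) (P : Sylow p G) :
    Nat.card (P : Subgroup G) = p := by
  rw [P.card_eq_multiplicity, factorization_eq_one_of hp.out h1 h2, pow_one]

theorem normal_sup_of_ns_quot (N : Subgroup G) [N.Normal] (hq : NS p (G ⧸ N)) (P : Sylow p G) :
    ((P : Subgroup G) ⊔ N).Normal := by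
  have := (P.mapSurjective (QuotientGroup.mk'_surjective N)).normal_of_subsingleton.comap
    (QuotientGroup.mk' N)
  rwa [Sylow.coe_mapSurjective, comap_map_eq, QuotientGroup.ker_mk'] at this

theorem ns_of_le_normalizer (N : Subgroup G) [N.Normal] (hq : NS p (G ⧸ N)) (P : Sylow p G)
    (h : N ≤ 𝐍[(P : Subgroup G)]) : NS p G := by
  have := normal_sup_of_ns_quot N hq P
  refine ns_of_sub ((P : Subgroup G) ⊔ N) (fun h => P.not_dvd_index
    (h.trans (index_dvd_of_le le_sup_left))) (ns_of_normal (P.subtype le_sup_left) ?_)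
  exact (normal_subgroupOf_iff_le_normalizer le_sup_left).2 (sup_le le_normalizer h)

theorem ns_of_quot (h2 : ¬ p ^ 2 ∣ Nat.card G) (N : Subgroup G) [N.Normal] (hN : ¬ p ∣ Nat.card N)
    (h : Good p (Nat.card N)) (hq : NS p (G ⧸ N)) : NS p G := by
  by_cases h1 : p ∣ Nat.card G
  · obtain ⟨P⟩ : Nonempty (Sylow p G) := inferInstance
    exact ns_of_le_normalizer N hq P ((le_C_of_good (card_sylow_prime h1 h2 P) le_normalizer_of_normal hN h).trans
      (centralizer_le_normalizer _))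
  · exact ns_of_not_dvd h1

omit hp in
theorem exists_normal_of_not_simple (h : ¬ IsSimpleGroup G) (h1 : Nat.card G ≠ 1) :
    ∃ N : Subgroup G, N.Normal ∧ 1 < Nat.card N ∧ 1 < N.index := by
  have : Nontrivial G := Finite.one_lt_card_iff_nontrivial.1 (by have := Nat.card_pos (α := G); omega)
  by_contra hc
  push Not at hc
  refine h ⟨fun N hN => or_iff_not_imp_left.2 fun h1 => index_eq_one.1 ?_⟩
  have := hc N hN ((one_lt_card_iff_ne_bot N).2 h1)
  have := N.index_ne_zero_of_finite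
  omega

theorem ns_of_good {n : ℕ} (h2 : ¬ p ^ 2 ∣ n) (hg : Good p n) (hn : n ≠ 0)
    (hT : ∀ (T : Type u) [Group T] [Finite T] [IsSimpleGroup T], ¬ IsMulCommutative T →
      Nat.card T ∣ n → Nat.card T < n → ¬ p ∣ Nat.card T) (G : Type u) [Group G] [Finite G]
    (h : Nat.card G ∣ n) (hs : Nat.card G < n ∨ ¬ IsSimpleGroup G) : NS p G := by
  induction hm : Nat.card G using Nat.strong_induction_on generalizing G with
  | _ m ih =>
  by_cases h1 : p ∣ Nat.card G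
  swap
  · exact ns_of_not_dvd h1
  by_cases h3 : IsSimpleGroup G
  · by_cases h4 : IsMulCommutative G
    · obtain ⟨P⟩ : Nonempty (Sylow p G) := inferInstance
      exact ns_of_normal P (normal_of_isMulCommutative _)
    · exact (hT G h4 h (hs.resolve_right (not_not.2 h3)) h1).elim
  obtain ⟨N, hN, h4, h5⟩ := exists_normal_of_not_simple h3 fun e =>
    hp.out.one_lt.ne' (Nat.dvd_one.1 (e ▸ h1))
  have e := N.card_mul_index
  have h6 := Nat.le_of_dvd (Nat.pos_of_ne_zero hn) h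
  have h7 : Nat.card N < m := by rw [← hm, ← e]; nlinarith
  have h8 : Nat.card (G ⧸ N) < m := by rw [← hm, ← e, ← index]; nlinarith
  by_cases h9 : p ∣ Nat.card N
  · refine ns_of_sub N (fun h10 => h2 (Dvd.dvd.trans ?_ h)) (ih _ h7 N
      ((card_subgroup_dvd_card N).trans h) (.inl (by omega)) rfl)
    rw [← e, sq]
    exact Nat.mul_dvd_mul h9 h10
  · exact ns_of_quot (fun h' => h2 (h'.trans h)) N h9
      (hg.of_dvd hn ((card_subgroup_dvd_card N).trans h)) (ih _ h8 (G ⧸ N)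
        ((card_quotient_dvd_card N).trans h) (.inl (by omega)) rfl)

omit hp in
theorem not_mem_degreePrimes_of_normal (A : Subgroup G) [A.Normal] (hA : A ≤ 𝐂[A])
    (h : ¬ p ∣ A.index) : p ∉ degreePrimes G := by
  rintro ⟨-, _, ⟨χ, rfl⟩, h1⟩
  exact h (h1.trans (H6.ito_degree_dvd A (fun a ha b hb => hA hb a ha) χ.2))

theorem not_ns_of_mem (h2 : ¬ p ^ 2 ∣ Nat.card G) (h : p ∈ degreePrimes G) : ¬ NS p G := by
  intro hn
  obtain ⟨P⟩ : Nonempty (Sylow p G) := inferInstance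
  have := P.normal_of_subsingleton
  have h1 : p ∣ Nat.card G := by
    obtain ⟨-, _, ⟨χ, rfl⟩, h1⟩ := h
    exact h1.trans (χ.2.degree_dvd_card χ.2.coe_charDegree.symm)
  exact not_mem_degreePrimes_of_normal (P : Subgroup G)
    (comm_of_card_prime (card_sylow_prime h1 h2 P)) P.not_dvd_index h

theorem not_mem_degreePrimes_of_solv [Group.IsSolvable G] (h2 : ¬ p ^ 2 ∣ Nat.card G)
    (hn : ¬ NS p G) {q Q : ℕ} (hq : q.Prime) (hqQ : q ∣ Q) (hQ : ¬ Q * q ∣ Nat.card G)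
    (h : ∀ d ∈ (Nat.card G).divisors, IsPrimePow d → p ∣ d - 1 → d = Q) : q ∉ degreePrimes G := by
  have h1 : p ∣ Nat.card G := by_contra fun h => hn (ns_of_not_dvd h)
  obtain ⟨P⟩ : Nonempty (Sylow p G) := inferInstance
  have hP := card_sylow_prime h1 h2 P
  obtain ⟨r, hr, h3⟩ : ∃ (r : ℕ) (_ : Fact r.Prime), ¬ pCore r G ≤ 𝐂[(P : Subgroup G)] := by
    by_contra hc
    push Not at hc
    have h3 := (le_centralizer_iff.1 (H1.fitting_le_of_pCore_le fun r hr => hc r hr)).trans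
      (H1.centralizer_fitting_le G)
    refine hn (ns_of_normal P ?_)
    rw [← le_antisymm (H1.pCore_le_sylow P) (H1.le_pCore_of_le_fitting P.isPGroup' h3)]
    infer_instance
  have h4 : r ≠ p := by
    rintro rfl
    exact h3 ((H1.pCore_le_sylow P).trans (comm_of_card_prime hP))
  have key : ∀ R : Subgroup G, R.Normal → R ≤ pCore r G → ¬ R ≤ 𝐂[(P : Subgroup G)] →
      Nat.card R = Q ∧ R ⊓ 𝐂[(P : Subgroup G)] = ⊥ := fun R _ h5 h6 => by
    have hR := (H1.pCore_isPGroup r G).to_le h5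
    obtain ⟨i, h7, h8, h9⟩ := exists_pow_of_not_le hP le_normalizer_of_normal hR h4 h6
    have h10 := card_subgroup_dvd_card R
    have h11 := h _ (Nat.mem_divisors.2 ⟨(Dvd.intro _ h9.symm).trans h10, Nat.card_pos.ne'⟩)
      (hr.out.isPrimePow.pow h7.ne') h8
    obtain rfl : q = r := (Nat.prime_dvd_prime_iff_eq hq hr.out).1 (hq.dvd_of_dvd_pow (h11 ▸ hqQ))
    obtain ⟨b, hb⟩ := IsPGroup.iff_card.1 (hR.to_inf_left (K := 𝐂[(P : Subgroup G)]))
    rcases b with _ | b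
    · exact ⟨by rw [h9, hb, h11]; simp, card_eq_one.1 (by simpa using hb)⟩
    · refine (hQ (Dvd.dvd.trans ?_ h10)).elim
      rw [h9, hb, h11]
      exact Nat.mul_dvd_mul_left _ (dvd_pow_self q b.succ_ne_zero)
  obtain ⟨-, h5⟩ := key _ inferInstance le_rfl h3
  have := H1.isNilpotent_pCore (G := G) (p := r)
  have h6 := H1.inf_centralizer_ne_bot_of_isNilpotent (L := pCore r G) le_rfl le_normalizer
    (fun e => h3 (e ▸ bot_le))
  obtain ⟨h7, -⟩ := key (pCore r G ⊓ 𝐂[pCore r G]) inferInstance inf_le_left fun e =>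
    h6 (eq_bot_iff.2 (h5 ▸ le_inf inf_le_left e))
  refine not_mem_degreePrimes_of_normal (pCore r G ⊓ 𝐂[pCore r G])
    (inf_le_right.trans (centralizer_le inf_le_left)) fun e => hQ ?_
  rw [← card_mul_index (pCore r G ⊓ 𝐂[pCore r G]), h7]
  exact Nat.mul_dvd_mul_left _ e

end H10
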