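import Cfsg.Agent.H10.DG1
import Cfsg.Agent.H10.DG2
import Cfsg.Agent.H10.Zass2
/-! Orders of the simple groups of order below 6000: `H10.card_lt_6000`. -/

namespace H10
open H5 Cfsg Subgroup

universe u
variable {G : Type u} [Group G] [Finite G] {p : ℕ}

theorem exists_cent_two_sylow [hp : Fact p.Prime] (P : Sylow p G)
    (hP : Nat.card (P : Subgroup G) = p ^ 2) (h : ¬ p ^ 2 ∣ Nat.card (Sylow p G) - 1) :
    ∃ x ∈ (P : Subgroup G), x ≠ 1 ∧ (P : Subgroup G) ≤ 𝐂(x) ∧ Nat.card (Sylow p 𝐂(x)) ≠ 1 := by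
  obtain ⟨R, h1, h2⟩ := exists_sylow_relIndex_le P h
  have h3 : (R : Subgroup G) ⊓ P ≠ ⊥ := fun e => by
    rw [← inf_relIndex_right, e, relIndex_bot_left, hP, Nat.pow_dvd_pow_iff_le_right hp.out.one_lt] at h2
    omega
  obtain ⟨⟨x, hx⟩, h4⟩ := ne_bot_iff_exists_ne_one.1 h3
  have key : ∀ Q : Sylow p G, x ∈ (Q : Subgroup G) → (Q : Subgroup G) ≤ 𝐂(x) := fun Q hQ y hy =>
    mem_centralizer_singleton_iff.2 (congrArg Subtype.val
      ((IsPGroup.isMulCommutative_of_card_eq_prime_sq
        ((card_sylow_eq_of P Q).trans hP)).is_comm.comm ⟨y, hy⟩ ⟨x, hQ⟩))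
  refine ⟨x, hx.2, fun e => h4 (Subtype.ext e), key P hx.2, fun e => h1 ?_⟩
  have := (Nat.card_eq_one_iff_unique.1 e).1
  exact Sylow.subtype_injective (hP := key R hx.1) (hQ := key P hx.2) (Subsingleton.elim _ _)

theorem card_sylow_sub_mul [hp : Fact p.Prime] (P : Sylow p G) {M : Subgroup G}
    (h : (P : Subgroup G) ≤ M) : Nat.card (Sylow p M) * Nat.card (𝐍[(P : Subgroup G)] ⊓ M : Subgroup G) =
      Nat.card M := by
  rw [← card_sylow_mul_card_normalizer (P.subtype h), Sylow.coe_subtype,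
    ← subgroupOf_normalizer_eq h, ← inf_subgroupOf_right,
    Nat.card_congr (subgroupOfEquivOfLe inf_le_right).toEquiv]

variable [IsSimpleGroup G]

theorem le_index_of (hG : ¬ IsMulCommutative G) {k : ℕ} (h : ¬ 2 * Nat.card G ∣ k.factorial)
    {H : Subgroup G} (hH : H ≠ ⊤) : k < H.index := by
  by_contra h1
  exact h ((two_mul_card_dvd_factorial_index hG hH).trans (Nat.factorial_dvd_factorial (by omega)))

theorem card_ne_3528 : Nat.card G ≠ 3528 := by
  intro hc
  have hG := not_comm_of_simple_of_not_prime (G := G) (by rw [hc]; norm_num)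
  have := Fact.mk (by norm_num : Nat.Prime 7)
  obtain ⟨P⟩ : Nonempty (Sylow 7 G) := inferInstance
  have hP := sylow_card_of (a := 2) (m := 72) hc (by norm_num) P
  have h1 := P.card_dvd_index
  rw [sylow_index_of (a := 2) (m := 72) hc (by norm_num) P] at h1
  have h2 := card_sylow_ne_one_of_simple (p := 7) hG (by rw [hc]; norm_num)
  obtain ⟨x, -, hx, h3, h4⟩ := exists_cent_two_sylow P hP (by
    have := Nat.le_of_dvd (by norm_num) h1
    generalize Nat.card (Sylow 7 G) = n at *
    interval_cases n <;> omega)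
  have h5 := le_index_of hG (k := 9) (by rw [hc]; decide +kernel) (C_ne_top hG hx)
  have h6 := card_sylow_sub_mul P h3
  have h7 := Nat.le_of_dvd Nat.card_pos (card_dvd_of_le (le_inf (le_normalizer (H := (P : Subgroup G))) h3))
  have h8 := card_sylow_modEq_one 7 𝐂(x)
  have h9 := card_mul_index 𝐂(x)
  have h10 : 8 ≤ Nat.card (Sylow 7 𝐂(x)) := by unfold Nat.ModEq at h8; omega
  rw [hP] at h7
  rw [hc, ← h6] at h9
  nlinarith [Nat.mul_le_mul (Nat.mul_le_mul h10 h7) h5]

theorem card_ne_3600 : Nat.card G ≠ 3600 := by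
  intro hc
  have hG := not_comm_of_simple_of_not_prime (G := G) (by rw [hc]; norm_num)
  have := Fact.mk Nat.prime_five
  obtain ⟨P⟩ : Nonempty (Sylow 5 G) := inferInstance
  have hP := sylow_card_of (a := 2) (m := 144) hc (by norm_num) P
  have hi : ∀ {H : Subgroup G}, H ≠ ⊤ → 9 < H.index :=
    le_index_of hG (k := 9) (by rw [hc]; decide +kernel)
  have h0 := card_sylow_mul_card_normalizer P
  have h1 : Nat.card (Sylow 5 G) = 16 ∨ Nat.card (Sylow 5 G) = 36 := by
    have h1 := P.card_dvd_index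
    rw [sylow_index_of (a := 2) (m := 144) hc (by norm_num) P] at h1
    have h2 := hi (normalizer_sylow_ne_top_of_simple hG (by rw [hc]; norm_num) P)
    rw [← card_sylow_eq_index] at h2
    have h3 := card_sylow_modEq_one 5 G
    have := Nat.le_of_dvd (by norm_num) h1
    unfold Nat.ModEq at h3
    generalize Nat.card (Sylow 5 G) = n at *
    interval_cases n <;> omega
  obtain ⟨x, hxP, hx, h3, h4⟩ := exists_cent_two_sylow P hP (by omega)
  have h5 := hi (C_ne_top hG hx)
  have h6 := card_sylow_sub_mul P h3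
  obtain ⟨k, h7⟩ := card_dvd_of_le (le_inf (le_normalizer (H := (P : Subgroup G))) h3)
  have h8 := card_sylow_modEq_one 5 𝐂(x)
  have h9 := card_mul_index 𝐂(x)
  rw [hP] at h7
  have h10 : Nat.card (Sylow 5 𝐂(x)) = 6 ∧ (k = 1 ∨ k = 2) := by
    rw [hc, ← h6, h7] at h9
    unfold Nat.ModEq at h8
    generalize Nat.card (Sylow 5 𝐂(x)) = n, (𝐂(x)).index = d at *
    have e : n * k * d = 144 := by linarith
    have : n * k ≤ 14 := by nlinarith
    have h11 : 0 < k := Nat.pos_of_ne_zero (by rintro rfl; omega)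
    have : n ≤ 14 := by nlinarith
    have : n = 6 ∨ n = 11 := by omega
    rcases this with rfl | rfl
    · omega
    · obtain rfl : k = 1 := by omega
      omega
  obtain ⟨h10, rfl | rfl⟩ := h10
  · have hx5 : 5 ∣ orderOf x := by
      have h11 := orderOf_dvd_natCard (⟨x, hxP⟩ : (P : Subgroup G))
      rw [hP, orderOf_mk] at h11
      obtain ⟨i, -, e⟩ := (Nat.dvd_prime_pow Nat.prime_five).1 h11
      rcases i with _ | i
      · exact (hx (orderOf_eq_one_iff.1 e)).elim
      · exact e ▸ dvd_pow_self 5 i.succ_ne_zero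
    have hxC : x ∈ 𝐂(x) := h3 hxP
    have hZ : zpowers (⟨x, hxC⟩ : 𝐂(x)) ≤ center _ := zpowers_le_of_mem (mem_center_iff.2 fun g =>
      Subtype.ext (mem_centralizer_singleton_iff.1 g.2))
    have : (zpowers (⟨x, hxC⟩ : 𝐂(x))).Normal := ⟨fun a ha g => by
      rwa [mem_center_iff.1 (hZ ha) g, mul_inv_cancel_right]⟩
    have h11 := card_mul_index (zpowers (⟨x, hxC⟩ : 𝐂(x)))
    rw [Nat.card_zpowers, orderOf_mk, ← h6, h10, h7] at h11
    obtain ⟨j, hj⟩ := hx5
    have h12 : NS 5 (𝐂(x) ⧸ zpowers (⟨x, hxC⟩ : 𝐂(x))) := ns_of_good (n := 30) (by norm_num)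
      (by unfold Good; decide +kernel) (by norm_num) (fun T _ _ _ h1 h2 h3 _ => by
        have := card_small h1 (by omega) (.inl (.inl (by omega)))
        simp only [List.mem_cons, List.not_mem_nil, or_false] at this
        omega) _ ⟨j, by rw [← index]; rw [hj] at h11; linarith⟩ (or_iff_not_imp_right.2 fun hs => by
        rw [not_not] at hs
        have h13 : Nat.card (𝐂(x) ⧸ zpowers (⟨x, hxC⟩ : 𝐂(x))) ∣ 30 :=
          ⟨j, by rw [← index]; rw [hj] at h11; linarith⟩
        refine (Nat.le_of_dvd (by norm_num) h13).lt_of_ne fun e => ?_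
        have := card_small (not_comm_of_simple_of_not_prime (G := 𝐂(x) ⧸ zpowers (⟨x, hxC⟩ : 𝐂(x)))
          (by rw [e]; norm_num)) (by omega) (.inl (.inl (by omega)))
        simp [e] at this)
    have := ns_of_le_normalizer _ h12 (P.subtype h3) (hZ.trans (center_le_normalizer _))
    exact h4 Nat.card_unique
  · have h11 := card_dvd_of_le (inf_le_left : 𝐍[(P : Subgroup G)] ⊓ 𝐂(x) ≤ _)
    have h12 : Nat.card 𝐍[(P : Subgroup G)] = 100 := by
      rw [h7] at h11
      rcases h1 with e | e <;> rw [e, hc] at h0 <;> omega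
    have h13 : (𝐂(x).subgroupOf 𝐍[(P : Subgroup G)]).index = 2 := by
      have := card_mul_index (𝐂(x).subgroupOf 𝐍[(P : Subgroup G)])
      rw [← inf_subgroupOf_right, Nat.card_congr (subgroupOfEquivOfLe inf_le_right).toEquiv,
        inf_comm, h7, h12, inf_subgroupOf_left] at this
      omega
    obtain ⟨⟨s, hs⟩, h14⟩ := index_eq_two_iff_exists_notMem_and.1 h13
    have hyP : s * x * s⁻¹ ∈ (P : Subgroup G) := (mem_normalizer_iff.1 hs x).1 hxP
    have hc' := IsPGroup.isMulCommutative_of_card_eq_prime_sq hP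
    have h15 : ∀ a ∈ 𝐍[(P : Subgroup G)], ∀ b ∈ 𝐍[(P : Subgroup G)],
        (a * b ∈ 𝐂(x) ↔ (a ∈ 𝐂(x) ↔ b ∈ 𝐂(x))) := fun a ha b hb =>
      mul_mem_iff_of_index_two h13 (a := ⟨a, ha⟩) (b := ⟨b, hb⟩)
    have hs' : s ∉ 𝐂(x) := h14.1
    have h16 : x * (s * x * s⁻¹) = 1 := eq_one_of_normalizer_comm (commutator_eq_top_of_simple hG) P
      hc' (mul_mem hxP hyP) fun n hn => by
        by_cases e : n ∈ 𝐂(x)
        · have e1 := mem_centralizer_singleton_iff.1 e
          have e2 : s⁻¹ * (n * s) ∈ 𝐂(x) := by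
            rw [h15 _ (inv_mem hs) _ (mul_mem hn hs), h15 _ hn _ hs, inv_mem_iff]; tauto
          have e3 := mem_centralizer_singleton_iff.1 e2
          calc n * (x * (s * x * s⁻¹)) = (n * x) * (s * x * s⁻¹) := by group
            _ = x * s * (s⁻¹ * (n * s) * x) * s⁻¹ := by rw [e1]; group
            _ = _ := by rw [e3]; group
        · have e1 : s⁻¹ * n ∈ 𝐂(x) := by rw [h15 _ (inv_mem hs) _ hn, inv_mem_iff]; tauto
          have e2 : n * s ∈ 𝐂(x) := by rw [h15 _ hn _ hs]; tauto
          have e3 := mem_centralizer_singleton_iff.1 e1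
          have e4 := mem_centralizer_singleton_iff.1 e2
          have e5 : x * (s * x * s⁻¹) = (s * x * s⁻¹) * x :=
            congrArg Subtype.val (hc'.is_comm.comm ⟨x, hxP⟩ ⟨_, hyP⟩)
          calc n * (x * (s * x * s⁻¹)) = s * (s⁻¹ * n * x) * (s⁻¹ * n)⁻¹ * s⁻¹ * (n * s * x) * s⁻¹ := by
                group
            _ = (s * x * s⁻¹) * x * n := by rw [e3, e4]; group
            _ = _ := by rw [e5]
    have h17 : s ∈ 𝐍[𝐂(x)] := by
      have e : s * x * s⁻¹ = x⁻¹ := (eq_inv_of_mul_eq_one_right h16)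
      refine mem_normalizer_fintype fun g hg => mem_centralizer_singleton_iff.2 ?_
      have e1 := (show Commute g x from mem_centralizer_singleton_iff.1 hg).inv_right.eq
      have e2 : x = s * x⁻¹ * s⁻¹ := by
        have := congrArg (·⁻¹) e
        simpa [mul_assoc] using this.symm
      calc s * g * s⁻¹ * x = s * (g * x⁻¹) * s⁻¹ := by
            rw [show s * g * s⁻¹ * x = s * g * s⁻¹ * (s * x⁻¹ * s⁻¹) by rw [← e2]]; group
        _ = (s * x⁻¹ * s⁻¹) * (s * g * s⁻¹) := by rw [e1]; group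
        _ = _ := by rw [← e2]
    have h18 := hi (H := 𝐍[𝐂(x)]) fun e => by
      rcases (normalizer_eq_top_iff.1 e).eq_bot_or_eq_top with e | e
      · exact hx (by simpa [e] using h3 hxP)
      · exact C_ne_top hG hx e
    have h19 := relIndex_mul_index (le_normalizer (H := 𝐂(x)))
    have h20 : (𝐂(x)).relIndex 𝐍[𝐂(x)] ≠ 1 := fun e => hs' (relIndex_eq_one.1 e h17)
    rw [← h6, h10, h7, hc] at h9
    have h21 : (𝐂(x)).index = 12 := by omega
    rw [h21] at h19
    have : (𝐂(x)).relIndex 𝐍[𝐂(x)] ≠ 0 := by rintro e; simp [e] at h19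
    have : 2 ≤ (𝐂(x)).relIndex 𝐍[𝐂(x)] := by omega
    nlinarith

theorem card_lt_6000 (hG : ¬ IsMulCommutative G) (h1 : Nat.card G < 6000) :
    Nat.card G ∈ [60, 168, 360, 504, 660, 1092, 2448, 2520, 3420, 4080, 5616] := by
  by_cases h : Nat.card G ≤ 1092 ∨ 3640 < Nat.card G
  · have := card_small hG (by omega) (h.imp_left .inl)
    simp only [List.mem_cons, List.not_mem_nil, or_false] at this ⊢
    omega
  by_cases h2 : 16 ∣ Nat.card G ∨ 56 ∣ Nat.card G
  · have h3 := List.all_eq_true.1 hints2_cover (Nat.card G) (List.mem_range.2 (by omega))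
    simp only [Bool.or_eq_true, Bool.not_eq_true', beq_iff_eq, decide_eq_true_eq,
      ← Bool.not_eq_true, not_true, or_false, not_mem_hints2 hG,
      ← Nat.dvd_iff_mod_eq_zero, h2, false_or, List.mem_cons, List.not_mem_nil, card_ne_3360,
      card_ne_3528, card_ne_3600] at h3 ⊢
    omega
  rw [not_or] at h2
  simp only [List.mem_cons, List.not_mem_nil, or_false]
  obtain ⟨q, h3, h4, h5, h6⟩ | h3 := card_of_kn (kn_of_small hG h2.1 h2.2)
  · have h7 : q < 24 := by
      by_contra h7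
      have : 24 * 23 * 25 ≤ q * (q - 1) * (q + 1) := by gcongr <;> omega
      omega
    rw [Nat.odd_iff] at h4
    interval_cases q <;> first | omega | exact absurd h3 (by decide +kernel)
  · omega

end H10
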