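import Cfsg.Agent.H10.DG3
import Cfsg.Agent.H10.PSL2Max
import Cfsg.Agent.H24.PSL2Deg
import Cfsg.Agent.H16.SL25
import Cfsg.Agent.S0495
/-! Groups of order below 6000 that are not simple: solvability (`H10.solv_of_not_simple`), normal
Sylow subgroups (`ns_of_list`, `ns_2520`), divisors of degrees (`DivDeg`). -/

namespace H10
open H5 Cfsg Subgroup
open scoped MatrixGroups

universe u
variable {G : Type u} [Group G] [Finite G] {p : ℕ}

/-- The orders of the simple groups. -/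
def LS : List ℕ := [60, 168, 360, 504, 660, 1092, 2448, 2520, 3420, 4080, 5616]

instance decGood (p n : ℕ) : Decidable (Good p n) := by unfold Good; infer_instance

theorem exists_dvd_of_not_solv (h : ¬ Group.IsSolvable G) (h1 : Nat.card G < 6000) :
    ∃ m ∈ LS, m ∣ Nat.card G := by
  by_contra hc
  refine h (isSolvable_of_simple_sections (fun H _ => Nat.card H ∣ Nat.card G)
    (fun H _ _ N _ h => (card_subgroup_dvd_card N).trans h)
    (fun H _ _ N _ h => (card_quotient_dvd_card N).trans h) (fun H _ _ _ h => ?_) G dvd_rfl)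
  by_contra h2
  exact hc ⟨_, card_lt_6000 (fun e => h2 (IsSimpleGroup.comm_iff_isSolvable.1 e.is_comm.comm))
    ((Nat.le_of_dvd Nat.card_pos h).trans_lt h1), h⟩

theorem dvd_of_not_solv (h : ¬ Group.IsSolvable G) {n k : ℕ} (h1 : Nat.card G ∣ n)
    (h2 : Nat.card G < n) (h3 : n < 6000 ∧ ∀ m ∈ LS, m ∣ n → m < n → k ∣ m) : k ∣ Nat.card G := by
  obtain ⟨m, h4, h5⟩ := exists_dvd_of_not_solv h (by omega)
  exact (h3.2 m h4 (h5.trans h1) ((Nat.le_of_dvd Nat.card_pos h5).trans_lt h2)).trans h5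

theorem exists_normal_not_solv (h : ¬ Group.IsSolvable G) (hs : ¬ IsSimpleGroup G) :
    ∃ N : Subgroup G, ∃ _ : N.Normal, Nat.card N < Nat.card G ∧ Nat.card (G ⧸ N) < Nat.card G ∧
      (¬ Group.IsSolvable N ∨ ¬ Group.IsSolvable (G ⧸ N)) := by
  obtain ⟨N, hN, h1, h2⟩ := exists_normal_of_not_simple hs fun e => by
    have := (Nat.card_eq_one_iff_unique.1 e).1
    exact h inferInstance
  have e := N.card_mul_index
  refine ⟨N, hN, by nlinarith, by rw [← index]; nlinarith, not_and_or.1 fun h3 =>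
    h ((Group.isSolvable_iff_subgroup_quotient N).2 h3)⟩

theorem solv_of_not_simple {n : ℕ} (hn : Nat.card G = n) (hs : ¬ IsSimpleGroup G)
    (h3 : n < 6000 ∧ ∀ m ∈ LS, m ∣ n → m < n → 0 ∣ m) : Group.IsSolvable G := by
  subst hn
  by_contra h
  obtain ⟨N, _, h1, h2, h4 | h4⟩ := exists_normal_not_solv h hs
  · exact Nat.card_pos.ne' (zero_dvd_iff.1 (dvd_of_not_solv h4 (card_subgroup_dvd_card N) h1 h3))
  · exact Nat.card_pos.ne' (zero_dvd_iff.1 (dvd_of_not_solv h4 (card_quotient_dvd_card N) h2 h3))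

theorem ns_of_list [Fact p.Prime] {n : ℕ} (h : ¬ p ^ 2 ∣ n ∧ Good p n ∧ n ≠ 0 ∧ n < 6000 ∧
    ∀ m ∈ LS, m ∣ n → m < n → ¬ p ∣ m) (h1 : Nat.card G ∣ n)
    (hs : Nat.card G < n ∨ ¬ IsSimpleGroup G) : NS p G :=
  ns_of_good h.1 h.2.1 h.2.2.1 (fun T _ _ _ h1 h2 h3 =>
    h.2.2.2.2 _ (card_lt_6000 h1 (h3.trans h.2.2.2.1)) h2 h3) G h1 hs

theorem ns_of_list' [Fact p.Prime] {n : ℕ} (h : ¬ p ^ 2 ∣ n ∧ Good p n ∧ n ≠ 0 ∧ n < 6000 ∧
    ∀ m ∈ LS, m ∣ n → ¬ p ∣ m) (h1 : Nat.card G ∣ n) : NS p G := by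
  by_cases hs : IsSimpleGroup G
  · by_cases h4 : IsMulCommutative G
    · obtain ⟨P⟩ : Nonempty (Sylow p G) := inferInstance
      exact ns_of_normal P (normal_of_isMulCommutative _)
    · exact ns_of_not_dvd (h.2.2.2.2 _ (card_lt_6000 h4
        ((Nat.le_of_dvd (Nat.pos_of_ne_zero h.2.2.1) h1).trans_lt h.2.2.2.1)) h1)
  · exact ns_of_list ⟨h.1, h.2.1, h.2.2.1, h.2.2.2.1, fun m h1 h2 _ => h.2.2.2.2 m h1 h2⟩ h1 (.inr hs)

instance factSeven : Fact (Nat.Prime 7) := ⟨by norm_num⟩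

theorem sixty_dvd (h : Nat.card G ∣ 2520) (h1 : ¬ NS 5 G) : 60 ∣ Nat.card G := by
  by_contra h2
  refine h1 (ns_of_list' ⟨fun e => absurd (e.trans h) (by norm_num),
    (by decide +kernel : Good 5 2520).of_dvd (by norm_num) h, Nat.card_pos.ne',
    (Nat.le_of_dvd (by norm_num) h).trans_lt (by norm_num), fun m h3 h4 h5 => h2 (Dvd.dvd.trans ?_ h4)⟩
    dvd_rfl)
  exact (by decide +kernel : ∀ m ∈ LS, m ∣ 2520 → 5 ∣ m → 60 ∣ m) m h3 (h4.trans h) h5

theorem ns_2520 (G : Type u) [Group G] [Finite G] (h : Nat.card G ∣ 2520)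
    (hs : Nat.card G < 2520 ∨ ¬ IsSimpleGroup G) : NS 5 G ∨ NS 7 G := by
  induction hm : Nat.card G using Nat.strong_induction_on generalizing G with
  | _ m ih =>
  by_contra hc
  rw [not_or] at hc
  obtain ⟨h5, h7⟩ := hc
  have d5 : 5 ∣ Nat.card G := by_contra fun e => h5 (ns_of_not_dvd e)
  have d7 : 7 ∣ Nat.card G := by_contra fun e => h7 (ns_of_not_dvd e)
  have l := Nat.le_of_dvd (by norm_num) h
  by_cases h3 : IsSimpleGroup G
  · by_cases h4 : IsMulCommutative G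
    · obtain ⟨P⟩ : Nonempty (Sylow 5 G) := inferInstance
      exact h5 (ns_of_normal P (normal_of_isMulCommutative _))
    · have := card_lt_6000 h4 (by omega)
      have := hs.resolve_right (not_not.2 h3)
      simp only [List.mem_cons, List.not_mem_nil, or_false] at *
      omega
  obtain ⟨N, hN, h4, h4'⟩ := exists_normal_of_not_simple h3 (by omega)
  have e := N.card_mul_index
  have h8 : Nat.card N < m := by rw [← hm, ← e]; nlinarith
  have h9 : Nat.card (G ⧸ N) < m := by rw [← hm, ← e, ← index]; nlinarith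
  have dN := (card_subgroup_dvd_card N).trans h
  have dQ := (card_quotient_dvd_card N).trans h
  have n5 : ¬ 5 ^ 2 ∣ Nat.card G := fun e => absurd (e.trans h) (by norm_num)
  have n7 : ¬ 7 ^ 2 ∣ Nat.card G := fun e => absurd (e.trans h) (by norm_num)
  have up : ∀ (q : ℕ) [Fact q.Prime], ¬ q ^ 2 ∣ Nat.card G → q ∣ Nat.card N → NS q N → NS q G :=
    fun q _ h1 h2 h3 => ns_of_sub N (fun h10 => h1 (by rw [← e, sq]; exact Nat.mul_dvd_mul h2 h10)) h3
  have a7 : ∀ (X : Type u) [Group X] [Finite X], Nat.card X ∣ 42 → NS 7 X := fun X _ _ h =>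
    ns_of_list' (by decide +kernel) h
  by_cases h10 : 5 ∣ Nat.card N
  · have h11 : ¬ NS 5 N := fun e => h5 (up 5 n5 h10 e)
    obtain ⟨k, hk⟩ := sixty_dvd dN h11
    have h12 : NS 7 (G ⧸ N) := a7 _ (Nat.dvd_of_mul_dvd_mul_left (by norm_num : 0 < 60)
      (Dvd.dvd.trans ⟨k, by rw [← index, ← e, hk]; ring⟩ h))
    by_cases h13 : 7 ∣ Nat.card N
    · exact h7 (up 7 n7 h13 ((ih _ h8 N dN (.inl (by omega)) rfl).resolve_left h11))
    obtain ⟨P⟩ : Nonempty (Sylow 7 G) := inferInstance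
    have hP := card_sylow_prime d7 n7 P
    have hn : (P : Subgroup G) ≤ 𝐍[N] := le_normalizer_of_normal
    have key : ∀ q : ℕ, q = 3 ∨ q = 5 → ∀ i, 0 < i → q ^ i ∣ Nat.card N → ¬ 7 ∣ q ^ i - 1 := by
      intro q hq i h1 h2
      have h3 : i < 3 := by
        by_contra h3
        have := ((pow_dvd_pow q (not_lt.1 h3)).trans h2).trans dN
        rcases hq with rfl | rfl <;> norm_num at this
      rcases hq with rfl | rfl <;> interval_cases i <;> norm_num
    obtain ⟨Q, q1, q2⟩ := exists_sylowIn_le_C hP hn h13 (key 3 (.inl rfl))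
    obtain ⟨R, r1, r2⟩ := exists_sylowIn_le_C hP hn h13 (key 5 (.inr rfl))
    have c1 := relIndex_dvd_of_le_left N (le_inf q1.le q2)
    have c2 := relIndex_dvd_of_le_left N (le_inf r1.le r2)
    have c3 := card_mul_index ((N ⊓ 𝐂[(P : Subgroup G)]).subgroupOf N)
    rw [Nat.card_congr (subgroupOfEquivOfLe inf_le_left).toEquiv, ← relIndex] at c3
    have c4 := dvd_card_sub hP hn
    generalize hr : (N ⊓ 𝐂[(P : Subgroup G)]).relIndex N = r at c1 c2 c3
    have c5 : ¬ 7 ∣ Nat.card (N ⊓ 𝐂[(P : Subgroup G)] : Subgroup G) := fun e =>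
      h13 (e.trans ⟨r, c3.symm⟩)
    rw [← c3, ← Nat.mul_sub_one, Nat.Prime.dvd_mul (by norm_num), or_iff_right c5] at c4
    have c6 : r = 1 ∨ r = 8 := (by decide +kernel : ∀ r ∈ Nat.divisors 2520, ¬ 3 ∣ r → ¬ 5 ∣ r →
      7 ∣ r - 1 → r = 1 ∨ r = 8) r (Nat.mem_divisors.2 ⟨(Dvd.intro_left _ c3).trans dN, by norm_num⟩)
      (fun e => q1.not_dvd (e.trans c1)) (fun e => r1.not_dvd (e.trans c2)) c4
    rcases c6 with rfl | rfl
    · exact h7 (ns_of_le_normalizer N h12 P (((relIndex_eq_one.1 hr).trans inf_le_right).trans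
        (centralizer_le_normalizer _)))
    have c7 : NS 5 (N ⊓ 𝐂[(P : Subgroup G)] : Subgroup G) := ns_of_list' (n := 315) (by decide +kernel)
      (Nat.dvd_of_mul_dvd_mul_right (by norm_num : 0 < 8) (c3 ▸ dN))
    have c8 := (normal_subgroupOf_iff_le_normalizer (le_inf r1.le r2)).1
      (r1.of_le (le_inf r1.le r2) inf_le_left).toSylow.normal_of_subsingleton
    have c9 : Nat.card (Sylow 5 N) ∣ 8 := by
      rw [card_sylow_eq_index r1.toSylow, r1.coe_toSylow, ← subgroupOf_normalizer_eq r1.le, ← hr]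
      exact relIndex_dvd_of_le_left N c8
    have c10 := card_sylow_modEq_one 5 N
    refine h11 (Nat.card_eq_one_iff_unique.1 ?_).1
    exact (by decide +kernel : ∀ n ∈ Nat.divisors 8, n % 5 = 1 % 5 → n = 1) _
      (Nat.mem_divisors.2 ⟨c9, by norm_num⟩) c10
  · have h11 : ¬ NS 5 (G ⧸ N) := fun e => h5 (ns_of_quot n5 N h10
      ((by decide +kernel : Good 5 2520).of_dvd (by norm_num) dN) e)
    obtain ⟨k, hk⟩ := sixty_dvd dQ h11
    have h12 : Nat.card N ∣ 42 := Nat.dvd_of_mul_dvd_mul_left (by norm_num : 0 < 60)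
      (Dvd.dvd.trans ⟨k, by rw [← e, index, hk]; ring⟩ h)
    by_cases h13 : 7 ∣ Nat.card N
    · exact h7 (up 7 n7 h13 (a7 _ h12))
    · exact h7 (ns_of_quot n7 N h13 ((by decide +kernel : Good 7 42).of_dvd (by norm_num) h12)
        ((ih _ h9 _ dQ (.inl (by omega)) rfl).resolve_left h11))

/-- `d` divides some degree. -/
def DivDeg (G : Type*) [Group G] (d : ℕ) : Prop := ∃ e ∈ charDegrees G, d ∣ e

theorem deg_of_over {N : Subgroup G} [N.Normal] [Fintype N] {θ : N → ℂ} (hθ : IsIrrCharacter N θ)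
    {χ : G → ℂ} (hχ : IsIrrCharacter G χ) (h : classInner (fun n : N => χ n) θ ≠ 0) :
    ∃ b : ℕ, b ∣ N.index ∧ charDegree χ = b * charDegree θ := by
  obtain ⟨b, h1, h2⟩ := H6.degree_ratio_dvd hθ hχ h
  rw [← hθ.coe_charDegree, ← hχ.coe_charDegree] at h2
  exact ⟨b, h1, by exact_mod_cast h2⟩

theorem DivDeg.of_sub {d : ℕ} (N : Subgroup G) [N.Normal] (h : DivDeg N d) : DivDeg G d := by
  have := Fintype.ofFinite G
  have := Fintype.ofFinite N
  obtain ⟨_, ⟨θ, rfl⟩, h⟩ := h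
  obtain ⟨χ, h1, h2⟩ := H6.exists_irr_over θ.2
  obtain ⟨b, -, h3⟩ := deg_of_over θ.2 h1 h2
  exact ⟨_, ⟨⟨χ, h1⟩, rfl⟩, h3 ▸ h.mul_left b⟩

omit [Finite G] in
theorem DivDeg.of_quot {d : ℕ} (N : Subgroup G) [N.Normal] (h : DivDeg (G ⧸ N) d) : DivDeg G d :=
  let ⟨e, h1, h2⟩ := h
  ⟨e, H24.charDegrees_subset_of_surjective _ (QuotientGroup.mk'_surjective N) h1, h2⟩

theorem DivDeg.to_sub {d : ℕ} (N : Subgroup G) [N.Normal] (hc : d.Coprime N.index)
    (h : DivDeg G d) : DivDeg N d := by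
  have := Fintype.ofFinite N
  obtain ⟨_, ⟨χ, rfl⟩, h⟩ := h
  obtain ⟨θ, h1, h2⟩ := H6.exists_irr_under (N := N) χ.2
  obtain ⟨b, h3, h4⟩ := deg_of_over h1 χ.2 h2
  exact ⟨_, ⟨⟨θ, h1⟩, rfl⟩, (hc.coprime_dvd_right h3).dvd_of_dvd_mul_left (h4 ▸ h)⟩

theorem sum_sq_le_card (S : Finset (IrrCharacter G)) :
    ∑ χ ∈ S, charDegree (χ : G → ℂ) ^ 2 ≤ Nat.card G := by
  classical
  have := Fintype.ofFinite G
  have h := sum_sq_degrees (G := G)
  rw [Finset.sum_congr rfl (g := fun χ : IrrCharacter G => (charDegree (χ : G → ℂ) : ℂ) ^ 2)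
    fun χ _ => by rw [χ.2.coe_charDegree]] at h
  have h' : ∑ χ : IrrCharacter G, charDegree (χ : G → ℂ) ^ 2 = Nat.card G := by exact_mod_cast h
  rw [← h']
  exact Finset.sum_le_sum_of_subset (Finset.subset_univ _)

theorem deg_60 (h : Nat.card G = 60) (hs : ¬ Group.IsSolvable G) :
    4 ∈ charDegrees G ∧ 3 ∈ charDegrees G := by
  obtain ⟨f⟩ := H16.equiv_A5_of_not_solvable h hs
  have := Fintype.ofFinite (GaloisField 2 2)
  have c : Fintype.card (GaloisField 2 2) = 4 := by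
    rw [← Nat.card_eq_fintype_card, GaloisField.card 2 2 two_ne_zero]; rfl
  have := Matrix.ProjectiveSpecialLinearGroup.rank_two_simple (F := GaloisField 2 2)
    (Nat.card_eq_fintype_card.trans c).ge
  obtain ⟨e⟩ := equiv_A5_of_simple (card_PSL2_of 60 c rfl)
  have := (H24.degrees_of_iso c.ge (by omega) (.inl ⟨f.trans e.symm⟩)).2
  rw [c] at this
  exact ⟨this.1, this.2.2⟩

theorem deg_168 (h : Nat.card G = 168) (hs : ¬ Group.IsSolvable G) : 6 ∈ charDegrees G := by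
  have : IsSimpleGroup G := by_contra fun e => hs (solv_of_not_simple h e (by decide +kernel))
  have := (H24.degrees_of_iso (F := ZMod 7) (by simp) (by simp)
    (.inl (Cfsg.Agent.S0495.result h (ZMod.card 7)))).2.2.2
  simpa using this

theorem divDeg_504 (h : Nat.card G = 504) (hs : ¬ IsSimpleGroup G) (h1 : ¬ Group.IsSolvable G) :
    DivDeg G 6 := by
  have key : ∀ (X : Type u) [Group X] [Finite X], Nat.card X ∣ Nat.card G → Nat.card X < Nat.card G →
      ¬ Group.IsSolvable X → DivDeg X 6 := fun X _ _ h2 h3 h4 => by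
    rw [h] at h2 h3
    have h5 := dvd_of_not_solv (k := 168) h4 h2 h3 (by decide +kernel)
    exact ⟨6, deg_168 ((by decide +kernel : ∀ n ∈ Nat.divisors 504, 168 ∣ n → n < 504 → n = 168) _
      (Nat.mem_divisors.2 ⟨h2, by norm_num⟩) h5 h3) h4, dvd_rfl⟩
  obtain ⟨N, _, h2, h3, h4 | h4⟩ := exists_normal_not_solv h1 hs
  · exact (key N (card_subgroup_dvd_card N) h2 h4).of_sub N
  · exact (key _ (card_quotient_dvd_card N) h3 h4).of_quot N

theorem not_divDeg_120 (h : Nat.card G = 120) (h1 : ¬ Group.IsSolvable G) : ¬ DivDeg G 10 := by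
  classical
  have key : ∀ (X : Type u) [Group X] [Finite X], Nat.card X ∣ Nat.card G → Nat.card X < Nat.card G →
      ¬ Group.IsSolvable X → DivDeg X 4 ∧ DivDeg X 3 := fun X _ _ h2 h3 h4 => by
    rw [h] at h2 h3
    have h5 := dvd_of_not_solv (k := 60) h4 h2 h3 (by decide +kernel)
    have := Nat.card_pos (α := X)
    have := deg_60 (by omega) h4
    exact ⟨⟨4, this.1, dvd_rfl⟩, 3, this.2, dvd_rfl⟩
  obtain ⟨⟨_, ⟨a, rfl⟩, ha⟩, _, ⟨b, rfl⟩, hb⟩ : DivDeg G 4 ∧ DivDeg G 3 := by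
    obtain ⟨N, _, h2, h3, h4 | h4⟩ := exists_normal_not_solv h1 (H16.not_simple_120 h)
    · exact (key N (card_subgroup_dvd_card N) h2 h4).imp (.of_sub N) (.of_sub N)
    · exact (key _ (card_quotient_dvd_card N) h3 h4).imp (.of_quot N) (.of_quot N)
  rintro ⟨_, ⟨c, rfl⟩, hc⟩
  have k : ∀ χ : IrrCharacter G, 0 < charDegree (χ : G → ℂ) ∧ charDegree (χ : G → ℂ) < 11 := fun χ => by
    have := sum_sq_le_card {χ}
    rw [Finset.sum_singleton, h] at this
    refine ⟨Nat.pos_of_ne_zero fun e => ?_, by nlinarith⟩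
    have := χ.2.degree_dvd_card χ.2.coe_charDegree.symm
    rw [e, h] at this
    omega
  have ka := k a
  have kb := k b
  have kc := k c
  have := sum_sq_le_card {a, b, c}
  rw [Finset.sum_insert (by simp only [Finset.mem_insert, Finset.mem_singleton]; rintro (rfl | rfl) <;> omega),
    Finset.sum_pair (by rintro rfl; omega), h] at this
  have h4 : 4 ≤ charDegree (a : G → ℂ) := by omega
  have h5 : 3 ≤ charDegree (b : G → ℂ) := by omega
  have h6 : 10 ≤ charDegree (c : G → ℂ) := by omega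
  nlinarith

end H10
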