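import Cfsg.Agent.H10.DG4
import Cfsg.Agent.H2.AutAlt
/-! Groups of order 360 that are not simple: `H10.divDeg_360`. -/

namespace H10
open H5 Cfsg Subgroup

universe u
variable {G : Type u} [Group G] [Finite G]

theorem dvd_six {n : ℕ} (h : n ∣ 6) : n = 1 ∨ n = 2 ∨ n = 3 ∨ n = 6 :=
  (by decide +kernel : ∀ n ∈ Nat.divisors 6, n = 1 ∨ n = 2 ∨ n = 3 ∨ n = 6) n
    (Nat.mem_divisors.2 ⟨h, by norm_num⟩)

theorem exists_normal_three (N : Subgroup G) [N.Normal] (h1 : 3 ∣ Nat.card N) (h2 : Nat.card N ∣ 6) :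
    ∃ T : Subgroup G, T.Normal ∧ Nat.card T = 3 := by
  have : NS 3 N := ns_of_list' (by decide +kernel) h2
  obtain ⟨P⟩ : Nonempty (Sylow 3 N) := inferInstance
  refine ⟨(P : Subgroup N).map N.subtype, inferInstance, ?_⟩
  rw [card_subtype]
  exact card_sylow_prime h1 (fun e => absurd (e.trans h2) (by norm_num)) P

theorem not_perfect_of_three (hG : commutator G = ⊤) {m : ℕ} (h : Nat.card G = 3 ^ 2 * m)
    (hm : ¬ 3 ∣ m) (N : Subgroup G) [N.Normal] (h1 : 3 ∣ Nat.card N) (h2 : Nat.card N ∣ 6) :
    False := by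
  obtain ⟨T, hT, h3⟩ := exists_normal_three N h1 h2
  have h4 := relIndex_centralizer_dvd h3
  rw [normalizer_eq_top, relIndex_top_right] at h4
  have h5 := index_eq_one.1 (((Nat.dvd_prime Nat.prime_two).1 h4).resolve_right
    (index_ne_two_of_perfect hG _))
  obtain ⟨P, hP⟩ := (IsPGroup.of_card (p := 3) (n := 1) h3).exists_le_sylow
  obtain ⟨⟨z, hz⟩, hz1⟩ := ne_bot_iff_exists_ne_one.1 (show T ≠ ⊥ by rintro rfl; simp at h3)
  exact hz1 (Subtype.ext (eq_one_of_normalizer_comm hG P
    (IsPGroup.isMulCommutative_of_card_eq_prime_sq (sylow_card_of h hm P)) (hP hz) fun n _ =>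
      ((h5 ▸ mem_top n : n ∈ 𝐂[T]) z hz).symm))

theorem sixty_dvd_index (hG : commutator G = ⊤) (h : Nat.card G ∣ 360) (N : Subgroup G) [N.Normal]
    (h1 : 1 < Nat.card N) (h2 : 1 < N.index) : 60 ∣ N.index := by
  have : Group.IsPerfect G := ⟨hG⟩
  have : Nontrivial (G ⧸ N) := Finite.one_lt_card_iff_nontrivial.1 h2
  have e := N.card_mul_index
  have := Nat.le_of_dvd (by norm_num) h
  exact dvd_of_not_solv (Group.IsPerfect.not_isSolvable (G ⧸ N)) ((card_quotient_dvd_card N).trans h)
    (by rw [← index]; nlinarith) (by decide +kernel)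

theorem not_perfect_180 (h : Nat.card G = 180) : commutator G ≠ ⊤ := fun hG => by
  obtain ⟨N, _, h1, h2⟩ := exists_normal_of_not_simple (G := G) (fun _ => by
    have := card_lt_6000 (not_comm_of_simple_of_not_prime (G := G) (by rw [h]; norm_num)) (by omega)
    simp [h] at this) (by omega)
  obtain ⟨k, hk⟩ := sixty_dvd_index hG (by rw [h]; norm_num) N h1 h2
  have e := N.card_mul_index
  rw [hk, h] at e
  have : Nat.card N ∣ 3 := ⟨k, by linarith⟩
  have : Nat.card N = 3 := ((Nat.dvd_prime Nat.prime_three).1 this).resolve_left h1.ne'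
  exact not_perfect_of_three (m := 20) hG h (by norm_num) N (by rw [this]) (by rw [this]; norm_num)

theorem not_perfect_360 (h : Nat.card G = 360) (hs : ¬ IsSimpleGroup G) : commutator G ≠ ⊤ :=
  fun hG => by
  obtain ⟨N, _, h1, h2⟩ := exists_normal_of_not_simple hs (by omega)
  obtain ⟨k, hk⟩ := sixty_dvd_index hG h.dvd N h1 h2
  have e := N.card_mul_index
  have h3 : Nat.card N ∣ 6 := ⟨k, by rw [hk, h] at e; linarith⟩
  by_cases h4 : 3 ∣ Nat.card N
  · exact not_perfect_of_three (m := 40) hG h (by norm_num) N h4 h3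
  · have h5 : Nat.card N = 2 := by
      have := dvd_six h3
      omega
    have : Group.IsPerfect G := ⟨hG⟩
    exact not_perfect_180 (G := G ⧸ N) (by rw [← index]; rw [h5, h] at e; omega)
      Group.IsPerfect.commutator_eq_top

theorem not_solv_sub (h : ¬ Group.IsSolvable G) (N : Subgroup G) [N.Normal]
    (h1 : Group.IsSolvable (G ⧸ N)) : ¬ Group.IsSolvable N := fun e =>
  h ((Group.isSolvable_iff_subgroup_quotient N).2 ⟨e, h1⟩)

theorem not_divDeg_of_three (h : Nat.card G = 360) (hs : ¬ Group.IsSolvable G) (N : Subgroup G)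
    [N.Normal] (h1 : N.index = 3) : ¬ DivDeg G 10 := fun h2 => by
  have e := N.card_mul_index
  rw [h1, h] at e
  exact not_divDeg_120 (by omega) (not_solv_sub hs N (isSolvable_of_card_prime
    (by rw [← index, h1]; norm_num))) (h2.to_sub N (by rw [h1]; norm_num))

theorem divDeg_of_sixty (h : Nat.card G = 360) (K : Subgroup G) [K.Normal] (h1 : Nat.card K = 60)
    (hs : ¬ Group.IsSolvable K) (hc : ¬ IsMulCommutative (G ⧸ K)) : DivDeg G 6 := by
  have := Fintype.ofFinite G
  have := Fintype.ofFinite K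
  have := Fintype.ofFinite (G ⧸ K)
  have e := K.card_mul_index
  rw [h1, h] at e
  have hi : K.index = 6 := by omega
  obtain ⟨f⟩ := H16.equiv_A5_of_not_solvable h1 hs
  obtain ⟨T, hT, h3⟩ : ∃ T : Subgroup G, T.Normal ∧ Nat.card T = 3 := by
    have h2 := relIndex_centralizer_dvd_card_mulAut K
    rw [normalizer_eq_top, relIndex_top_right, Nat.card_congr (MulAut.congr f).toEquiv,
      ← Nat.card_eq_of_bijective _ (H2.conjNormal_alt_bijective (α := Fin 5) (by simp) (by simp)),
      Nat.card_perm] at h2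
    have h3 := (𝐂[K]).card_mul_index
    have h4 : K ⊓ 𝐂[K] = ⊥ := by
      have := f.isSimpleGroup
      rcases (inferInstance : ((𝐂[K]).subgroupOf K).Normal).eq_bot_or_eq_top with e | e
      · rwa [subgroupOf_eq_bot, disjoint_comm, disjoint_iff] at e
      · exact (hs (Group.isSolvable_of_comm fun a b =>
          Subtype.ext ((subgroupOf_eq_top.1 e b.2) a a.2))).elim
    refine exists_normal_three 𝐂[K] ?_ ?_
    · obtain ⟨k, hk⟩ := h2
      refine ⟨k, Nat.eq_of_mul_eq_mul_right (Nat.pos_of_ne_zero (𝐂[K]).index_ne_zero_of_finite) ?_⟩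
      rw [h3, h, mul_assoc, mul_comm k, ← hk]
      simp [Nat.factorial]
    · rw [← hi, ← relIndex_bot_left, ← h4, inf_relIndex_right]
      exact relIndex_dvd_index_of_normal _ _
  obtain ⟨-, φ, hφ⟩ := deg_60 h1 hs
  obtain ⟨χ, c1, c2⟩ := H6.exists_irr_over φ.2
  obtain ⟨b, c3, c4⟩ := deg_of_over φ.2 c1 c2
  have c5 := H6.ito_degree_dvd T (fun a ha b hb => comm_of_card_prime h3 hb a ha) c1
  have c6 := T.card_mul_index
  rw [h3, h] at c6
  rw [show T.index = 120 by omega, c4, hφ] at c5
  rw [hi] at c3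
  rw [hφ] at c4
  by_cases c7 : 2 ∣ b
  · exact ⟨_, ⟨⟨χ, c1⟩, rfl⟩, by dsimp only; omega⟩
  obtain rfl : b = 1 := by
    rcases dvd_six c3 with rfl | rfl | rfl | rfl <;> omega
  have c8 := H6.eq_of_constituent_of_apply_one (c1.isCharacter.comp K.subtype) φ.2 c2 (by
    rw [← φ.2.coe_charDegree, hφ, map_one, ← c1.coe_charDegree, c4])
  obtain ⟨β, hβ⟩ := not_forall.1 fun e => hc ⟨⟨forall_irr_degree_one_iff.1 e⟩⟩
  have c9 : charDegree (β : G ⧸ K → ℂ) = 2 := by
    have d1 := sum_sq_le_card {β}
    have d2 := β.2.degree_dvd_card β.2.coe_charDegree.symm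
    rw [Finset.sum_singleton, ← index, hi] at d1
    rw [← index, hi] at d2
    have d3 : charDegree (β : G ⧸ K → ℂ) ≠ 1 := fun e => hβ (by rw [← β.2.coe_charDegree, e]; simp)
    have : charDegree (β : G ⧸ K → ℂ) < 3 := by nlinarith
    have := dvd_six d2
    omega
  have c10 := H6.gallagher_irr (N := K) c1.isCharacter (by have := φ.2; rwa [← c8] at this)
    (β.2.comp_surjective _ (QuotientGroup.mk'_surjective K)) fun n => by
      simp [(QuotientGroup.eq_one_iff _).2 n.2]
  refine ⟨6, ⟨⟨_, c10⟩, H7.charDegree_eq ?_⟩, dvd_rfl⟩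
  simp only [Pi.mul_apply, map_one]
  rw [← β.2.coe_charDegree, ← c1.coe_charDegree, c9, c4]
  norm_num

theorem divDeg_360 (h : Nat.card G = 360) (hs : ¬ IsSimpleGroup G) (h1 : ¬ Group.IsSolvable G)
    (h2 : DivDeg G 10) : DivDeg G 6 := by
  have c1 : IsMulCommutative (G ⧸ commutator G) :=
    Normal.quotient_commutative_iff_commutator_le.2 le_rfl
  have c2 := not_solv_sub h1 (commutator G) (Group.isSolvable_of_comm c1.is_comm.comm)
  have e := (commutator G).card_mul_index
  have c3 := one_lt_index_of_ne_top (not_perfect_360 h hs)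
  have c0 := Nat.card_pos (α := commutator G)
  obtain ⟨k, hk⟩ := dvd_of_not_solv (k := 60) c2 ((card_subgroup_dvd_card _).trans h.dvd)
    (by nlinarith) (by decide +kernel)
  have c4 : (commutator G).index ∣ 6 := ⟨k, by rw [hk, h] at e; linarith⟩
  by_cases c5 : 3 ∣ (commutator G).index
  · obtain ⟨P⟩ : Nonempty (Sylow 2 (G ⧸ commutator G)) := inferInstance
    have : (P : Subgroup (G ⧸ commutator G)).Normal := normal_of_isMulCommutative _
    refine (not_divDeg_of_three h h1 ((P : Subgroup (G ⧸ commutator G)).comap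
      (QuotientGroup.mk' _)) ?_ h2).elim
    rw [index_comap_of_surjective _ (QuotientGroup.mk'_surjective _)]
    have := Nat.le_of_dvd (by norm_num) c4
    rcases (by omega : (commutator G).index = 3 ∨ (commutator G).index = 6) with e | e
    exacts [sylow_index_of (G := G ⧸ commutator G) (p := 2) (a := 0) (m := 3) e (by norm_num) P,
      sylow_index_of (G := G ⧸ commutator G) (p := 2) (a := 1) (m := 3) e (by norm_num) P]
  have c6 : Nat.card (commutator G) = 180 := by
    have := dvd_six c4
    rw [show (commutator G).index = 2 by omega, h] at e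
    omega
  have c7 : IsMulCommutative (commutator G ⧸ commutator (commutator G)) :=
    Normal.quotient_commutative_iff_commutator_le.2 le_rfl
  have c8 := not_solv_sub c2 _ (Group.isSolvable_of_comm c7.is_comm.comm)
  have e' := (commutator (commutator G)).card_mul_index
  have c9 := one_lt_index_of_ne_top (not_perfect_180 c6)
  have c10 := Nat.card_pos (α := commutator (commutator G))
  have c11 := (card_subgroup_dvd_card (commutator (commutator G))).trans c6.dvd
  have c12 : Nat.card (commutator (commutator G)) < 180 := by nlinarith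
  have c13 := dvd_of_not_solv (k := 60) c8 c11 c12 (by decide +kernel)
  have c14 : Nat.card ((commutator (commutator G)).map (commutator G).subtype) = 60 := by
    rw [card_subtype]
    exact (by decide +kernel : ∀ n ∈ Nat.divisors 180, 60 ∣ n → n < 180 → n = 60) _
      (Nat.mem_divisors.2 ⟨c11, by norm_num⟩) c13 c12
  refine divDeg_of_sixty h _ c14 (fun e => c8 (Group.isSolvable_of_isSolvable_injective
    (f := (equivMapOfInjective _ _ (subtype_injective _)).toMonoidHom) (MulEquiv.injective _)))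
    fun e => ?_
  have := card_le_of_le (Normal.quotient_commutative_iff_commutator_le.1 e)
  omega

end H10
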