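import Cfsg.Agent.H9.BSChar
import Cfsg.Agent.H9.SylowBasic
import Cfsg.Agent.H9.Dihedral
import Cfsg.Agent.H18.BG1
import Mathlib.GroupTheory.FiniteAbelian.Duality

/-! Groups with Sylow `3`-normaliser `S₃ × S₃` containing all centralisers of its elements of order
three (`E9`): a norm three generalized character puts an involution into a proper normal subgroup
(`E9.exists_ker`), and then a normal subgroup meets the Sylow subgroup in order three (`E9.exists_normal`). -/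

set_option autoImplicit false

namespace H10

open H5 H9 Cfsg Subgroup
open scoped ComplexConjugate commutatorElement

variable {G : Type*} [Group G] [Finite G]

instance fact_three_E9 : Fact (Nat.Prime 3) := ⟨Nat.prime_three⟩

/-- Sylow `3`-subgroup `⟨y⟩ × ⟨z⟩` with normaliser `⟨y, a⟩ × ⟨z, b⟩`. -/
structure E9 (T : Sylow 3 G) (y z a b : G) : Prop where
  cT : centralizer ((T : Subgroup G) : Set G) = T
  loc : ∀ t ∈ (T : Subgroup G), t ≠ 1 → centralizer ({t} : Set G) ≤ normalizer ((T : Subgroup G) : Set G)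
  t3 : ∀ t ∈ (T : Subgroup G), t ^ 3 = 1
  hy : y ∈ (T : Subgroup G)
  hz : z ∈ (T : Subgroup G)
  y1 : y ≠ 1
  z1 : z ≠ 1
  gen : ∀ t ∈ (T : Subgroup G), ∃ i j : ℕ, t = y ^ i * z ^ j
  aN : a ∈ normalizer ((T : Subgroup G) : Set G)
  bN : b ∈ normalizer ((T : Subgroup G) : Set G)
  a2 : a * a = 1
  b2 : b * b = 1
  ay : a * y * a⁻¹ = y⁻¹
  az : a * z * a⁻¹ = z
  hb : b * y * b⁻¹ = y
  bz : b * z * b⁻¹ = z⁻¹
  acty : ∀ n ∈ normalizer ((T : Subgroup G) : Set G), n * y * n⁻¹ = y ∨ n * y * n⁻¹ = y⁻¹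
  actz : ∀ n ∈ normalizer ((T : Subgroup G) : Set G), n * z * n⁻¹ = z ∨ n * z * n⁻¹ = z⁻¹

theorem ne_inv_of_cube {A : Type*} [Group A] {u : A} (h : u ^ 3 = 1) (h1 : u ≠ 1) : u⁻¹ ≠ u := fun e =>
  h1 (by rw [pow_succ, pow_two] at h; nth_rewrite 1 [← e] at h; simpa using h)

theorem mem_C1 {A : Type*} [Group A] {g u : A} : g ∈ centralizer ({u} : Set A) ↔ g * u * g⁻¹ = u := by
  rw [mem_centralizer_singleton_iff, mul_inv_eq_iff_eq_mul]

namespace E9

variable {T : Sylow 3 G} {y z a b : G} (h : E9 T y z a b)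
include h

omit [Finite G] in
theorem comm {s t : G} (hs : s ∈ (T : Subgroup G)) (ht : t ∈ (T : Subgroup G)) : s * t = t * s :=
  (h.cT.ge ht : t ∈ centralizer _) s hs

omit [Finite G] in
theorem symm : E9 T z y b a :=
  { h with
    hy := h.hz, hz := h.hy, y1 := h.z1, z1 := h.y1, aN := h.bN, bN := h.aN, a2 := h.b2, b2 := h.a2
    ay := h.bz, az := h.hb, hb := h.az, bz := h.ay, acty := h.actz, actz := h.acty
    gen := fun t ht => by
      obtain ⟨i, j, e⟩ := h.gen t ht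
      exact ⟨j, i, e.trans (h.comm (pow_mem h.hy _) (pow_mem h.hz _))⟩ }

omit [Finite G] h in
theorem le_T {P : Subgroup G} (hP : IsPGroup 3 P) (hN : P ≤ normalizer ((T : Subgroup G) : Set G)) :
    P ≤ T := by
  have := hP.inf_normalizer_sylow T
  rw [← Sylow.coe_coe, inf_eq_left.2 hN] at this
  exact this.le.trans inf_le_right

theorem ti {t g : G} (ht : t ∈ (T : Subgroup G)) (t1 : t ≠ 1) (hg : g * t * g⁻¹ ∈ (T : Subgroup G)) :
    g ∈ normalizer ((T : Subgroup G) : Set G) := by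
  have h1 : (T : Subgroup G).map (MulAut.conj g).toMonoidHom ≤ T :=
    le_T (T.isPGroup'.map _) (le_trans (by
      rintro _ ⟨s, hs, rfl⟩
      rw [mem_centralizer_singleton_iff]
      simp [mul_assoc, ← mul_assoc s t, h.comm hs ht]) (h.loc _ hg (by simpa using t1)))
  exact mem_normalizer_fintype (S := ((T : Subgroup G) : Set G)) fun s hs => h1 ⟨s, hs, rfl⟩

omit [Finite G] in
theorem mem_T {n : G} (h1 : n * y * n⁻¹ = y) (h2 : n * z * n⁻¹ = z) : n ∈ (T : Subgroup G) :=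
  h.cT.le fun t ht => by
    obtain ⟨i, j, rfl⟩ := h.gen t ht
    exact (((Commute.pow_left (mul_inv_eq_iff_eq_mul.1 h1).symm i).mul_left
      (Commute.pow_left (mul_inv_eq_iff_eq_mul.1 h2).symm j)).eq)

omit [Finite G] h in
theorem sq_fix {n u : G} (e : n * u * n⁻¹ = u ∨ n * u * n⁻¹ = u⁻¹) : n * n * u * (n * n)⁻¹ = u := by
  rw [show n * n * u * (n * n)⁻¹ = n * (n * u * n⁻¹) * n⁻¹ by group]
  rcases e with e | e
  · rw [e, e]
  · rw [e, ← conj_inv, e, inv_inv]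

omit [Finite G] in
theorem sq_mem {n : G} (hn : n ∈ normalizer ((T : Subgroup G) : Set G)) : n * n ∈ (T : Subgroup G) :=
  h.mem_T (sq_fix (h.acty n hn)) (sq_fix (h.actz n hn))

theorem exists_lam (H : Subgroup G) (hT : (T : Subgroup G) ≤ H) {w : G} (hw : w ∈ (T : Subgroup G)) (w1 : w ≠ 1)
    (key : ∀ g ∈ H, g ∈ normalizer ((T : Subgroup G) : Set G) → g * w * g⁻¹ = w) :
    ∃ l : H →* ℂˣ, l ⟨w, hT hw⟩ ≠ 1 ∧ ∀ g, l g ^ 3 = 1 := by
  classical
  let R := (T : Subgroup G).subgroupOf H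
  let : CommGroup R := { mul_comm := fun s t => Subtype.ext (Subtype.ext (h.comm s.2 t.2)) }
  have nd : ¬ 3 ∣ R.index := fun e => T.not_dvd_index (e.trans (relIndex_dvd_index_of_le hT))
  have k : ∀ (k : ℕ) (g : H), g⁻¹ * (⟨w, hT hw⟩ : H) ^ k * g ∈ R → g⁻¹ * (⟨w, hT hw⟩ : H) ^ k * g = ⟨w, hT hw⟩ ^ k := by
    intro k g hg
    by_cases e : w ^ k = 1
    · rw [show (⟨w, hT hw⟩ : H) ^ k = 1 from Subtype.ext e]; simp
    · have := key _ (inv_mem g.2) (h.ti (pow_mem hw k) e (by simpa [R, mem_subgroupOf] using hg))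
      apply Subtype.ext
      simp only [coe_mul, coe_inv, SubmonoidClass.coe_pow]
      conv_rhs => rw [← this, conj_pow, inv_inv]
  obtain ⟨ϕ, hϕ⟩ := CommGroup.exists_apply_ne_one_of_hasEnoughRootsOfUnity R ℂ
    (a := ⟨_, MonoidHom.transfer_eq_pow_aux _ k⟩) fun e => by
      have e' : w ^ R.index = 1 := congrArg (fun x : R => ((x : H) : G)) e
      exact nd (orderOf_eq_prime (h.t3 w hw) w1 ▸ orderOf_dvd_of_pow_eq_one e')
  refine ⟨MonoidHom.transfer ϕ, by rwa [MonoidHom.transfer_eq_pow ϕ _ k], fun g => ?_⟩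
  have := Fintype.ofFinite (Quotient (MulAction.orbitRel (zpowers g) (H ⧸ R)))
  rw [MonoidHom.transfer_eq_prod_quotient_orbitRel_zpowers_quot, ← Finset.prod_pow]
  refine Finset.prod_eq_one fun q _ => ?_
  rw [← map_pow, ← map_one ϕ]
  exact congrArg ϕ (Subtype.ext (Subtype.ext (h.t3 _ (QuotientGroup.out_conj_pow_minimalPeriod_mem R g q.out))))

/-- A conjugate of `b` does not invert `y` and centralise `z`. -/
theorem not_conj_ab {x : G} (h1 : x * b * x⁻¹ * y * (x * b * x⁻¹)⁻¹ = y⁻¹)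
    (h2 : x * b * x⁻¹ * z * (x * b * x⁻¹)⁻¹ = z) : False := by
  set v := x * b * x⁻¹ with hv
  have p3 : ∀ u : G, u ^ 3 = 1 → IsPGroup 3 (zpowers u) := fun u hu =>
    IsPGroup.of_card_dvd_pow (n := 1) (by rw [Nat.card_zpowers]; exact orderOf_dvd_of_pow_eq_one hu)
  have zC : zpowers z ≤ centralizer ({v} : Set G) := zpowers_le.2 (by
    rw [mem_centralizer_singleton_iff]; exact (mul_inv_eq_iff_eq_mul.1 h2).symm)
  have yC : zpowers (x * y * x⁻¹) ≤ centralizer ({v} : Set G) := zpowers_le.2 (by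
    rw [mem_centralizer_singleton_iff, hv]
    simp [mul_assoc, ← mul_assoc b y, mul_inv_eq_iff_eq_mul.1 h.hb])
  obtain ⟨P, hP⟩ := ((p3 z (h.t3 z h.hz)).comap_subtype (K := centralizer ({v} : Set G))).exists_le_sylow
  obtain ⟨g, hg, e⟩ := exists_conj_le_sylow_sub (p3 _ (by rw [conj_pow, h.t3 y h.hy]; simp)) yC P
  have pP := P.isPGroup'.map (centralizer ({v} : Set G)).subtype
  have zP : z ∈ (P : Subgroup _).map (centralizer ({v} : Set G)).subtype :=
    ⟨⟨z, zC (mem_zpowers z)⟩, hP (mem_zpowers z), rfl⟩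
  obtain ⟨k, hk⟩ := exists_conj_le_sylow pP T
  have le := le_T pP (le_trans (fun s hs => by
    rw [mem_centralizer_singleton_iff]
    simpa [conj_mul] using h.comm (hk s hs) (hk z zP)) (h.loc z h.hz h.z1))
  have e1 := e _ (mem_zpowers _)
  have e2 := mem_centralizer_singleton_iff.1 (map_subtype_le _ e1)
  rw [show g * (x * y * x⁻¹) * g⁻¹ = g * x * y * (g * x)⁻¹ by group] at e1 e2
  refine ne_inv_of_cube (h.t3 y h.hy) h.y1 ?_
  rcases h.acty _ (h.ti h.hy h.y1 (le e1)) with e3 | e3 <;> rw [e3] at e2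
  · rw [← h1, ← e2]; simp
  · rw [← h1, (Commute.inv_left_iff.1 e2).symm.eq]; simp

theorem exists_ker (hi : ∀ x : G, x * b * x⁻¹ * y * (x * b * x⁻¹)⁻¹ = y⁻¹ →
    x * b * x⁻¹ * z * (x * b * x⁻¹)⁻¹ ≠ z⁻¹) :
    ∃ K : Subgroup G, K.Normal ∧ K ≠ ⊤ ∧ (a ∈ K ∨ b ∈ K) := by
  classical
  have := Fintype.ofFinite G
  set N := normalizer ((T : Subgroup G) : Set G)
  let C := centralizer ({y} : Set G)
  have := Fintype.ofFinite C
  have TC : (T : Subgroup G) ≤ C := fun t ht => mem_centralizer_singleton_iff.2 (h.comm ht h.hy)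
  have CN : C ≤ N := h.loc y h.hy h.y1
  obtain ⟨l, l1, l3⟩ := h.exists_lam C TC h.hy h.y1 fun g hg _ => mem_C1.1 hg
  have l2 : ∀ c, l c * l c = 1 → l c = 1 := fun c e => by
    have := l3 c
    rwa [pow_succ, pow_two, e, one_mul] at this
  have lz : l ⟨z, TC h.hz⟩ = 1 := l2 _ (by
    have : (⟨b, mem_C1.2 h.hb⟩ : C) * ⟨z, TC h.hz⟩ * (⟨b, mem_C1.2 h.hb⟩ : C)⁻¹ = (⟨z, TC h.hz⟩ : C)⁻¹ :=
      Subtype.ext h.bz
    have := congrArg l this
    simp only [map_mul, map_inv, mul_inv_cancel_comm] at this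
    exact mul_eq_one_iff_eq_inv.2 this)
  have aC : ∀ d, d ∈ C → a * d * a⁻¹ ∈ C := fun d hd => mem_C1.2 (by
    have e : a⁻¹ * y * a = y⁻¹ := by
      rw [inv_eq_of_mul_eq_one_right h.a2]; simpa [inv_eq_of_mul_eq_one_right h.a2] using h.ay
    rw [show a * d * a⁻¹ * y * (a * d * a⁻¹)⁻¹ = a * (d * (a⁻¹ * y * a) * d⁻¹) * a⁻¹ by group, e, ← conj_inv,
      mem_C1.1 hd, ← conj_inv, h.ay, inv_inv])
  have aC' : ∀ d, a * d * a⁻¹ ∈ C → d ∈ C := fun d hd => by
    have := aC _ hd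
    rwa [show a * (a * d * a⁻¹) * a⁻¹ = a * a * d * (a * a)⁻¹ by group, h.a2, one_mul, inv_one, mul_one] at this
  have la : ∀ d (hd : d ∈ C), l ⟨_, aC d hd⟩ * l ⟨d, hd⟩ = 1 := fun d hd => by
    rw [← map_mul]
    apply l2
    obtain ⟨i, j, e⟩ := h.gen _ (h.sq_mem (CN hd))
    have e1 : (⟨d, hd⟩ : C) * ⟨d, hd⟩ = ⟨y, TC h.hy⟩ ^ i * ⟨z, TC h.hz⟩ ^ j := Subtype.ext e
    have e2 : (⟨_, aC d hd⟩ : C) * ⟨_, aC d hd⟩ = (⟨y, TC h.hy⟩ : C)⁻¹ ^ i * ⟨z, TC h.hz⟩ ^ j := Subtype.ext (by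
      change a * d * a⁻¹ * (a * d * a⁻¹) = y⁻¹ ^ i * z ^ j
      rw [conj_mul, e, ← conj_mul, ← conj_pow, ← conj_pow, h.ay, h.az])
    rw [map_mul, mul_mul_mul_comm, ← map_mul, ← map_mul, e1, e2]
    simp only [map_mul, map_pow, map_inv, lz, one_pow, mul_one, inv_pow, inv_mul_cancel]
  have nm : ∀ (c : C), l c ≠ 1 → ∀ x : G, x * c * x⁻¹ ∈ C → x ∈ N := fun c hc x hx =>
    h.ti (h.sq_mem (CN c.2)) (fun e => hc (l2 c (by rw [← map_mul, show c * c = 1 from Subtype.ext e, map_one])))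
      (by rw [← conj_mul]; exact h.sq_mem (CN hx))
  have aN : ∀ x ∈ N, x ∉ C → a⁻¹ * x ∈ C := fun x hx hx' => mem_C1.2 (by
    rw [show a⁻¹ * x * y * (a⁻¹ * x)⁻¹ = a⁻¹ * (x * y * x⁻¹) * a by group,
      (h.acty x hx).resolve_left fun e => hx' (mem_C1.2 e), ← h.ay]; group)
  have nl : ∀ (c : C), l c ≠ 1 → ∀ x ∈ N, ∃ hx : x * c * x⁻¹ ∈ C, l ⟨_, hx⟩ ≠ 1 := by
    have k : ∀ (c : C), l c ≠ 1 → ∀ x ∈ C, ∃ hx : x * c * x⁻¹ ∈ C, l ⟨_, hx⟩ ≠ 1 := fun c hc x hx =>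
      ⟨((⟨x, hx⟩ : C) * c * (⟨x, hx⟩ : C)⁻¹).2, fun e => hc (by
        have : l ((⟨x, hx⟩ : C) * c * (⟨x, hx⟩ : C)⁻¹) = 1 := e
        simpa using this)⟩
    intro c hc x hx
    by_cases e : x ∈ C
    · exact k c hc x e
    · obtain ⟨h1, h2⟩ := k c hc _ (aN x hx e)
      have e1 : x * c * x⁻¹ = a * (a⁻¹ * x * c * (a⁻¹ * x)⁻¹) * a⁻¹ := by group
      refine ⟨e1 ▸ aC _ h1, fun e2 => h2 ?_⟩
      have := la _ h1
      rwa [show (⟨_, aC _ h1⟩ : C) = ⟨x * c * x⁻¹, e1 ▸ aC _ h1⟩ from Subtype.ext e1.symm, e2, one_mul] at this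
  have cN : Nat.card N = Nat.card C * 2 := by
    rw [← card_mul_index (C.subgroupOf N), Nat.card_congr (subgroupOfEquivOfLe CN).toEquiv]
    congr 1
    refine index_eq_two_iff'.2 ⟨⟨a⁻¹, inv_mem h.aN⟩, fun x => ?_⟩
    simp only [mem_subgroupOf, coe_mul]
    by_cases e : (x : G) ∈ C
    · refine Or.inr ⟨e, fun e' => ne_inv_of_cube (h.t3 y h.hy) h.y1 ?_⟩
      rw [← h.ay]
      exact mem_C1.1 (by simpa using mul_mem e (inv_mem e'))
    · exact Or.inl ⟨aN x x.2 e, e⟩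
  let f : C → ℂ := (fun _ => 1) - fun c => (l c : ℂ)
  have f0 : ∀ c, l c = 1 → f c = 0 := fun c e => by simp [f, e]
  have val : ∀ c : C, l c ≠ 1 → indFun C f c = 3 := fun c hc => by
    have e1 : ∑ x : G, extendByZero C f (x * c * x⁻¹) = ∑ x : G, extendByZero C f (a * (x * c * x⁻¹) * a⁻¹) :=
      (Fintype.sum_equiv (Equiv.mulLeft a) _ _ fun x => by simp [mul_assoc]).symm
    have e2 : ∑ x : G, (extendByZero C f (x * c * x⁻¹) + extendByZero C f (a * (x * c * x⁻¹) * a⁻¹)) =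
        ∑ x : G, if x ∈ N then (3 : ℂ) else 0 := Finset.sum_congr rfl fun x _ => by
      split_ifs with hx
      · obtain ⟨h1, h2⟩ := nl c hc x hx
        rw [extendByZero_of_mem _ _ h1, extendByZero_of_mem _ _ (aC _ h1)]
        have e3 : (l ⟨_, aC _ h1⟩ : ℂ) * l ⟨_, h1⟩ = 1 := by rw [← Units.val_mul, la _ h1, Units.val_one]
        have e4 : (l ⟨_, h1⟩ : ℂ) ^ 3 = 1 := by rw [← Units.val_pow_eq_pow_val, l3, Units.val_one]
        have e5 : (l ⟨_, h1⟩ : ℂ) - 1 ≠ 0 := fun e => h2 (Units.ext (sub_eq_zero.1 e))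
        simp only [f, Pi.sub_apply]
        generalize (l ⟨_, aC _ h1⟩ : ℂ) = u at e3 ⊢
        generalize (l ⟨_, h1⟩ : ℂ) = w at e3 e4 e5 ⊢
        have e6 : w ^ 2 + w + 1 = 0 := mul_left_cancel₀ e5 (by linear_combination e4)
        linear_combination u * e4 - w ^ 2 * e3 - e6
      · rw [extendByZero_of_not_mem _ _ fun e => hx (nm c hc x e),
          extendByZero_of_not_mem _ _ fun e => hx (nm c hc x (aC' _ e)), add_zero]
    rw [Finset.sum_add_distrib, ← e1, ← Finset.sum_filter, Finset.sum_const, nsmul_eq_mul,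
      show (Finset.univ.filter (· ∈ N)).card = Nat.card N by
        rw [Nat.card_eq_fintype_card, Fintype.card_subtype], cN] at e2
    rw [indFun_apply', inv_mul_eq_iff_eq_mul₀ card_ne_zero_complex]
    push_cast at e2
    linear_combination e2 / 2
  have il : classInner f (fun _ => 1) = 1 := by
    rw [classInner_sub_left, isIrrCharacter_one.classInner_self,
      (isIrrCharacter_hom l).classInner_of_ne isIrrCharacter_one fun e => l1 (Units.ext (congrFun e _)), sub_zero]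
  have gA : IsGeneralizedCharacter G (indFun C f) := by
    rw [indFun_sub]
    exact (isIrrCharacter_one.isCharacter.indFun.isGen).sub (isCharacter_hom l).indFun.isGen
  obtain ⟨α, β, hα, hβ, -, α1, -, e⟩ := exists_norm_three gA (by
    rw [frobenius_reciprocity _ _ (isClassFunction_indFun C f)]
    have : classInner f (fun c : C => indFun C f c) = 3 * classInner f (fun _ => 1) := by
      simp only [classInner]
      rw [mul_left_comm, Finset.mul_sum _ _ 3]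
      congr 1
      refine Finset.sum_congr rfl fun c _ => ?_
      by_cases hc : l c = 1
      · simp [f0 c hc]
      · rw [val c hc, map_one, map_ofNat]; ring
    rw [this, il, mul_one]) (by rw [frobenius_reciprocity _ _ isIrrCharacter_one.isCharacter.isClassFunction, il])
  have v2 : ∀ s : G, s * s = 1 → 1 + α s + β s = 0 := fun s hs =>
    (congrFun e s).symm.trans (indFun_eq_zero_of_forall C f fun x hx => f0 _ (l2 _ (by
      rw [← map_mul, ← map_one l]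
      exact congrArg l (Subtype.ext (by simp [mul_assoc, ← mul_assoc s, hs])))))
  have vp : ∀ g : G, 1 + α (g * a * g⁻¹ * b) + β (g * a * g⁻¹ * b) = 0 := fun g =>
    (congrFun e _).symm.trans (indFun_eq_zero_of_forall C f fun x hx => f0 _ (by
      by_contra hc
      have e1 : x * b * x⁻¹ * (x * (g * a * g⁻¹ * b) * x⁻¹) * (x * b * x⁻¹)⁻¹ = (x * (g * a * g⁻¹ * b) * x⁻¹)⁻¹ := by
        simp [mul_assoc, inv_eq_of_mul_eq_one_right h.a2, inv_eq_of_mul_eq_one_right h.b2, ← mul_assoc b b, h.b2]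
      have vN := nm ⟨_, hx⟩ hc _ (e1 ▸ inv_mem hx)
      have vy := (h.acty _ vN).resolve_left fun e2 => hc (l2 _ (by
        have : (⟨_, mem_C1.2 e2⟩ : C) * ⟨_, hx⟩ * (⟨_, mem_C1.2 e2⟩ : C)⁻¹ = (⟨_, hx⟩ : C)⁻¹ := Subtype.ext e1
        have := congrArg l this
        simp only [map_mul, map_inv, mul_inv_cancel_comm] at this
        exact mul_eq_one_iff_eq_inv.2 this))
      exact (h.actz _ vN).elim (h.not_conj_ab vy) (hi x vy)))
  have hs : ∑ g, (1 + α (g * a * g⁻¹ * b) + β (g * a * g⁻¹ * b)) = 0 := Finset.sum_eq_zero fun g _ => vp g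
  rw [Finset.sum_add_distrib, Finset.sum_add_distrib, hα.sum_conj_mul, hβ.sum_conj_mul] at hs
  simp only [Finset.sum_const, Finset.card_univ, nsmul_eq_mul, mul_one, ← Nat.card_eq_fintype_card] at hs
  have hA := hα.apply_one_ne_zero
  have hB := hβ.apply_one_ne_zero
  have hG : (Nat.card G : ℂ) ≠ 0 := card_ne_zero_complex
  field_simp at hs
  rw [show β 1 = -1 - α 1 by linear_combination v2 1 (one_mul 1), show β a = -1 - α a by linear_combination v2 a h.a2,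
    show β b = -1 - α b by linear_combination v2 b h.b2] at hs
  have : (α a - α 1) * (α b - α 1) = 0 := mul_left_cancel₀ hG (by linear_combination -hs)
  have fin : ∀ u, α u - α 1 = 0 → ∃ K : Subgroup G, K.Normal ∧ K ≠ ⊤ ∧ u ∈ K := fun u hu => by
    obtain ⟨χ, h1, h2, h3⟩ := hα.exists_irr_ne_one α1 (sub_eq_zero.1 hu)
    exact ⟨charKer χ, h1.isCharacter.normal_charKer, fun e => h2 (h1.charKer_eq_top_iff.1 e), h1.mem_charKer.2 h3⟩
  rcases mul_eq_zero.1 this with e | e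
  · obtain ⟨K, h1, h2, h3⟩ := fin a e
    exact ⟨K, h1, h2, Or.inl h3⟩
  · obtain ⟨K, h1, h2, h3⟩ := fin b e
    exact ⟨K, h1, h2, Or.inr h3⟩

theorem exists_ker' : ∃ K : Subgroup G, K.Normal ∧ K ≠ ⊤ ∧ (a ∈ K ∨ b ∈ K) := by
  by_contra hn
  have h1 := mt h.exists_ker hn
  have h2 := mt h.symm.exists_ker fun ⟨K, h1, h2, h3⟩ => hn ⟨K, h1, h2, h3.symm⟩
  push Not at h1 h2
  obtain ⟨x, x1, x2⟩ := h1
  obtain ⟨w, w2, w1⟩ := h2
  have k : ∀ {u v s : G}, u * s * u⁻¹ = s⁻¹ → v * s * v⁻¹ = s⁻¹ → u * v * s * (u * v)⁻¹ = s := fun {u v s} e1 e2 => by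
    rw [show u * v * s * (u * v)⁻¹ = u * (v * s * v⁻¹) * u⁻¹ by group, e2, ← conj_inv, e1, inv_inv]
  have m := h.mem_T (k x1 w1) (k x2 w2)
  have c := isConj_of_odd (x := x * b * x⁻¹) (y := w * a * w⁻¹) (by rw [conj_mul, h.b2]; simp)
    (by rw [conj_mul, h.a2]; simp) (Odd.of_dvd_nat (by decide : Odd 3) (orderOf_dvd_of_pow_eq_one (h.t3 _ m)))
  obtain ⟨g, hg⟩ := isConj_iff.1 c
  have e : w⁻¹ * g * x * b * (w⁻¹ * g * x)⁻¹ = a := by
    rw [show w⁻¹ * g * x * b * (w⁻¹ * g * x)⁻¹ = w⁻¹ * (g * (x * b * x⁻¹) * g⁻¹) * w by group, hg]; group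
  exact h.not_conj_ab (x := w⁻¹ * g * x) (by rw [e, h.ay]) (by rw [e, h.az])

omit [Finite G] h in
theorem mem_of_inv {K : Subgroup G} [hK : K.Normal] {g u : G} (hu : u ^ 3 = 1) (hg : g ∈ K)
    (e : g * u * g⁻¹ = u⁻¹) : u ∈ K := by
  have h1 := mul_mem hg (hK.conj_mem _ (inv_mem hg) u)
  rw [show g * (u * g⁻¹ * u⁻¹) = g * u * g⁻¹ * u⁻¹ by group, e] at h1
  rwa [show u⁻¹ * u⁻¹ = u * (u ^ 3)⁻¹ by group, hu, inv_one, mul_one] at h1

theorem exists_normal {K : Subgroup G} [hK : K.Normal] (h1 : K ≠ ⊤) (ha : a ∈ K) :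
    ∃ L : Subgroup G, L.Normal ∧ y ∈ L ∧ z ∉ L := by
  have yK := mem_of_inv (h.t3 y h.hy) ha h.ay
  by_cases zK : z ∈ K
  swap
  · exact ⟨K, hK, yK, zK⟩
  have TK : (T : Subgroup G) ≤ K := fun t ht => by
    obtain ⟨i, j, rfl⟩ := h.gen t ht
    exact mul_mem (pow_mem yK _) (pow_mem zK _)
  obtain ⟨l, l1, -⟩ := h.exists_lam K TK h.hz h.z1 fun g hg hN => by
    by_contra e
    have e1 := (h.actz g hN).resolve_left e
    have k : ∀ n ∈ normalizer ((T : Subgroup G) : Set G), n * z * n⁻¹ = z → n ∈ K := fun n hn e => by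
      rcases h.acty n hn with e2 | e2
      · exact TK (h.mem_T e2 e)
      · refine (K.mul_mem_cancel_left ha).1 (TK (h.mem_T ?_ ?_))
        · rw [show a * n * y * (a * n)⁻¹ = a * (n * y * n⁻¹) * a⁻¹ by group, e2, ← conj_inv, h.ay, inv_inv]
        · rw [show a * n * z * (a * n)⁻¹ = a * (n * z * n⁻¹) * a⁻¹ by group, e, h.az]
    refine h1 (top_le_iff.1 ((T.normalizer_sup_eq_top' TK).ge.trans (sup_le (fun n hn => ?_) le_rfl)))
    rcases h.actz n hn with e2 | e2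
    · exact k n hn e2
    · refine (K.mul_mem_cancel_left hg).1 (k _ (mul_mem hN hn) ?_)
      rw [show g * n * z * (g * n)⁻¹ = g * (n * z * n⁻¹) * g⁻¹ by group, e2, ← conj_inv, e1, inv_inv]
  refine ⟨(commutator K).map K.subtype, inferInstance, ?_, ?_⟩
  · refine ⟨⁅(⟨a, ha⟩ : K), ⟨y, yK⟩⁆, commutator_mem_commutator (mem_top _) (mem_top _), ?_⟩
    change a * y * a⁻¹ * y⁻¹ = y
    rw [h.ay, show y⁻¹ * y⁻¹ = y * (y ^ 3)⁻¹ by group, h.t3 y h.hy, inv_one, mul_one]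
  · rintro ⟨u, hu, e⟩
    exact l1 (by rw [show (⟨z, TK h.hz⟩ : K) = u from Subtype.ext e.symm]; exact Abelianization.commutator_subset_ker l hu)

theorem eq_bot {Q : Subgroup G} (hc : Nat.card T = 9) (hQ : (Nat.card Q).Coprime 3)
    (hn : (T : Subgroup G) ≤ normalizer (Q : Set G)) : Q = ⊥ := by
  have d : Disjoint Q (T : Subgroup G) := disjoint_of_coprime_natCard (by rw [hc]; exact hQ.pow_right 2)
  refine eq_bot_iff.2 (H18.coprime_abelian_gen_cent1 (A := T) h.cT.ge (fun hcy => ?_) hn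
    (by rw [hc]; exact (hQ.pow_right 2).symm) fun t ht t1 q hq => ?_)
  · obtain ⟨g, hg⟩ := hcy.exists_ofOrder_eq_natCard
    have := orderOf_dvd_of_pow_eq_one (show g ^ 3 = 1 from Subtype.ext (h.t3 g g.2))
    rw [hg, hc] at this
    omega
  · refine disjoint_def.1 d hq.1 (h.cT.le fun s hs => ?_)
    have := disjoint_def.1 d (x := s * q * s⁻¹ * q⁻¹)
      (mul_mem ((mem_normalizer_iff.1 (hn hs) q).1 hq.1) (inv_mem hq.1))
      (by rw [mul_assoc, mul_assoc, ← mul_assoc q]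
          exact mul_mem hs ((mem_normalizer_iff.1 (h.loc t ht t1 hq.2) _).1 (inv_mem hs)))
    rw [mul_inv_eq_one, mul_inv_eq_iff_eq_mul] at this
    exact this

end E9

end H10
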