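import Cfsg.Agent.H10.G22a
import Cfsg.Agent.H26.NEnd
import Cfsg.Agent.S0815
/-! `H10.CC7.equiv_aut`: a group of order 12096 without elements of order 14, 21 is the
automorphism group of `PSU 3 3`. -/

namespace H10
open H5 Cfsg Subgroup
open scoped MatrixGroups

universe u
variable {G : Type u} [Group G] [Finite G]

theorem CC7.equiv_psu [IsSimpleGroup G] (h : CC7 G) (hG : Nat.card G = 6048) {K : Type*} [Field K]
    [Fintype K] (hK : Fintype.card K = 9) : Nonempty (G ≃* PSU 3 K 3) := by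
  rcases H26.ng_class ⟨‹_›, not_comm_of_simple_of_not_prime (by rw [hG]; norm_num),
    h.isNGroup_6048 hG⟩ with ⟨F, _, _, -, ⟨e⟩⟩ | k | ⟨⟨e⟩⟩ | ⟨F, _, _, k, ⟨e⟩⟩ | ⟨⟨e⟩⟩ | k | k
  · have h1 := card_PSL2 (F := F)
    rw [← Nat.card_congr e.toEquiv, hG] at h1
    generalize Fintype.card F = q at h1
    have h2 : q < 24 := by
      by_contra h7
      have : 24 * 23 * 25 ≤ q * (q - 1) * (q + 1) := by gcongr <;> omega
      have := Nat.le_of_dvd two_pos (Nat.gcd_dvd_left 2 (q - 1))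
      omega
    interval_cases q <;> simp at h1
  · obtain ⟨-, m, h1, h2⟩ := H19.isSuzuki_of_iso k
    have h3 : 2 ^ 3 ≤ 2 ^ (2 * m + 1) := Nat.pow_le_pow_right two_pos (by omega)
    generalize 2 ^ (2 * m + 1) = q at h2 h3
    have : 8 ^ 2 * (8 ^ 2 + 1) * 7 ≤ q ^ 2 * (q ^ 2 + 1) * (q - 1) := by gcongr <;> omega
    omega
  · have h1 := card_PSL (F := ZMod 3) 3 (by norm_num)
    rw [← Nat.card_congr e.toEquiv, hG] at h1
    simp [Fin.prod_univ_succ] at h1
  · obtain ⟨f⟩ := H2.PSU_congr (FiniteField.ringEquivOfCardEq (k.trans hK.symm)) 3 3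
    exact ⟨e.trans f⟩
  · rw [Nat.card_congr e.toEquiv, nat_card_alternatingGroup] at hG
    simp [Nat.factorial] at hG
  · omega
  · omega

theorem CC7.equiv_aut (h : CC7 G) (hG : Nat.card G = 12096) {K : Type*} [Field K]
    [Fintype K] (hK : Fintype.card K = 9) : Nonempty (G ≃* MulAut (PSU 3 K 3)) := by
  obtain ⟨N, _, _, h1, h2⟩ := h.exists_normal_6048 hG
  obtain ⟨e⟩ := (h.sub N).equiv_psu h1 hK
  have h3 := Cfsg.Agent.S0815.result (F := K) 3 1 le_rfl (q := 3) rfl hK 3 le_rfl (by norm_num)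
  rw [← Nat.card_congr e.toEquiv, h1, ← Nat.card_congr (MulAut.congr e).toEquiv] at h3
  obtain ⟨f⟩ := equiv_of_injective_of_card (MulAut.conjNormal : G →* MulAut N)
    ((injective_iff_map_eq_one _).2 fun g hg => mem_bot.1 (h2 ▸ fun y hy => by
      have := congrArg (fun φ : MulAut N => (φ ⟨y, hy⟩ : G)) hg
      have h4 : g * y * g⁻¹ = y := by simpa using this
      exact (mul_inv_eq_iff_eq_mul.1 h4).symm)) (by rw [hG, h3]; norm_num)
  exact ⟨f.trans (MulAut.congr e)⟩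

end H10
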