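import Mathlib

/-! The automorphism group of a Hamming graph `H(r,m)` (`r ≥ 2`, `m ≥ 3`) is primitive but not
2-transitive (`H10.Ham.prim`, `H10.Ham.not_two`). -/

set_option autoImplicit false

namespace H10
namespace Ham

open MulAction
open scoped Pointwise

variable {ι : Type*} {β : Type*} {α : Type*}

/-- Hamming adjacency. -/
def Adj (x y : ι → β) : Prop := ∃ i, x i ≠ y i ∧ ∀ j, j ≠ i → x j = y j

/-- automorphisms of the Hamming graph, transported along `ψ`. -/
def aut (ψ : α ≃ (ι → β)) : Subgroup (Equiv.Perm α) where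
  carrier := {σ | ∀ a b, Adj (ψ (σ a)) (ψ (σ b)) ↔ Adj (ψ a) (ψ b)}
  mul_mem' := by
    intro σ τ hσ hτ a b
    simp only [Equiv.Perm.coe_mul, Function.comp_apply]
    rw [hσ, hτ]
  one_mem' := by intro a b; simp
  inv_mem' := by
    intro σ hσ a b
    have := hσ (σ⁻¹ a) (σ⁻¹ b)
    simpa using this.symm

/-- the permutation of `ι → β` given by a coordinate permutation and value permutations. -/
def wr (s : Equiv.Perm ι) (τ : ι → Equiv.Perm β) : Equiv.Perm (ι → β) where
  toFun x := fun k => τ k (x (s k))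
  invFun x := fun k => (τ (s.symm k)).symm (x (s.symm k))
  left_inv x := by funext k; simp
  right_inv x := by funext k; simp

theorem wr_apply (s : Equiv.Perm ι) (τ : ι → Equiv.Perm β) (x : ι → β) (k : ι) :
    wr s τ x k = τ k (x (s k)) := rfl

theorem adj_wr (s : Equiv.Perm ι) (τ : ι → Equiv.Perm β) (x y : ι → β) :
    Adj (wr s τ x) (wr s τ y) ↔ Adj x y := by
  constructor
  · rintro ⟨i, hi, h⟩
    refine ⟨s i, fun h' => hi (by simp [wr_apply, h']), fun j hj => ?_⟩
    have := h (s.symm j) (fun h' => hj (by rw [← h']; simp))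
    simpa [wr_apply] using this
  · rintro ⟨i, hi, h⟩
    refine ⟨s.symm i, by simpa [wr_apply] using hi, fun j hj => ?_⟩
    have := h (s j) (fun h' => hj (by rw [← h']; simp))
    simp [wr_apply, this]

/-- the transported element. -/
def el (ψ : α ≃ (ι → β)) (s : Equiv.Perm ι) (τ : ι → Equiv.Perm β) : aut ψ :=
  ⟨ψ.symm.permCongr (wr s τ), by
    intro a b
    simp only [Equiv.permCongr_apply, Equiv.symm_symm, Equiv.apply_symm_apply]
    exact adj_wr s τ _ _⟩

theorem el_smul (ψ : α ≃ (ι → β)) (s : Equiv.Perm ι) (τ : ι → Equiv.Perm β) (a : α) :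
    ψ (el ψ s τ • a) = wr s τ (ψ a) := by
  show ψ ((ψ.symm.permCongr (wr s τ)) a) = _
  simp

theorem exists_perm2 [DecidableEq β] {a b c d : β} (hab : a ≠ b) (hcd : c ≠ d) :
    ∃ τ : Equiv.Perm β, τ a = c ∧ τ b = d := by
  refine ⟨Equiv.swap (Equiv.swap a c b) d * Equiv.swap a c, ?_, ?_⟩
  · simp only [Equiv.Perm.coe_mul, Function.comp_apply, Equiv.swap_apply_left]
    apply Equiv.swap_apply_of_ne_of_ne _ hcd
    intro h
    have : Equiv.swap a c a = Equiv.swap a c b := by rw [← h]; simp
    exact hab ((Equiv.swap a c).injective this)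
  · simp

theorem trans (ψ : α ≃ (ι → β)) : IsPretransitive (aut ψ) α := by
  classical
  refine ⟨fun a b => ⟨el ψ 1 (fun k => Equiv.swap (ψ a k) (ψ b k)), ?_⟩⟩
  apply ψ.injective
  rw [el_smul]; funext k; simp [wr_apply]

/-- the stabilizer of a vertex is transitive on its neighbours. -/
theorem nbr_trans (ψ : α ≃ (ι → β)) {y u v : α} (hu : Adj (ψ y) (ψ u)) (hv : Adj (ψ y) (ψ v)) :
    ∃ g : aut ψ, g • y = y ∧ g • u = v := by
  classical
  obtain ⟨i, hi, hi'⟩ := hu
  obtain ⟨j, hj, hj'⟩ := hv
  obtain ⟨t, ht1, ht2⟩ := exists_perm2 hi hj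
  refine ⟨el ψ (Equiv.swap i j) (fun k => if k = j then t else
    Equiv.swap (ψ y (Equiv.swap i j k)) (ψ y k)), ?_, ?_⟩
  · apply ψ.injective
    rw [el_smul]; funext k
    by_cases hk : k = j
    · subst hk; simp [wr_apply, ht1]
    · simp [wr_apply, hk]
  · apply ψ.injective
    rw [el_smul]; funext k
    by_cases hk : k = j
    · subst hk; simp [wr_apply, ht2]
    · have h1 : Equiv.swap i j k ≠ i := by
        intro h; apply hk
        have := congrArg (Equiv.swap i j) h
        simpa using this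
      simp only [wr_apply, hk, if_false]
      rw [← hi' _ h1, ← hj' k hk]; simp

theorem prim [Finite ι] [Fintype β] (ψ : α ≃ (ι → β)) (hβ : 3 ≤ Fintype.card β) :
    IsPreprimitive (aut ψ) α := by
  classical
  haveI := trans ψ
  refine ⟨fun {B} hB => ?_⟩
  by_cases hs : B.Subsingleton
  · exact Or.inl hs
  right
  obtain ⟨x, hx, y, hy, hxy⟩ := Set.not_subsingleton_iff.mp hs
  have hfix : ∀ (g : aut ψ) (a b : α), a ∈ B → b ∈ B → g • a = a → g • b ∈ B := by
    intro g a b ha hb hg
    have : g • B = B := hB.smul_eq_of_mem ha (by rw [hg]; exact ha)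
    rw [← this]; exact Set.smul_mem_smul_set hb
  -- a pair of adjacent points in `B`
  have h1 : ∃ u ∈ B, Adj (ψ y) (ψ u) := by
    have : ψ x ≠ ψ y := fun h => hxy (ψ.injective h)
    obtain ⟨i, hi⟩ := Function.ne_iff.mp this
    obtain ⟨z, hz1, hz2⟩ : ∃ z : β, z ≠ ψ x i ∧ z ≠ ψ y i := by
      by_contra h
      push Not at h
      have : (Finset.univ : Finset β) ⊆ {ψ x i, ψ y i} := by
        intro z _
        by_cases h1 : z = ψ x i
        · simp [h1]
        · simp [h z h1]
      have h2 := Finset.card_le_card this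
      have h3 : ({ψ x i, ψ y i} : Finset β).card ≤ 2 := Finset.card_le_two
      rw [Finset.card_univ] at h2
      omega
    set g := el ψ 1 (fun k => if k = i then Equiv.swap (ψ y i) z else 1) with hg
    refine ⟨g • y, hfix g x y hx hy ?_, ⟨i, ?_, fun j hj => ?_⟩⟩
    · apply ψ.injective
      rw [hg, el_smul]; funext k
      by_cases hk : k = i
      · subst hk
        simp only [wr_apply, if_true, Equiv.Perm.coe_one, id]
        exact Equiv.swap_apply_of_ne_of_ne hi hz1.symm
      · simp [wr_apply, hk]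
    · rw [hg, el_smul]; simp [wr_apply, hz2.symm]
    · rw [hg, el_smul]; simp [wr_apply, hj]
  have hsymm : ∀ a b : ι → β, Adj a b → Adj b a := by
    rintro a b ⟨i, hi, h⟩
    exact ⟨i, hi.symm, fun j hj => (h j hj).symm⟩
  -- closure under neighbours
  have h2 : ∀ a, (a ∈ B ∧ ∃ u ∈ B, Adj (ψ a) (ψ u)) → ∀ b, Adj (ψ a) (ψ b) →
      (b ∈ B ∧ ∃ u ∈ B, Adj (ψ b) (ψ u)) := by
    rintro a ⟨ha, u, hu, hau⟩ b hab
    obtain ⟨g, hg1, hg2⟩ := nbr_trans ψ hau hab
    exact ⟨hg2 ▸ hfix g a u ha hu hg1, a, ha, hsymm _ _ hab⟩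
  have h3 : ∀ (S : Finset ι) (b : α), (∀ j, j ∉ S → ψ b j = ψ y j) →
      (b ∈ B ∧ ∃ u ∈ B, Adj (ψ b) (ψ u)) := by
    intro S
    induction S using Finset.induction_on with
    | empty =>
      intro b hb
      have : b = y := ψ.injective (funext fun j => hb j (by simp))
      subst this
      exact ⟨hy, h1⟩
    | insert i S hi ih =>
      intro b hb
      set a := ψ.symm (Function.update (ψ b) i (ψ y i)) with ha
      have hψa : ψ a = Function.update (ψ b) i (ψ y i) := by rw [ha]; simp
      have ha' := ih a (by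
        intro j hj
        rw [hψa]
        by_cases hji : j = i
        · subst hji; simp
        · rw [Function.update_of_ne hji]
          exact hb j (by simp [hji, hj]))
      by_cases hbi : ψ b i = ψ y i
      · have : a = b := by
          apply ψ.injective; rw [hψa, ← hbi]; simp
        rw [← this]; exact ha'
      · apply h2 a ha' b
        refine ⟨i, ?_, fun j hj => ?_⟩
        · rw [hψa]; simpa using fun h => hbi h.symm
        · rw [hψa, Function.update_of_ne hj]
  haveI := Fintype.ofFinite ι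
  exact Set.eq_univ_of_forall fun b => (h3 Finset.univ b (by simp)).1

theorem not_two [Fintype ι] [Nontrivial β] (ψ : α ≃ (ι → β)) (hι : 2 ≤ Fintype.card ι) :
    ¬ IsMultiplyPretransitive (aut ψ) α 2 := by
  classical
  intro h
  rw [is_two_pretransitive_iff] at h
  obtain ⟨i, j, hij⟩ := Fintype.exists_pair_of_one_lt_card (by omega : 1 < Fintype.card ι)
  obtain ⟨c, d, hcd⟩ := exists_pair_ne β
  set x : ι → β := fun _ => c
  set u : ι → β := Function.update x i d
  set v : ι → β := fun _ => d
  have hxu : ψ.symm x ≠ ψ.symm u := by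
    intro h'
    have := congrFun (ψ.symm.injective h') i
    simp [x, u, hcd] at this
  have hxv : ψ.symm x ≠ ψ.symm v := by
    intro h'
    have := congrFun (ψ.symm.injective h') i
    simp [x, v, hcd] at this
  obtain ⟨g, hg1, hg2⟩ := h hxu hxv
  have hA := (g.2 (ψ.symm x) (ψ.symm u)).2 (by
    simp only [Equiv.apply_symm_apply]
    exact ⟨i, by simp [x, u, hcd], fun k hk => by simp [u, Function.update_of_ne hk]⟩)
  change Adj (ψ (g • ψ.symm x)) (ψ (g • ψ.symm u)) at hA
  rw [hg1, hg2] at hA
  simp only [Equiv.apply_symm_apply] at hA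
  obtain ⟨k, -, hk⟩ := hA
  by_cases hki : k = i
  · exact hcd (hk j (by rw [hki]; exact hij.symm))
  · exact hcd (hk i (fun h => hki h.symm))

end Ham
end H10
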