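import Cfsg.Agent.H15.Kl0

/-! Pieces `PF` and `PS` of S4606 (`H10.KlS.pF`, `H10.KlS.pS`). -/
set_option autoImplicit false
namespace H10.KlS
open Subgroup Cfsg H15.Kl
open scoped commutatorElement
universe u

theorem pF : PF.{u} := fun G _ _ p _ h Q g x hQ hg og hx x1 xg => by
  have hp : p.Prime := Fact.out
  have pe : ∀ a ∈ Q, ∃ k, a ^ p ^ k = 1 := fun a ha =>
    let ⟨k, hk⟩ := hQ ⟨a, ha⟩
    ⟨k, congrArg Subtype.val hk⟩
  have st : ∀ x ∈ Q, x ≠ 1 → Commute x g → ∀ y ∈ Q, Commute x y → Commute y g := fun x hx x1 xg y hy xy => by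
    have m : ⁅g, y⁆ ∈ Q := mul_mem ((mem_normalizer_iff.1 hg y).1 hy) (inv_mem hy)
    obtain ⟨k, hk⟩ := pe _ m
    have := ((Nat.Prime.coprime_iff_not_dvd hp).2 (h x g y x1 (pe x hx) xg xy og)).pow_left k
    exact (commutatorElement_eq_one_iff_commute.1 (orderOf_eq_one_iff.1
      (Nat.eq_one_of_dvd_coprimes this (orderOf_dvd_of_pow_eq_one hk) dvd_rfl))).symm
  haveI : Nontrivial Q := ⟨⟨x, hx⟩, 1, fun e => x1 (congrArg Subtype.val e)⟩
  obtain ⟨⟨z, hz⟩, z1⟩ := @exists_ne _ hQ.center_nontrivial 1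
  have cz : ∀ y ∈ Q, Commute (z : G) y := fun y hy =>
    (congrArg Subtype.val (mem_center_iff.1 hz ⟨y, hy⟩)).symm
  exact fun y hy => st z z.2 (fun e => z1 (Subtype.ext (Subtype.ext e))) (st x hx x1 xg z z.2 (cz x hx).symm) y hy
    (cz y hy)

theorem pS : PS.{u} := fun G _ _ p _ D ⟨n, H, h0, h1, _, hn, hi⟩ hD ac => by
  have hp : p.Prime := Fact.out
  have di : ∀ L : Subgroup G, L.Normal → D ⊓ L ≠ ⊥ → D ≤ L := fun L hL h y hy => by
    obtain ⟨x, hx, x1⟩ := (bot_or_exists_ne_one _).resolve_left h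
    by_cases y1 : y = 1
    · rw [y1]; exact one_mem _
    obtain ⟨c, rfl⟩ := isConj_iff.1 (ac x hx.1 y hy x1 y1)
    exact hL.conj_mem x hx.2 c
  refine ⟨?_, fun a ha => ?_⟩
  · by_contra na
    have c0 : ⁅D, D⁆ ≠ ⊥ := fun e => na (le_centralizer_iff_isMulCommutative.1 (commutator_eq_bot_iff_le_centralizer.1 e))
    have d0 : D ≠ ⊥ := fun e => c0 (by simp [e])
    have : ∀ i, D ⊓ H i = ⊥ := fun i => by
      induction i using Fin.induction with
      | zero => simp [h0]
      | succ i ih =>
        by_contra e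
        have le := di _ (hn _) e
        haveI := hn i.succ
        haveI := hn i.castSucc
        rcases hi i with ⟨m, hm⟩ | hm
        · let f := QuotientGroup.mk' ((H i.castSucc).subgroupOf (H i.succ))
          haveI := (IsPGroup.of_card (G := H i.succ ⧸ (H i.castSucc).subgroupOf (H i.succ)) hm).isNilpotent
          obtain ⟨j, hj⟩ := Group.IsSolvable.solvable (G := H i.succ ⧸ (H i.castSucc).subgroupOf (H i.succ))
          have k : ∀ j, D ≤ (derivedSeries (H i.succ) j).map (H i.succ).subtype := fun j => by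
            induction j with
            | zero => simpa [← MonoidHom.range_eq_map] using le
            | succ j ihj =>
              refine di _ inferInstance fun e => c0 (eq_bot_iff.2 (e ▸ le_inf ?_ ?_))
              · exact commutator_le.2 fun a ha b hb => mul_mem (mul_mem (mul_mem ha hb) (inv_mem ha)) (inv_mem hb)
              · rw [derivedSeries_succ, map_commutator]
                exact commutator_mono ihj ihj
          have k2 := map_derivedSeries_le_derivedSeries f j
          rw [hj, le_bot_iff, Subgroup.map_eq_bot_iff, QuotientGroup.ker_mk'] at k2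
          refine d0 (ih ▸ (inf_eq_left.2 fun a ha => ?_).symm)
          obtain ⟨b, hb, rfl⟩ := k j ha
          exact k2 hb
        · obtain ⟨x, hx, x1⟩ := (bot_or_exists_ne_one _).resolve_left d0
          obtain ⟨k, hk⟩ := hD ⟨x, hx⟩
          have a1 : x ^ (H i.castSucc).relIndex (H i.succ) ∈ H i.castSucc :=
            ((H i.castSucc).subgroupOf (H i.succ)).pow_index_mem ⟨x, le hx⟩
          have a2 : x ^ (H i.castSucc).relIndex (H i.succ) = 1 := mem_bot.1 (ih ▸ mem_inf.2 ⟨pow_mem hx _, a1⟩)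
          have a3 : x ^ p ^ k = 1 := congrArg Subtype.val hk
          exact x1 (orderOf_eq_one_iff.1 (Nat.eq_one_of_dvd_coprimes (hm.pow_right k) (orderOf_dvd_of_pow_eq_one a2)
            (orderOf_dvd_of_pow_eq_one a3)))
    exact d0 (by simpa [h1] using this (Fin.last n))
  · by_contra a1
    have a0 : a ≠ 1 := fun e => a1 (by simp [e])
    obtain ⟨k, hk⟩ := hD.exists_orderOf_eq_pow ⟨a, ha⟩
    rw [orderOf_mk] at hk
    have d : p ∣ orderOf a := by
      rw [hk]; exact dvd_pow_self _ fun e => a0 (orderOf_eq_one_iff.1 (by rw [hk, e, pow_zero]))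
    have o := orderOf_pow_orderOf_div (orderOf_pos a).ne' d
    obtain ⟨c, hc⟩ := isConj_iff.1 (ac _ (pow_mem ha (orderOf a / p)) a ha
      (fun e => hp.ne_one (by rw [← o, e, orderOf_one])) a0)
    refine a1 ?_
    have e := pow_orderOf_eq_one (a ^ (orderOf a / p))
    rw [o] at e
    rw [← hc, conj_pow, e]
    group

end H10.KlS
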