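import Cfsg.Agent.H10.E4
import Cfsg.Agent.H16.CRing2
/-! Permutation lemmas for groups of degree `3p`: fixed points (`fix_modEq`, `card_dvd_of_fix`),
subdegrees (`sub`, `sub_eq_of_fix`), rank 3 with degrees `2p - 1`, `p` (`rank3_three_p`). -/

namespace H10
open H5 H16 Cfsg Subgroup MulAction Matrix

variable {G Ω : Type*} [Group G] [MulAction G Ω]

theorem fix_modEq [Finite Ω] {p n : ℕ} [Fact p.Prime] {z : G} (hz : z ^ p ^ n = 1) :
    Nat.card Ω ≡ Nat.card (fixedBy Ω z) [MOD p] := by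
  classical
  have := Fintype.ofFinite Ω
  have := Equiv.Perm.card_fixedPoints_modEq (α := Ω) (f := toEndHom z) (p := p) (n := n) (by
    rw [← map_pow, hz, map_one])
  rwa [← Nat.card_eq_fintype_card, ← Nat.card_eq_fintype_card] at this

theorem card_dvd_of_fix [Finite Ω] (T : Subgroup G) [Finite T] {c : ℕ}
    (h : ∀ g ∈ T, g ≠ 1 → Nat.card (fixedBy Ω g) = c) :
    Nat.card T ∣ Nat.card Ω + (Nat.card T - 1) * c := by
  classical
  have := Fintype.ofFinite T
  have := Fintype.ofFinite Ω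
  have := Fintype.ofFinite (orbitRel.Quotient T Ω)
  have e := sum_card_fixedBy_eq_card_orbits_mul_card_group T Ω
  rw [← Finset.add_sum_erase _ _ (Finset.mem_univ 1), Finset.sum_congr rfl
    (f := fun g : T => Fintype.card (fixedBy Ω g)) (g := fun _ => c) fun g hg =>
    Nat.card_eq_fintype_card.symm.trans (h g g.2 fun e => (Finset.mem_erase.1 hg).1 (Subtype.ext e))] at e
  refine Dvd.intro_left (Fintype.card (orbitRel.Quotient T Ω)) ?_
  simp only [Nat.card_eq_fintype_card, ← e]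
  simp

/-- the subdegree of the ordered pair `(x, y)` -/
noncomputable abbrev sub (G : Type*) [Group G] [MulAction G Ω] (x y : Ω) : ℕ :=
  Nat.card (orbit (stabilizer G x) y)

theorem sub_eq (x y : Ω) : sub G x y = (stabilizer G y).relIndex (stabilizer G x) := by
  rw [sub, Nat.card_coe_set_eq, ← index_stabilizer]; rfl

theorem sub_mul (x y : Ω) :
    Nat.card (stabilizer G x ⊓ stabilizer G y : Subgroup G) * sub G x y = Nat.card (stabilizer G x) := by
  rw [sub_eq, ← inf_relIndex_left, card_mul_relIndex inf_le_left]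

theorem card_stab_mul [IsPretransitive G Ω] (x : Ω) :
    Nat.card (stabilizer G x) * Nat.card Ω = Nat.card G := by
  rw [← index_stabilizer_of_transitive G x, card_mul_index]

theorem sub_symm [Finite G] [Finite Ω] [IsPretransitive G Ω] (x y : Ω) : sub G x y = sub G y x := by
  have : Nonempty Ω := ⟨x⟩
  refine Nat.eq_of_mul_eq_mul_left (Nat.card_pos (α := (stabilizer G x ⊓ stabilizer G y : Subgroup G)))
    (Nat.eq_of_mul_eq_mul_right (Nat.card_pos (α := Ω)) ?_)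
  rw [sub_mul, card_stab_mul, inf_comm, sub_mul, card_stab_mul]

theorem sub_smul (g : G) (x y : Ω) : sub G (g • x) (g • y) = sub G x y := by
  rw [sub_eq, sub_eq, stabilizer_smul_eq_stabilizer_map_conj, stabilizer_smul_eq_stabilizer_map_conj,
    relIndex_map_map_of_injective _ _ (MulAut.conj g).injective]

theorem sub_eq_of_fix [Finite G] [Finite Ω] [IsPretransitive G Ω] {z : G} (hz : z ^ 2 = 1)
    (h3 : Nat.card (fixedBy Ω z) ≤ 3) (he : ∀ x y : Ω, y ≠ x → Even (sub G x y)) {x y x' y' : Ω}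
    (hx : z • x = x) (hy : z • y = y) (hx' : z • x' = x') (hy' : z • y' = y') (n : y ≠ x)
    (n' : y' ≠ x') : sub G x y = sub G x' y' := by
  have key : ∀ x y w : Ω, z • x = x → z • y = y → z • w = w → y ≠ x → w ≠ x → sub G x y = sub G x w :=
    fun x y w hx hy hw n n' => by
    have h1 := fix_modEq (Ω := orbit (stabilizer G x) y) (z := (⟨z, hx⟩ : stabilizer G x)) (p := 2) (n := 1)
      (Subtype.ext hz)
    have : Nonempty (fixedBy (orbit (stabilizer G x) y) (⟨z, hx⟩ : stabilizer G x)) :=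
      ⟨⟨⟨y, mem_orbit_self y⟩, Subtype.ext hy⟩⟩
    have h2 := Nat.card_pos (α := fixedBy (orbit (stabilizer G x) y) (⟨z, hx⟩ : stabilizer G x))
    have h4 := Nat.even_iff.1 (he x y n)
    have : Nontrivial (fixedBy (orbit (stabilizer G x) y) (⟨z, hx⟩ : stabilizer G x)) :=
      Finite.one_lt_card_iff_nontrivial.1 (by unfold Nat.ModEq sub at *; omega)
    obtain ⟨⟨⟨u, hu⟩, h5⟩, h6⟩ := exists_ne (⟨⟨y, mem_orbit_self y⟩, Subtype.ext hy⟩ :
      fixedBy (orbit (stabilizer G x) y) (⟨z, hx⟩ : stabilizer G x))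
    have h7 : u ≠ y := fun e => h6 (Subtype.ext (Subtype.ext e))
    have h8 : u ≠ x := by
      rintro rfl
      obtain ⟨g, hg⟩ := hu
      exact n ((eq_inv_smul_iff.2 hg).trans (g⁻¹).2)
    rcases eq_or_ne w y with rfl | h9
    · rfl
    rcases eq_or_ne w u with rfl | h10
    · rw [sub, sub, orbit_eq_iff.2 hu]
    have : ({x, y, u, w} : Set Ω).ncard ≤ (fixedBy Ω z).ncard := Set.ncard_le_ncard (by
      rintro _ (rfl | rfl | rfl | rfl); exacts [hx, hy, congrArg Subtype.val h5, hw])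
    rw [Set.ncard_insert_of_notMem (by simp [n.symm, h8.symm, n'.symm]),
      Set.ncard_insert_of_notMem (by simp [h7.symm, h9.symm]), Set.ncard_pair h10.symm] at this
    rw [Nat.card_coe_set_eq] at h3
    omega
  rcases eq_or_ne x' x with rfl | h
  · exact key _ _ _ hx hy hy' n n'
  · rw [key _ _ _ hx hy hx' n h, sub_symm, key _ _ _ hx' hx hy' h.symm n']

theorem two_dvd_of_swap [Finite Ω] [IsPretransitive G Ω] {s : G} (hs : s ^ 2 = 1) {a : Ω} (h : s • a ≠ a) :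
    2 ∣ Nat.card Ω * sub G a (s • a) := by
  classical
  have := Fintype.ofFinite (orbit G (a, s • a))
  have h0 : ∀ x : orbit G (a, s • a), x.1.swap ∈ orbit G (a, s • a) := by
    rintro ⟨_, g, rfl⟩
    exact ⟨g * s, Prod.ext (mul_smul ..) (by simp [← mul_smul, mul_assoc, ← sq, hs])⟩
  have := Equiv.Perm.card_fixedPoints_modEq (α := orbit G (a, s • a)) (f := fun x => ⟨_, h0 x⟩) (p := 2)
    (n := 1) rfl
  rw [(Fintype.card_eq_zero_iff (α := Function.fixedPoints _)).2 ⟨fun x => ?_⟩, Nat.modEq_zero_iff_dvd, ← Nat.card_eq_fintype_card,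
    Nat.card_coe_set_eq, ← index_stabilizer] at this
  · rwa [← index_stabilizer_of_transitive G a, sub_eq, ← inf_relIndex_left, mul_comm,
      relIndex_mul_index inf_le_left, show stabilizer G a ⊓ stabilizer G (s • a) = stabilizer G (a, s • a) by
        ext g; simp [Prod.ext_iff]]
  · obtain ⟨⟨_, g, rfl⟩, hx⟩ := x
    exact h (smul_left_cancel g (congrArg (·.1.1) hx))

variable [Fintype G] [Fintype Ω]

theorem rank3_eig [IsPretransitive G Ω] {a b : Ω} (hb : b ≠ a) {χ₁ χ₂ : G → ℂ} (h₁ : IsIrrCharacter G χ₁)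
    (h₂ : IsIrrCharacter G χ₂) (hπ : pc G Ω = fun g => 1 + χ₁ g + χ₂ g) {d e : ℕ} (d₁ : χ₁ 1 = d)
    (d₂ : χ₂ 1 = e) (hde : d ≠ e) : ∃ α β : ℤ, sub G a b + α * d + β * e = 0 ∧
      sub G a b ^ 2 + α ^ 2 * d + β ^ 2 * e = Fintype.card Ω * sub G a b := by
  classical
  have : Nonempty Ω := ⟨a⟩
  have h₀ := isIrrCharacter_one (G := G)
  have inn : ∀ ψ, IsIrrCharacter G ψ → classInner (pc G Ω) ψ = (if (fun _ => 1) = ψ then 1 else 0) +
      (if χ₁ = ψ then 1 else 0) + if χ₂ = ψ then 1 else 0 := fun ψ hψ => by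
    rw [← h₀.classInner_eq hψ, ← h₁.classInner_eq hψ, ← h₂.classInner_eq hψ, ← classInner_add_left,
      ← classInner_add_left, hπ]; rfl
  have n12 : χ₁ ≠ χ₂ := fun e => hde (by rw [e, d₂] at d₁; exact_mod_cast d₁.symm)
  have i0 := inn _ h₀
  rw [inner_pc_one, if_pos rfl] at i0
  have n01 : χ₁ ≠ fun _ => 1 := fun e => by rw [if_pos e] at i0; split_ifs at i0 <;> norm_num at i0
  have n02 : χ₂ ≠ fun _ => 1 := fun e => by rw [if_neg n01, if_pos e] at i0; norm_num at i0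
  have i1 : classInner (pc G Ω) χ₁ = 1 := by simp [inn _ h₁, n01.symm, n12.symm]
  have i2 : classInner (pc G Ω) χ₂ = 1 := by simp [inn _ h₂, n02.symm, n12]
  have gal : ∀ χ, IsIrrCharacter G χ → classInner (pc G Ω) χ = 1 → χ ≠ (fun _ => 1) → ∀ σ : ℂ →+* ℂ,
      ((fun g => σ (χ g)) = χ₁ ∨ (fun g => σ (χ g)) = χ₂) ∧ σ (χ 1) = χ 1 := fun χ hχ i n σ => by
    obtain ⟨d, -, hd⟩ := hχ.exists_apply_one
    refine ⟨?_, by rw [hd, map_natCast]⟩
    by_contra h
    rw [not_or] at h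
    rw [← inner_pc_map σ hχ, inn _ (hχ.map_ringHom σ), if_neg (Ne.symm h.1), if_neg (Ne.symm h.2),
      if_neg fun e => n (funext fun g => σ.injective ((congrFun e g).symm.trans (map_one σ).symm))] at i
    norm_num at i
  have g1 : ∀ (σ : ℂ →+* ℂ) g, σ (χ₁ g) = χ₁ g := fun σ => congrFun ((gal _ h₁ i1 n01 σ).1.resolve_right fun e => by
    have := (congrFun e 1).symm.trans (gal _ h₁ i1 n01 σ).2
    simp [d₁, d₂, hde.symm] at this)
  have g2 : ∀ (σ : ℂ →+* ℂ) g, σ (χ₂ g) = χ₂ g := fun σ => congrFun ((gal _ h₂ i2 n02 σ).1.resolve_left fun e => by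
    have := (congrFun e 1).symm.trans (gal _ h₂ i2 n02 σ).2
    simp [d₁, d₂, hde] at this)
  have sE : E Ω (fun _ : G => 1) + E Ω χ₁ + E Ω χ₂ = 1 := by
    rw [← sum_E_of_subset (G := G) {⟨_, h₀⟩, ⟨_, h₁⟩, ⟨_, h₂⟩} fun χ hχ => ?_, Finset.sum_insert, Finset.sum_pair,
      add_assoc]
    · simpa using n12
    · simpa using ⟨n01.symm, n02.symm⟩
    · simp only [Finset.mem_insert, Finset.mem_singleton, not_or, Subtype.ext_iff] at hχ
      simp [inn _ χ.2, Ne.symm hχ.1, Ne.symm hχ.2.1, Ne.symm hχ.2.2]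
  obtain ⟨α, a1, a2⟩ := (minv_orb (G := G) (a := a) (b := b)).exists_int_scalar orb_int h₁ i1 g1
  obtain ⟨β, b1, b2⟩ := (minv_orb (G := G) (a := a) (b := b)).exists_int_scalar orb_int h₂ i2 g2
  obtain ⟨c1, c2⟩ := orb_mul_E_one (G := G) (a := a) (b := b)
  have e1 := trace_orb (G := G) hb
  have e2 := trace_orb_mul_transpose (G := G) (a := a) (b := b)
  rw [← mul_one (H16.orb G a b), ← sE] at e1
  rw [← mul_one (_ * _ᵀ), ← sE] at e2
  simp only [mul_add, mul_assoc, a1, a2, b1, b2, c1, c2, mul_smul_comm, trace_add, trace_smul, trace_E h₀,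
    trace_E h₁, trace_E h₂, inner_pc_one, i1, i2, d₁, d₂, smul_eq_mul] at e1 e2
  refine ⟨α, β, Int.cast_injective (α := ℂ) ?_, Int.cast_injective (α := ℂ) ?_⟩ <;> push_cast
  · linear_combination e1
  · linear_combination e2

omit [Fintype G] in
theorem exists_two_sub (a : Ω) (hr : Nat.card (orbitRel.Quotient (stabilizer G a) Ω) = 3) :
    ∃ b c, b ≠ a ∧ c ≠ a ∧ 1 + (sub G a b + sub G a c) = Fintype.card Ω ∧
      ∀ x, x ≠ a → sub G a x = sub G a b ∨ sub G a x = sub G a c := by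
  classical
  have := Fintype.ofFinite (orbitRel.Quotient (stabilizer G a) Ω)
  have s := sum_subdeg (G := G) a
  obtain ⟨q, q', n, h⟩ := Finset.card_eq_two.1 (show (Finset.univ.erase (Quotient.mk _ a :
      orbitRel.Quotient (stabilizer G a) Ω)).card = 2 by
    rw [Finset.card_erase_of_mem (Finset.mem_univ _), Finset.card_univ, ← Nat.card_eq_fintype_card, hr])
  rw [h, Finset.sum_pair n, Nat.card_eq_fintype_card (α := Ω)] at s
  obtain ⟨b⟩ := q
  obtain ⟨c⟩ := q'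
  refine ⟨b, c, fun e => ?_, fun e => ?_, s, fun x hx => ?_⟩
  · exact Finset.notMem_erase _ _ (e ▸ h ▸ Finset.mem_insert_self _ _ :)
  · exact Finset.notMem_erase _ _ (e ▸ h ▸ Finset.mem_insert_of_mem (Finset.mem_singleton_self _) :)
  have := h ▸ Finset.mem_erase.2 ⟨mk_ne_base (G := G) hx, Finset.mem_univ _⟩
  exact (Finset.mem_insert.1 this).imp (fun e => by rw [sub, sub, orbit_eq_iff.2 (Quotient.exact e)])
    fun e => by rw [sub, sub, orbit_eq_iff.2 (Quotient.exact (Finset.mem_singleton.1 e))]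

theorem arith_three_p {p k α β : ℤ} (hp : 0 < p) (h1 : 0 < k) (h2 : k < 3 * p - 1)
    (e1 : k + α * (2 * p - 1) + β * p = 0) (e2 : k ^ 2 + α ^ 2 * (2 * p - 1) + β ^ 2 * p = 3 * p * k) :
    ∃ r, 2 * p = 6 * r ^ 2 + 3 * r + 1 ∧ (k = p + r ∨ k = 2 * p - 1 - r) := by
  obtain ⟨m, rfl⟩ : ∃ m, β = -m - 2 * α := ⟨-β - 2 * α, by ring⟩
  obtain rfl : k = α + p * m := by linear_combination e1
  have e : p * (3 * m - m ^ 2) = 6 * α ^ 2 + 6 * α * m + m ^ 2 - 3 * α :=
    mul_left_cancel₀ hp.ne' (by linear_combination -e2)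
  have hm : 0 ≤ m ∧ m ≤ 3 := by
    by_contra h
    have : 4 ≤ m ^ 2 - 3 * m := by
      rcases not_and_or.1 h with h | h <;> nlinarith
    nlinarith [sq_nonneg (4 * α + 2 * m - 1)]
  obtain rfl | rfl | rfl | rfl : m = 0 ∨ m = 1 ∨ m = 2 ∨ m = 3 := by omega
  · nlinarith
  · exact ⟨α, by linarith, .inl (by ring)⟩
  · exact ⟨-1 - α, by linarith, .inr (by ring)⟩
  · have : α ≤ -2 := by omega
    nlinarith

theorem rank3_three_p [IsPretransitive G Ω] {p : ℕ} (hp : 1 < p) (hΩ : Fintype.card Ω = 3 * p) (a : Ω)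
    (hr : Nat.card (orbitRel.Quotient (stabilizer G a) Ω) = 3) {χ₁ χ₂ : G → ℂ} (h₁ : IsIrrCharacter G χ₁)
    (h₂ : IsIrrCharacter G χ₂) (hπ : pc G Ω = fun g => 1 + χ₁ g + χ₂ g) (d₁ : χ₁ 1 = (2 * p - 1 : ℕ))
    (d₂ : χ₂ 1 = p) : ∃ (r : ℤ) (b c : Ω), 2 * p = 6 * r ^ 2 + 3 * r + 1 ∧ b ≠ a ∧ c ≠ a ∧
      sub G a b = p + r ∧ sub G a c = 2 * p - 1 - r ∧
      ∀ x, x ≠ a → sub G a x = sub G a b ∨ sub G a x = sub G a c := by
  obtain ⟨b, c, hb, hc, s, h⟩ := exists_two_sub a hr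
  have pos : ∀ x, 0 < sub G a x := fun x => have : Nonempty (orbit (stabilizer G a) x) := ⟨⟨x, mem_orbit_self x⟩⟩
    Nat.card_pos
  obtain ⟨α, β, e1, e2⟩ := rank3_eig hb h₁ h₂ hπ d₁ d₂ (by omega)
  have := pos b
  have := pos c
  rw [hΩ] at s e2
  rw [Nat.cast_sub (by omega)] at e1 e2
  push_cast at e1 e2
  obtain ⟨r, h1, h2 | h2⟩ := arith_three_p (by omega) (by omega) (by omega) e1 e2
  · exact ⟨r, b, c, h1, hb, hc, h2, by omega, h⟩
  · exact ⟨r, c, b, h1, hc, hb, by omega, h2, fun x hx => (h x hx).symm⟩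

end H10
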