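import Cfsg.Agent.H10.Nag
import Cfsg.Agent.H10.GW2
import Cfsg.Agent.H10.BR4
import Cfsg.Agent.H10.Klein
import Cfsg.Agent.H24.SL2Norm
import Cfsg.Agent.H9.Bender
import Cfsg.Agent.S0280
import Cfsg.Agent.S0252
import Cfsg.Agent.S0253
import Cfsg.Agent.S0254
/-! Involution centralisers in `PSL(2,q)` (`card_C_invol_PSL`), orders of Bender groups (`bender_card`),
and the cases of Nagai's theorem on simple groups of degree `3p`. -/

namespace H10
open H5 H16 Cfsg Subgroup MulAction Matrix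
open scoped MatrixGroups

theorem card_C_invol_PSL {F : Type*} [Field F] [Fintype F] (hF : Odd (Fintype.card F)) {s : PSL(2, F)}
    (hs : orderOf s = 2) : Nat.card 𝐂(s) = Fintype.card F + 1 ∨ Nat.card 𝐂(s) + 1 = Fintype.card F := by
  have h2 : (2 : F) ≠ 0 := fun h => by
    have : CharP F 2 := CharTwo.of_one_ne_zero_of_two_eq_zero one_ne_zero h
    have := H24.char_dvd_card (F := F) 2
    exact (Nat.not_even_iff_odd.2 hF) (even_iff_two_dvd.2 this)
  obtain ⟨w, rfl⟩ := π_surjective s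
  have h1 : w * w = -1 := ((π_eq_one_iff _).1 ((map_mul _ _ _).trans (mul_self_of_ord hs))).resolve_left
    fun e => by rw [(π_eq_one_iff _).2 (H24.eq_of_sq_eq_one h2 (by rwa [sq]))] at hs; simp at hs
  have rs := H24.rs_of_trace_zero h2 (trace_eq_zero_of_mul_self h1)
  have h3 : (𝐂(π F w)).comap (π F) = normalizer (H24.C2 w : Set SL(2, F)) := by
    ext y
    have : w⁻¹ = -w := inv_eq_of_mul_eq_one_right (by rw [mul_neg, h1, neg_neg])
    rw [mem_comap, mem_centralizer_singleton_iff, rs.mem_norm_iff, ← map_mul, ← map_mul, π_eq_iff, this,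
      mul_inv_eq_iff_eq_mul, mul_inv_eq_iff_eq_mul, neg_mul]
  have h4 := card_ker_mul_card_map (π F) (ker_le_comap _ 𝐂(π F w))
  have h5 : Nat.card (π F).ker = 2 := by
    exact (Nat.card_congr (Equiv.subtypeEquivRight fun x => π_eq_one_iff x)).trans
      (Set.ncard_pair (H24.neg_one_ne_one_SL h2).symm)
  rw [map_comap_eq_self_of_surjective π_surjective, h3, rs.card_norm, h5] at h4
  have := Fintype.card_pos (α := F)
  rcases rs.cases with h | h <;> have := h.2 <;> omega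

variable {G Ω : Type*} [Group G] [MulAction G Ω] {p : ℕ}

theorem bender_card (h : H19.IsBender G) : ∃ k, 2 ^ k ∣ Nat.card G ∧ Nat.card G < (2 ^ k) ^ 3 := by
  obtain ⟨F, _, _, ⟨n, hn, h⟩, ⟨e⟩⟩ | h | ⟨F, _, _, n, hn, h, ⟨e⟩⟩ := h
  · have h1 := card_PSL2 (F := F)
    obtain ⟨q, hq⟩ : ∃ q, 2 ^ n = 2 * q + 2 := ⟨2 ^ (n - 1) - 1, by
      obtain ⟨n, rfl⟩ : ∃ k, n = k + 1 := ⟨n - 1, by omega⟩
      have := Nat.two_pow_pos n
      simp [pow_succ]; omega⟩
    rw [← Nat.card_congr e.toEquiv, h, hq, show 2 * q + 2 - 1 = 1 + 2 * q by omega,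
      Nat.gcd_add_mul_left_right, Nat.gcd_one_right, one_mul] at h1
    exact ⟨n, by rw [h1, hq, mul_assoc]; exact Dvd.intro _ rfl, by rw [h1, hq]; nlinarith⟩
  · obtain ⟨-, m, -, h⟩ := H19.isSuzuki_of_iso h
    refine ⟨(2 * m + 1) * 2, by rw [h, pow_mul, mul_assoc]; exact Dvd.intro _ rfl, ?_⟩
    rw [h, pow_mul]
    obtain ⟨q, hq⟩ : ∃ q, 2 ^ (2 * m + 1) = q + 1 := ⟨_, (Nat.succ_pred_eq_of_pos (Nat.two_pow_pos _)).symm⟩
    rw [hq, Nat.add_sub_cancel]
    have : ((q + 1) ^ 2 + 1) * q < ((q + 1) ^ 2) ^ 2 := by ring_nf; omega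
    nlinarith [Nat.pow_pos (n := 2) q.succ_pos]
  · have h1 := Cfsg.Agent.S0280.result h 3 (by omega)
    simp only [Finset.prod_range_succ, Finset.prod_range_zero, ← Nat.card_congr e.toEquiv] at h1
    norm_num [show ¬ Even 1 by decide] at h1
    have h2 : Nat.gcd 3 (2 ^ n + 1) * Nat.card G = 2 ^ (n * 3) * (((2 ^ n) ^ 2 - 1) * ((2 ^ n) ^ 3 + 1)) :=
      Nat.eq_of_mul_eq_mul_left (Nat.succ_pos (2 ^ n)) (by rw [pow_mul]; linarith)
    refine ⟨n * 3, (Nat.Coprime.pow_left _ (Nat.Coprime.coprime_dvd_right (Nat.gcd_dvd_left _ _)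
      (by decide))).dvd_of_dvd_mul_left (Dvd.intro _ h2.symm), ?_⟩
    refine (Nat.le_mul_of_pos_left _ (Nat.gcd_pos_of_pos_left (2 ^ n + 1) three_pos)).trans_lt ?_
    rw [h2, pow_mul]
    obtain ⟨q, hq⟩ : ∃ q, 2 ^ n = q + 1 := ⟨_, (Nat.succ_pred_eq_of_pos (Nat.two_pow_pos _)).symm⟩
    rw [hq, show (q + 1) ^ 2 - 1 = q ^ 2 + 2 * q by ring_nf; omega]
    have : (q ^ 2 + 2 * q) * ((q + 1) ^ 3 + 1) < ((q + 1) ^ 3) ^ 2 := by ring_nf; omega
    nlinarith [Nat.pow_pos (n := 3) q.succ_pos]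

theorem pgl_of_card [hp : Fact p.Prime] [Finite G] [IsSimpleGroup G] (hG : ¬ IsMulCommutative G) (h3 : 3 < p)
    {P : Sylow p G} (S : SC P) (he : 𝐂[(P : Subgroup G)].relIndex 𝐍[(P : Subgroup G)] = 2)
    (hO : pPrimeCore p G = ⊥) (h18 : Nat.card G = p * (p - 1) * (p - 2)) :
    ∃ (m : ℕ) (F : Type) (_ : Field F) (_ : Fintype F), Fintype.card F = 2 ^ m ∧ p = 2 ^ m + 1 ∧
      Nonempty (G ≃* PGL(2, F)) := by
  obtain ⟨n, hn'⟩ := exists_card_sylow_eq p G
  have h19 := S.card_G he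
  have h20 : (1 + n * p) * 2 = (p - 1) * (p - 2) := by
    rw [hn', h18, mul_assoc, ← mul_assoc _ 2, mul_comm _ p] at h19
    exact (Nat.eq_of_mul_eq_mul_left hp.out.pos h19).symm
  obtain ⟨q, rfl⟩ : ∃ q, p = q + 3 := ⟨p - 3, by omega⟩
  have h21 : 2 * n = q := by
    refine Nat.eq_of_mul_eq_mul_left hp.out.pos ?_
    rw [show q + 3 - 1 = q + 2 from rfl, show q + 3 - 2 = q + 1 from rfl] at h20
    linarith
  obtain ⟨-, ⟨rfl, -, ⟨e⟩⟩ | ⟨-, -, h⟩⟩ :=
    br_core (commutator_eq_top_of_simple hG) hO P S.hP hn' (nonRep_of_lt (by omega))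
  · subst h21
    haveI := Fintype.ofFinite (GaloisField 2 2)
    have h22 : Fintype.card (GaloisField 2 2) = 4 := by
      rw [← Nat.card_eq_fintype_card, GaloisField.card 2 2 two_ne_zero]; rfl
    obtain ⟨e1⟩ := Cfsg.Agent.S0253.result (F := ZMod (2 * 1 + 3)) (by simp)
    obtain ⟨e2⟩ := Cfsg.Agent.S0252.result h22
    obtain ⟨e3⟩ := PSL_equiv_PGL_of_even (F := GaloisField 2 2) (by rw [h22]; decide)
    exact ⟨2, _, _, _, h22, rfl, ⟨e.trans (e1.trans (e2.symm.trans e3))⟩⟩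
  · exact h

theorem fix_isConj [Finite G] [Finite Ω] {x y : G} (h : IsConj x y) :
    Nat.card (fixedBy Ω x) = Nat.card (fixedBy Ω y) := by
  exact_mod_cast (isCharacter_fixedBy (G := G) Ω).isClassFunction.eq_of_isConj h

theorem two_part [Finite G] {s : G} (hs : orderOf s = 2) (hc : ∀ z, orderOf z = 2 → IsConj s z) :
    ∃ a g c, Odd g ∧ Odd c ∧ Nat.card G = 2 ^ a * g ∧ Nat.card 𝐂(s) = 2 ^ a * c := by
  obtain ⟨T⟩ : Nonempty (Sylow 2 G) := inferInstance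
  obtain ⟨z, -, h2, h1⟩ := H7.exists_mem_center_of_ne_bot T.isPGroup'
    (T.ne_bot_of_dvd_card (hs ▸ orderOf_dvd_natCard s))
  obtain ⟨a, ha⟩ := T.isPGroup'.exists_card_eq
  obtain ⟨c, h3⟩ := card_dvd_of_le (show (T : Subgroup G) ≤ 𝐂(z) from fun g hg =>
    mem_centralizer_singleton_iff.2 (h2 g hg))
  have h4 : Odd (T : Subgroup G).index := Nat.odd_iff.2 (by have := T.not_dvd_index; omega)
  have h5 := (T : Subgroup G).card_mul_index
  rw [← card_centralizer_eq_of_isConj (hc z h1), ha] at h3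
  refine ⟨a, _, c, h4, h4.of_dvd_nat (Nat.dvd_of_mul_dvd_mul_left (Nat.two_pow_pos a) ?_), ha ▸ h5.symm, h3⟩
  rw [← h3, ← ha, h5]
  exact card_subgroup_dvd_card _

theorem kn_of_fix [Finite G] [Finite Ω] [IsSimpleGroup G] (hG : ¬ IsMulCommutative G) {s : G}
    (hc : ∀ z, orderOf z = 2 → IsConj s z) (h16 : ¬ 16 ∣ Nat.card G)
    (h : ¬ 8 ∣ Nat.card Ω + 7 * Nat.card (fixedBy Ω s)) : H22.Kn G := by
  refine kn_of_rank hG h16 (by_contra fun r => h ?_)
  obtain ⟨T, h1, -, h2⟩ := e8_of_rank (commutator_eq_top_of_simple hG) h16 r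
  have := card_dvd_of_fix (Ω := Ω) (T : Subgroup G) fun g hg g1 => (fix_isConj (hc g (h2 g hg g1).1)).symm
  rwa [h1] at this

theorem kn_cases {s : G} (hs : orderOf s = 2) (h : H22.Kn G) : Nat.card G = 2520 ∨
    ∃ q : ℤ, 3 < q ∧ 2 * (Nat.card G : ℤ) = q * (q - 1) * (q + 1) ∧
      ((Nat.card 𝐂(s) : ℤ) = q + 1 ∨ (Nat.card 𝐂(s) : ℤ) = q - 1) ∧
      (q = 9 → Nonempty (G ≃* alternatingGroup (Fin 6))) := by
  obtain ⟨F, _, _, h1, h2, ⟨e⟩⟩ | ⟨⟨e⟩⟩ := h
  · refine .inr ⟨Fintype.card F, by omega, ?_, ?_, fun h => ?_⟩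
    · have := card_of_PSL2 h1 e
      zify [show 1 ≤ Fintype.card F by omega] at this
      exact this
    · have := card_C_invol_PSL h1 ((e.orderOf_eq s).trans hs)
      rw [← Nat.card_congr (e.toEquiv.subtypeEquiv (p := (· ∈ 𝐂(s))) (q := (· ∈ 𝐂(e s))) fun g => by
        simp only [mem_centralizer_singleton_iff, MulEquiv.toEquiv_eq_coe, EquivLike.coe_coe, ← map_mul,
          e.apply_eq_iff_eq])] at this
      omega
    · exact (Cfsg.Agent.S0254.result (by omega)).map e.trans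
  · have := two_mul_nat_card_alternatingGroup (α := Fin 7)
    rw [Nat.card_perm, Nat.card_fin, ← Nat.card_congr e.toEquiv] at this
    exact .inl (by simp only [Nat.factorial] at this; omega)

end H10
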