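import Cfsg.Agent.H10.Nag2
/-! The cases of Nagai's theorem (simple groups of degree `3p` with Sylow `p`-normaliser of order `2p`):
`nag_se`, `nag_two`, `nag_rank3`, `nag_pgl`. -/

namespace H10
open H5 H16 Cfsg Subgroup MulAction Matrix
open scoped MatrixGroups

variable {G Ω : Type*} [Group G] [MulAction G Ω] {p : ℕ}

theorem five_or_seven (hp : p.Prime) (h3 : 3 < p) (h : p ∣ 2520) : p = 5 ∨ p = 7 := by
  rw [show 2520 = 2 ^ 3 * 3 ^ 2 * 5 * 7 from rfl] at h
  simp only [hp.dvd_mul, hp.prime.dvd_pow_iff_dvd (by omega : 3 ≠ 0), hp.prime.dvd_pow_iff_dvd two_ne_zero,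
    Nat.prime_dvd_prime_iff_eq hp Nat.prime_two, Nat.prime_dvd_prime_iff_eq hp Nat.prime_three,
    Nat.prime_dvd_prime_iff_eq hp Nat.prime_five, Nat.prime_dvd_prime_iff_eq hp Nat.prime_seven] at h
  omega

theorem r_mod (r : ℤ) : ((6 * r ^ 2 + 3 * r - 1) % 8 = 4 → 16 ∣ 6 * r ^ 2 + 2 * r) ∧
    ((6 * r ^ 2 + 3 * r - 1) % 8 = 0 → (6 * r ^ 2 + 2 * r) % 16 = 8 ∧ (6 * r ^ 2 + 5 * r + 1) % 8 = 4 ∧
      r % 8 = 1) := by
  obtain ⟨j, i, h1, h2, rfl⟩ : ∃ j i, 0 ≤ i ∧ i < 8 ∧ r = 8 * j + i := ⟨r / 8, r % 8, by omega⟩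
  interval_cases i <;> ring_nf <;> omega

theorem arith_two (hp : p.Prime) (h3 : 3 < p) {j q N C : ℤ} (hj : p = 4 * j + 1) (q3 : 3 < q)
    (k1 : 2 * N = q * (q - 1) * (q + 1)) (k2 : C = q + 1 ∨ C = q - 1)
    (h : N * (3 * p - 3) ^ 2 = p * (3 * p - 1) * (3 * p - 2) * C ^ 2) : False := by
  have k3 : q * (2 * q - C) * (12 * j) ^ 2 = 4 * C * (p * (6 * j + 1) * (3 * p - 2)) := by
    refine mul_left_cancel₀ (show C ≠ 0 by omega) ?_
    rw [hj] at h ⊢
    rcases k2 with k2 | k2 <;> rw [k2] at h ⊢ <;> linear_combination 2 * h - (12 * j) ^ 2 * k1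
  have k4 : (12 * j) ^ 2 ≤ 4 * C := Int.le_of_dvd (by omega) ((IsCoprime.pow_left
    (((IsCoprime.mul_left (Nat.isCoprime_iff_coprime.2 ((Nat.coprime_primes Nat.prime_three hp).2 (by omega)))
      (⟨-1, 1, by omega⟩ : IsCoprime (4 * j) (p : ℤ))).of_isCoprime_of_dvd_left (dvd_of_eq (by push_cast; ring))).mul_right
      ⟨3 * j, 1 - 6 * j, by ring⟩ |>.mul_right ⟨-1, 1, by omega⟩)).dvd_of_dvd_mul_right (Dvd.intro_left _ k3))
  have j1 : 1 ≤ j := by omega
  have k5 : (q - 2) * (12 * j) ^ 2 ≤ 4 * (p * (6 * j + 1) * (3 * p - 2)) := by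
    refine le_of_mul_le_mul_left (a := C) ?_ (by omega)
    have : C * (q - 2) ≤ q * (2 * q - C) := by rcases k2 with k2 | k2 <;> nlinarith
    nlinarith [mul_le_mul_of_nonneg_right this (sq_nonneg (12 * j))]
  have k6 : (36 * j ^ 2 - 3) * (12 * j) ^ 2 ≤ (q - 2) * (12 * j) ^ 2 :=
    mul_le_mul_of_nonneg_right (by rcases k2 with k2 | k2 <;> nlinarith) (sq_nonneg _)
  rw [hj] at k5
  obtain ⟨x, rfl⟩ : ∃ x, j = x + 1 := ⟨j - 1, by ring⟩
  have : 0 ≤ x := by omega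
  nlinarith [pow_nonneg this 2, pow_nonneg this 3, pow_nonneg this 4]

theorem arith_q (h3 : 3 < p) {q N C : ℤ} (q3 : 3 < q) (k1 : 2 * N = q * (q - 1) * (q + 1))
    (k2 : C = q + 1 ∨ C = q - 1) (h : N * (2 * p - 2) = p * (2 * p - 1) * C ^ 2) : q = 2 * p - 1 := by
  rcases k2 with rfl | rfl
  · have k3 : 2 * (p - 1) = (q + 1) * (p * (2 * p - 1) - (q - 2) * (p - 1)) :=
      mul_left_cancel₀ (by omega : q + 1 ≠ 0) (by linear_combination h - (p - 1) * k1)
    have k4 : 0 < p * (2 * p - 1) - (q - 2) * (p - 1) := pos_of_mul_pos_right (a := q + 1) (by omega) (by omega)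
    have k5 : q + 1 ≤ 2 * (p - 1) := by nlinarith
    nlinarith
  · have k3 : (q - (2 * p - 1)) * ((p - 1) * q - p) = 0 :=
      mul_left_cancel₀ (by omega : q - 1 ≠ 0) (by linear_combination h - (p - 1) * k1)
    rcases mul_eq_zero.1 k3 with k | k
    · omega
    · nlinarith

variable [Finite G] [IsSimpleGroup G] (hG : ¬ IsMulCommutative G) [Fintype Ω] [IsPretransitive G Ω]
  (hp : p.Prime) (h3 : 3 < p) (hΩ : Fintype.card Ω = 3 * p) {s : G} (hs : orderOf s = 2)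
  (hc : ∀ z, orderOf z = 2 → IsConj s z)

include hG hs in
omit [Fintype Ω] [IsPretransitive G Ω] in
theorem four_dvd_of_simple : 4 ∣ Nat.card G := by
  have h := card_fixed_invol (commutator_eq_top_of_simple hG) G (t := s) (hs ▸ pow_orderOf_eq_one s)
  have : IsEmpty (fixedBy G s) := ⟨fun x => by
    rw [show s = 1 from mul_right_cancel (x.2.trans (one_mul _).symm)] at hs; simp at hs⟩
  simpa using h

include h3 hΩ hs hc in
theorem nag_se (h1 : Nat.card (fixedBy Ω s) = 1)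
    (h : (Nat.card G : ℤ) * (3 * p - 1) = p * (3 * p - 2) * Nat.card 𝐂(s) ^ 2) : False := by
  obtain ⟨⟨α, hα⟩, -⟩ := Nat.card_eq_one_iff_exists.1 h1
  have h2 := card_stab_mul (G := G) α
  rw [Nat.card_eq_fintype_card (α := Ω), hΩ] at h2
  obtain ⟨k, k1, k2⟩ := bender_card (H9.isBender_of_se (H := stabilizer G α) ⟨fun e => by
    have := index_stabilizer_of_transitive G α
    rw [e, index_top, Nat.card_eq_fintype_card] at this
    omega, even_iff_two_dvd.2 (hs ▸ orderOf_dvd_natCard _ hα), fun g hg => by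
    rw [← Nat.not_even_iff_odd, ← stabilizer_smul_eq_stabilizer_map_conj]
    intro he
    obtain ⟨t, ht, t2⟩ := H9.exists_involution_mem he
    obtain ⟨x, hx⟩ := Nat.card_eq_one_iff_exists.1 ((fix_isConj (hc t t2)).symm.trans h1)
    exact hg (congrArg Subtype.val ((hx ⟨_, ht.2⟩).trans (hx ⟨_, ht.1⟩).symm))⟩)
  obtain ⟨a, g, c, hg, -, e1, e2⟩ := two_part hs hc
  have h4 : (2 : ℤ) ^ a ∣ 3 * p - 1 := by
    refine (IsCoprime.pow_left (Int.isCoprime_two_left.2 (show Odd (g : ℤ) by exact_mod_cast hg))).dvd_of_dvd_mul_left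
      ⟨p * (3 * p - 2) * c ^ 2, mul_left_cancel₀ (pow_ne_zero a two_ne_zero) ?_⟩
    rw [e1, e2] at h
    push_cast at h
    linear_combination h
  have h5 : (2 : ℤ) ^ k ≤ 3 * p - 1 := Int.le_of_dvd (by omega) (Dvd.dvd.trans (by
    exact_mod_cast (hg.coprime_two_left.pow_left k).dvd_of_dvd_mul_right (e1 ▸ k1)) h4)
  have h6 := 𝐂(s).card_mul_index
  have h7 := Nat.card_pos (α := 𝐂(s))
  zify at h2 h6 h7 k2
  generalize (Nat.card 𝐂(s) : ℤ) = C at *
  generalize (𝐂(s).index : ℤ) = I at *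
  have h8 : I * (3 * p - 1) = p * (3 * p - 2) * C := mul_left_cancel₀ h7.ne' (by rw [← h6] at h; linear_combination h)
  obtain ⟨v, rfl⟩ : (3 * p - 1 : ℤ) ∣ C := (IsCoprime.mul_right (⟨-1, 3, by ring⟩ : IsCoprime _ (p : ℤ))
    (⟨1, -1, by ring⟩ : IsCoprime _ (3 * p - 2 : ℤ))).dvd_of_dvd_mul_left (Dvd.intro_left _ h8)
  obtain rfl : I = p * (3 * p - 2) * v := mul_right_cancel₀ (by omega : (3 * p - 1 : ℤ) ≠ 0) (by linear_combination h8)
  obtain ⟨w, rfl⟩ : 3 ∣ v := Int.prime_three.dvd_of_dvd_pow (n := 2) (by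
    have : (3 * p - 1) * (3 * p - 2) * v ^ 2 = 3 * Nat.card (stabilizer G α) :=
      mul_left_cancel₀ (by omega : (p : ℤ) ≠ 0) (by linear_combination h6 - h2)
    exact ⟨v ^ 2 - Nat.card (stabilizer G α) + (3 * p ^ 2 - 3 * p) * v ^ 2, by linear_combination -this⟩)
  have h9 : 0 < w := by
    by_contra n
    nlinarith
  have h10 := pow_le_pow_left₀ (by positivity) h5 3
  have h11 : (3 * p - 1 : ℤ) * (p * (3 * p - 2)) * 9 ≤ (3 * p - 1) * (p * (3 * p - 2)) * (9 * w ^ 2) :=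
    mul_le_mul_of_nonneg_left (by nlinarith) (by
      exact mul_nonneg (by omega) (mul_nonneg (by omega) (by omega)))
  have h12 : (3 * p - 1 : ℤ) * (3 * p - 1) ^ 2 ≤ (3 * p - 1) * (p * (3 * p - 2) * 9) :=
    mul_le_mul_of_nonneg_left (by nlinarith) (by omega)
  nlinarith

include hG hp h3 hΩ hs hc in
theorem nag_two (h1 : Nat.card (fixedBy Ω s) = 3) {α β : Ω} (hab : β ≠ α) (h2 : sub G α β + 1 = 3 * p)
    (h : (Nat.card G : ℤ) * (3 * p - 3) ^ 2 = p * (3 * p - 1) * (3 * p - 2) * Nat.card 𝐂(s) ^ 2) : False := by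
  have h4 := card_stab_mul (G := G) α
  have h5 := sub_mul (G := G) α β
  rw [Nat.card_eq_fintype_card (α := Ω), hΩ] at h4
  obtain ⟨a, g, c, hg, hc', e1, e2⟩ := two_part hs hc
  obtain _ | b := a
  · have := four_dvd_of_simple hG hs
    rw [Nat.odd_iff] at hg
    omega
  have h6 : (g : ℤ) * (3 * p - 3) ^ 2 = p * (3 * p - 1) * (3 * p - 2) * c ^ 2 * 2 ^ (b + 1) := by
    refine mul_left_cancel₀ (pow_ne_zero (b + 1) two_ne_zero) ?_
    rw [e1, e2] at h
    push_cast at h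
    linear_combination h
  obtain ⟨j, hj⟩ : ∃ j : ℤ, p = 4 * j + 1 := by
    obtain ⟨i, hi⟩ := hp.odd_of_ne_two (by omega)
    obtain ⟨j, rfl | rfl⟩ := Nat.even_or_odd' i
    · exact ⟨j, by omega⟩
    obtain _ | b := b
    · have := four_dvd_of_simple hG hs
      rw [Nat.odd_iff] at hg
      omega
    have : Odd (9 * g * (2 * j + 1) ^ 2 : ℤ) := by exact_mod_cast (Odd.mul (by decide) hg).mul (odd_two_mul_add_one j).pow
    rw [show (9 * g * (2 * j + 1) ^ 2 : ℤ) = 2 * (p * (3 * j + 2) * 2 * (3 * p - 2) * c ^ 2 * 2 ^ b) from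
      mul_left_cancel₀ four_ne_zero (by rw [hi] at h6 ⊢; push_cast at h6 ⊢; linear_combination h6)] at this
    exact (Int.not_odd_iff_even.2 (even_two_mul _) this).elim
  have hY : Odd (p * (6 * j + 1) * (3 * p - 2) * c ^ 2 : ℤ) :=
    ((Odd.mul ⟨2 * j, by omega⟩ ⟨3 * j, by ring⟩).mul ⟨6 * j, by omega⟩).mul (by exact_mod_cast hc'.pow)
  have h7 : (g : ℤ) * 36 * j ^ 2 = p * (6 * j + 1) * (3 * p - 2) * c ^ 2 * 2 ^ b :=
    mul_left_cancel₀ four_ne_zero (by rw [hj] at h6 ⊢; linear_combination h6)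
  have : Fact (Nat.Prime 2) := ⟨Nat.prime_two⟩
  obtain ⟨T, hT⟩ := Sylow.exists_subgroup_card_pow_prime (G := (stabilizer G α ⊓ stabilizer G β : Subgroup G)) 2
    (n := b) (by
      obtain ⟨e, he⟩ : 2 ∣ sub G α β := by omega
      refine (Nat.Coprime.pow_left b (Odd.coprime_two_left (n := e * (3 * p)) (Odd.mul ?_ ?_))).dvd_of_dvd_mul_right
        ⟨g, ?_⟩
      · rw [Nat.odd_iff]; omega
      · rw [Nat.odd_iff]; omega
      · rw [← h5, he, e1, pow_succ] at h4; linarith)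
  rw [← card_map_of_injective (subtype_injective _)] at hT
  have h8 := card_dvd_of_fix (Ω := Ω) (T.map (Subgroup.subtype _)) (c := 3) fun u hu u1 => by
    have k1 : u ^ 2 ^ b = 1 := congrArg Subtype.val (hT ▸ pow_card_eq_one' (x := (⟨u, hu⟩ : T.map _)))
    have k2 := fix_modEq (Ω := Ω) k1
    obtain ⟨t, ⟨n, rfl⟩, t2⟩ := H9.exists_involution_of_ne_bot (P := zpowers u) (IsPGroup.of_card_dvd_pow
      (n := b) (by rw [Nat.card_zpowers]; exact orderOf_dvd_of_pow_eq_one k1)) (by simpa using u1)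
    have k3 := Set.ncard_le_ncard (fixedBy_subset_fixedBy_zpow Ω u n)
    have k4 : ({β, α} : Set Ω).ncard ≤ (fixedBy Ω u).ncard := Set.ncard_le_ncard (by
      rintro _ (rfl | rfl); exacts [(map_subtype_le T hu).2, (map_subtype_le T hu).1])
    rw [← Nat.card_coe_set_eq (fixedBy Ω (u ^ n)), ← fix_isConj (hc _ t2), h1] at k3
    rw [Set.ncard_pair hab] at k4
    rw [Nat.card_eq_fintype_card (α := Ω), hΩ, Nat.ModEq, Nat.card_coe_set_eq] at k2
    rw [Nat.card_coe_set_eq]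
    omega
  rw [hT, Nat.card_eq_fintype_card, hΩ] at h8
  zify [Nat.one_le_two_pow] at h8
  obtain ⟨w, hw⟩ : (2 : ℤ) ^ b ∣ 4 * j := (IsCoprime.pow_left ⟨-1, 1, rfl⟩ : IsCoprime _ (3 : ℤ)).dvd_of_dvd_mul_left
    ((h8.sub (Dvd.intro 3 rfl)).trans (dvd_of_eq (by rw [hj]; ring)))
  have h9 : b ≤ 2 := by
    by_contra! n
    obtain ⟨i, rfl⟩ := Nat.exists_eq_add_of_le' n
    rw [show (p * (6 * j + 1) * (3 * p - 2) * c ^ 2 : ℤ) = 2 * (9 * g * w ^ 2 * 2 ^ i) from
      mul_right_cancel₀ (pow_ne_zero (i + 3) two_ne_zero) (by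
        obtain rfl : j = 2 ^ (i + 1) * w := mul_left_cancel₀ four_ne_zero (by linear_combination hw)
        linear_combination -h7)] at hY
    exact Int.not_odd_iff_even.2 (even_two_mul _) hY
  rcases kn_cases hs (kn_of_fix (Ω := Ω) hG hc (by
      rw [e1, Nat.odd_iff] at *; interval_cases b <;> omega) (by
      rw [h1, Nat.card_eq_fintype_card, hΩ]
      intro n
      obtain ⟨i, rfl⟩ : 2 ∣ j := by omega
      rw [Int.odd_iff] at hY
      have : (g : ℤ) * 36 * (2 * i) ^ 2 = 16 * (9 * g * i ^ 2) := by ring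
      interval_cases b <;> omega)) with k | ⟨q, q3, k1, k2, -⟩
  · rw [k] at h h4
    rcases five_or_seven hp h3 ((Dvd.intro_left 3 rfl).trans (Dvd.intro_left _ h4)) with rfl | rfl <;> omega
  exact arith_two hp h3 hj q3 k1 k2 h

include hG hp h3 hΩ hs hc in
theorem nag_rank3 (h1 : Nat.card (fixedBy Ω s) ≤ 3) {r : ℤ} {a b c : Ω} (hr : 2 * p = 6 * r ^ 2 + 3 * r + 1)
    (hb : b ≠ a) (hc' : c ≠ a) (kb : sub G a b = p + r) (kc : sub G a c = 2 * p - 1 - r)
    (hx : ∀ x, x ≠ a → sub G a x = sub G a b ∨ sub G a x = sub G a c)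
    (h : (Nat.card G : ℤ) * (2 * p - 2) = p * (2 * p - 1) * Nat.card 𝐂(s) ^ 2) :
    p = 5 ∧ Nonempty (G ≃* alternatingGroup (Fin 6)) := by
  have h4 := card_stab_mul (G := G) a
  have h5 := sub_mul (G := G) a b
  have h6 := sub_mul (G := G) a c
  rw [Nat.card_eq_fintype_card (α := Ω), hΩ] at h4
  obtain ⟨n, g, d, hg, hd, e1, e2⟩ := two_part hs hc
  have p2 := hp.odd_of_ne_two (by omega)
  have h7 : (g : ℤ) * (2 * p - 2) = p * (2 * p - 1) * d ^ 2 * 2 ^ n := by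
    refine mul_left_cancel₀ (pow_ne_zero n two_ne_zero) ?_
    rw [e1, e2] at h
    push_cast at h
    linear_combination h
  obtain ⟨u, hu⟩ : (2 : ℤ) ^ n ∣ 2 * p - 2 := (IsCoprime.pow_left (Int.isCoprime_two_left.2
    (show Odd (g : ℤ) by exact_mod_cast hg))).dvd_of_dvd_mul_left (Dvd.intro_left _ h7.symm)
  have u2 : Odd u := (Int.odd_mul.1 (show Odd (g * u) by
    rw [show g * u = p * (2 * p - 1) * d ^ 2 from mul_left_cancel₀ (pow_ne_zero n two_ne_zero) (by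
      rw [hu] at h7; linear_combination h7)]
    exact Odd.mul (Odd.mul (by exact_mod_cast p2) ⟨p - 1, by ring⟩) (by exact_mod_cast hd.pow))).2
  obtain ⟨m, hm⟩ : 2 ^ n ∣ Nat.card (stabilizer G a) := (Nat.Coprime.pow_left n
    (Odd.coprime_two_left (Odd.mul (by decide) p2))).dvd_of_dvd_mul_right ⟨g, h4.trans e1⟩
  have m2 : Odd m := (Nat.odd_mul.1 (show Odd (m * (3 * p)) by
    rwa [show m * (3 * p) = g from Nat.eq_of_mul_eq_mul_left (Nat.two_pow_pos n) (by
      rw [← e1, ← h4, hm, mul_assoc])])).1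
  have h8 := four_dvd_of_simple hG hs
  obtain ⟨r1, r2⟩ := r_mod r
  rw [Nat.odd_iff] at hg m2
  rw [Int.odd_iff] at u2
  obtain rfl : n = 3 := by
    rcases Nat.lt_or_ge n 4 with k | k
    · have k1 : (16 : ℤ) ∣ 6 * r ^ 2 + 2 * r → (16 : ℤ) ∣ Nat.card (stabilizer G a) := fun k1 => by
        rw [← h6]; push_cast
        exact Dvd.dvd.mul_left (k1.trans (dvd_of_eq (by omega))) _
      interval_cases n <;> omega
    exfalso
    obtain ⟨i, rfl⟩ := Nat.exists_eq_add_of_le' k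
    rw [pow_add, mul_assoc, mul_left_comm] at hu hm
    obtain ⟨k1, k2, -⟩ := r2 (by omega)
    have k3 : ∀ x, ¬ 16 ∣ sub G a x → ∃ z, orderOf z = 2 ∧ z • a = a ∧ z • x = x := fun x k => by
      obtain ⟨z, hz, z2⟩ := H9.exists_involution_mem (H := stabilizer G a ⊓ stabilizer G x) (by
        by_contra k4
        exact k ((Nat.Coprime.pow_left 4 (Nat.not_even_iff_odd.1 k4).coprime_two_left).dvd_of_dvd_mul_left
          ⟨_, (sub_mul a x).trans hm⟩))
      exact ⟨z, z2, hz⟩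
    obtain ⟨z, z2, za, zb⟩ := k3 b (by omega)
    obtain ⟨t, t2, ta, tc⟩ := k3 c (by omega)
    obtain ⟨y, rfl⟩ := isConj_iff.1 ((hc t t2).symm.trans (hc z z2))
    have := sub_eq_of_fix (z2 ▸ pow_orderOf_eq_one _) ((fix_isConj (hc _ z2)).symm.trans_le h1)
      (fun x w k => by
        obtain ⟨v, rfl⟩ := exists_smul_eq G a x
        rw [← smul_inv_smul v w, sub_smul, Nat.even_iff]
        rcases hx (v⁻¹ • w) (fun e => k (inv_smul_eq_iff.1 e)) with e | e <;> omega) za zb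
      (x' := y • a) (y' := y • c) (by simp [mul_smul, ta]) (by simp [mul_smul, tc]) hb
      ((MulAction.injective y).ne hc')
    rw [sub_smul] at this
    omega
  obtain ⟨-, -, r3⟩ := r2 (by omega)
  rcases kn_cases hs (kn_of_fix (Ω := Ω) hG hc (by omega) (by
      rw [Nat.card_eq_fintype_card, hΩ]; omega)) with k | ⟨q, q3, k1, k2, k3⟩
  · rw [k] at h h4
    obtain rfl : p = 5 := by
      have := five_or_seven hp h3 ((Dvd.intro_left 3 rfl).trans (Dvd.intro_left _ h4)); omega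
    have : Nat.card 𝐂(s) ^ 2 = 448 := by zify; omega
    rcases le_or_gt (Nat.card 𝐂(s)) 21 with k | k <;> nlinarith
  obtain rfl := arith_q h3 q3 k1 k2 h
  obtain rfl : r = 1 := by
    have r0 : r ≠ 0 := by omega
    zify at h4 h6
    rw [kc] at h6
    generalize (Nat.card (stabilizer G a ⊓ stabilizer G c : Subgroup G) : ℤ) = y at h6
    have k4 : 3 * y * (2 * p - 1 - r) = (2 * p - 1) * (2 * p - 2) :=
      mul_left_cancel₀ (by omega : (2 * p : ℤ) ≠ 0) (by linear_combination k1 + 2 * h4 + 6 * p * h6)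
    rw [hr] at k4
    have k5 : 2 * y * (3 * r + 1) = (2 * r + 1) * (6 * r ^ 2 + 3 * r - 1) :=
      mul_left_cancel₀ (by omega : 3 * r ≠ 0) (by linear_combination k4)
    have := Int.natAbs_le_of_dvd_ne_zero (show 3 * r + 1 ∣ 4 from
      ⟨36 * r ^ 2 + 24 * r - 5 - 18 * y, by linear_combination 9 * k5⟩) (by omega)
    omega
  exact ⟨by omega, k3 (by omega)⟩

include hp h3 hΩ in
omit [IsSimpleGroup G] [IsPretransitive G Ω] in
theorem nag_pgl [IsPreprimitive G Ω] {m : ℕ} {F : Type*} [Field F] [Fintype F] (hF : Fintype.card F = 2 ^ m)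
    (hm : p = 2 ^ m + 1) (e : G ≃* PGL(2, F)) (h : Nat.card G = p * (p - 1) * (p - 2)) : False := by
  classical
  have : Nontrivial Ω := Fintype.one_lt_card_iff_nontrivial.1 (by omega)
  obtain ⟨a⟩ : Nonempty Ω := inferInstance
  let _ : MulAction G (OnePoint F) := MulAction.compHom _ (e : G →* PGL(2, F))
  have hX : Nat.card (OnePoint F) = p := by
    rw [hm, ← hF, ← Nat.card_eq_fintype_card]; exact Finite.card_option
  have h4 := card_stab_mul (G := G) a
  rw [Nat.card_eq_fintype_card (α := Ω), hΩ, h] at h4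
  have h5 : Nat.card (stabilizer G a) * 3 = (p - 1) * (p - 2) :=
    Nat.eq_of_mul_eq_mul_left hp.pos (by linarith)
  have : Fact (Nat.Prime 2) := ⟨Nat.prime_two⟩
  obtain ⟨T, hT⟩ := Sylow.exists_subgroup_card_pow_prime (G := stabilizer G a) 2 (n := m)
    ((Nat.Coprime.pow_left m (by decide : Nat.Coprime 2 3)).dvd_of_dvd_mul_right
      ⟨p - 2, by rw [h5, hm, Nat.add_sub_cancel]⟩)
  have p2 := Nat.odd_iff.1 (hp.odd_of_ne_two (by omega))
  obtain ⟨x, hx⟩ := (IsPGroup.of_card hT).nonempty_fixed_point_of_prime_not_dvd_card (OnePoint F) (by omega)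
  have h6 : stabilizer G a ≤ stabilizer G x := fun g hg => by
    by_contra n
    have k1 : stabilizer T (g • x) = ⊥ := eq_bot_iff.2 fun t ht => by
      have k2 := fix_modEq (Ω := OnePoint F) (hT ▸ pow_card_eq_one' (x := t))
      by_contra k3
      have : fixedBy (OnePoint F) t = {g • x, x} := Set.Subset.antisymm (fun y hy => by
        by_contra k4
        simp only [Set.mem_insert_iff, Set.mem_singleton_iff, not_or] at k4
        exact k3 (Subtype.ext (Subtype.ext (e.map_eq_one_iff.1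
          (eq_one_of_fix_three n (Ne.symm k4.1) (Ne.symm k4.2) ht (hx t) hy)))))
        (by rintro _ (rfl | rfl); exacts [ht, hx t])
      rw [this, Nat.card_coe_set_eq, Set.ncard_pair n, Nat.ModEq] at k2
      omega
    have k2 : insert x (orbit T (g • x)) ⊆ orbit (stabilizer G a) x := by
      rintro _ (rfl | ⟨t, rfl⟩)
      exacts [mem_orbit_self _, ⟨t * ⟨g, hg⟩, mul_smul ..⟩]
    have k3 := Set.ncard_le_ncard k2
    have k4 := Set.ncard_le_card (orbit (stabilizer G a) x)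
    rw [Set.ncard_insert_of_notMem (by rintro ⟨t, ht⟩; exact n ((eq_inv_smul_iff.2 ht).trans (hx t⁻¹))),
      ← index_stabilizer, k1, index_bot] at k3
    have k5 := index_dvd_card (stabilizer (stabilizer G a) x)
    rw [index_stabilizer, show (orbit (stabilizer G a) x).ncard = p by omega] at k5
    rcases hp.dvd_mul.1 (h5 ▸ k5.mul_right 3) with k | k <;> have := Nat.le_of_dvd (by omega) k <;> omega
  have h7 := index_stabilizer G x
  have h8 := Set.ncard_le_card (orbit G x)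
  rcases h6.eq_or_lt with k | k
  · rw [← k, index_stabilizer_of_transitive, Nat.card_eq_fintype_card] at h7
    omega
  · have : Nontrivial (OnePoint F) := Finite.one_lt_card_iff_nontrivial.1 (by omega)
    obtain ⟨y, hy⟩ := exists_ne x
    obtain ⟨u, -, hu⟩ := exists_smul_infty x
    obtain ⟨v, -, hv⟩ := exists_smul_infty y
    have : e (e.symm (v * u⁻¹)) • x = x := (((isCoatom_stabilizer_iff_preprimitive G a).2 inferInstance).2 _ k).ge
      (mem_top (e.symm (v * u⁻¹)))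
    rw [e.apply_symm_apply, mul_smul, ← hu, inv_smul_smul, hu, hv] at this
    exact hy this

omit [Finite G] [IsSimpleGroup G] in
theorem PB.perm_decomp [Fintype G] [Fact p.Prime] {P : Sylow p G} {t : ℕ} (D : PB P 2 t) (S : SC P)
    {χ : IrrCharacter G} (hsum : ∀ {β : Type} [AddCommMonoid β] (F : IrrCharacter G → β),
      ∑ ζ ∈ D.X, F ζ = F (irrOne G) + F χ) (a₀ : Ω) (fp : ∀ x ∈ (P : Subgroup G), x ≠ 1 → ∀ y : Ω, x • y ≠ y) :
    ∃ (m : IrrCharacter G → ℕ) (b : ℕ) (R : Finset (IrrCharacter G)), D.ε * b = 1 + D.δ χ * m χ ∧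
      1 + (m χ * charDegree χ.1 + t * (b * D.f) + ∑ ζ ∈ R, m ζ * charDegree ζ.1) = Fintype.card Ω ∧
      1 + (m χ ^ 2 + t * b ^ 2 + ∑ ζ ∈ R, m ζ ^ 2) = Nat.card (orbitRel.Quotient (stabilizer G a₀) Ω) ∧
      (∀ ζ ∈ R, p ∣ charDegree ζ.1) ∧ (∀ ζ : IrrCharacter G, classInner (pc G Ω) ζ = m ζ) ∧
      (∀ ζ, ζ ≠ irrOne G → ζ = χ ∨ (ζ ∈ D.Y ∧ m ζ = b) ∨ ζ ∈ R) ∧
      ∀ g, pc G Ω g = 1 + (m χ * χ.1 g + ∑ θ ∈ D.Y, b * θ.1 g + ∑ ζ ∈ R, m ζ * ζ.1 g) := by
  classical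
  obtain ⟨m, d, m1, d1, s1, s2⟩ := exists_mult (G := G) a₀
  obtain rfl : d = fun ζ => charDegree ζ.1 := funext fun ζ => by
    exact_mod_cast (d1 ζ).1.symm.trans ζ.2.isCharacter.coe_charDegree.symm
  have : Nonempty Ω := ⟨a₀⟩
  have m0 : m (irrOne G) = 1 := by
    exact_mod_cast (m1 (irrOne G)).symm.trans (inner_pc_one (G := G) (Ω := Ω))
  have sp : ∀ {β : Type} [AddCancelCommMonoid β] (F : IrrCharacter G → β), ∑ ζ ∈ Finset.univ.erase (irrOne G), F ζ =
      F χ + ∑ ζ ∈ D.Y, F ζ + ∑ ζ ∈ Finset.univ \ (D.X ∪ D.Y), F ζ := fun F => add_left_cancel (a := F (irrOne G)) (by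
    rw [Finset.add_sum_erase _ _ (Finset.mem_univ _), ← Finset.sum_sdiff (Finset.subset_univ (D.X ∪ D.Y)),
      Finset.sum_union D.disj, hsum]
    ac_rfl)
  have r : ∀ θ ∈ D.Y, D.ε * m θ = 1 + D.δ χ * m χ := fun θ hθ => by
    have := D.inner_rel S (isCharacter_fixedBy (G := G) Ω).isClassFunction (fun x hx x1 => by
      have : IsEmpty (fixedBy Ω x) := ⟨fun y => fp x hx x1 y y.2⟩
      simp) hθ
    rw [hsum, m1, m1, m1, m0, D.δ_one] at this
    exact_mod_cast this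
  obtain ⟨θ, hθ⟩ := D.Y_nonempty
  have r' : ∀ ζ ∈ D.Y, m ζ = m θ := fun ζ h => by
    have := (r ζ h).trans (r θ hθ).symm
    rcases D.ε_sign with e | e <;> rw [e] at this <;> omega
  refine ⟨m, m θ, Finset.univ \ (D.X ∪ D.Y), r θ hθ, ?_, ?_, fun ζ h => ?_, m1, fun ζ h => ?_, fun g => ?_⟩
  · rw [← s1, sp, Finset.sum_congr (s₁ := D.Y) (g := fun _ => m θ * D.f) rfl fun ζ h => by rw [r' ζ h, ← D.degY ζ h],
      Finset.sum_const, D.cardY, smul_eq_mul]
  · rw [← s2, sp, Finset.sum_congr (s₁ := D.Y) (g := fun _ => m θ ^ 2) rfl fun ζ h => by rw [r' ζ h],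
      Finset.sum_const, D.cardY, smul_eq_mul]
  · simp only [Finset.mem_sdiff, Finset.mem_union, not_or] at h
    exact ((D.mem_or_dvd S ζ).resolve_left h.2.1).resolve_left h.2.2
  · have := sp (fun ξ => if ξ = ζ then 1 else 0 : _ → ℕ)
    by_contra! n
    simp [h, n.1.symm, show ζ ∉ D.Y from fun k => n.2.1 k (r' ζ k), n.2.2] at this
  · refine (((isCharacter_fixedBy Ω).isClassFunction.apply_eq_sum_irr g).trans
      (Finset.sum_congr (g := fun ζ => m ζ * ζ.1 g) rfl fun χ _ => by rw [← m1])).trans ?_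
    rw [← Finset.add_sum_erase _ _ (Finset.mem_univ (irrOne G)),
      sp, m0, Finset.sum_congr (s₁ := D.Y) (g := fun ζ => m θ * ζ.1 g) rfl fun ζ h => by rw [r' ζ h]]
    simp [irrOne]

end H10
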