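import Cfsg.Agent.H10.PSL2Max
/-! A numerical maximality criterion in `PSL(2,q)` (`isCoatom_of_card`) and the subfield arithmetic
(`eq_of_dvd_subfield`). -/

namespace H10
open Matrix OnePoint MulAction Subgroup
open scoped MatrixGroups

variable {F : Type*} [Field F] [Fintype F]

theorem exists_A4_hom (h2 : (2 : F) ≠ 0) : ∃ f : alternatingGroup (Fin 4) →* PSL(2, F), Function.Injective f := by
  obtain ⟨a, c, h⟩ := exists_root_of_odd h2 1
  obtain ⟨H, ⟨e⟩⟩ := exists_A4_of_root h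
  exact ⟨H.subtype.comp e.symm, H.subtype_injective.comp e.symm.injective⟩

theorem isCoatom_of_card {H : Subgroup PSL(2, F)} (hH : H ≠ ⊤) (hs : ¬ Group.IsSolvable H ∨ (2 : F) ≠ 0 ∧
    ∃ f : alternatingGroup (Fin 4) →* H, Function.Injective f)
    (h : ∀ n, Nat.card H ∣ n → Nat.card H < n → n ∣ Nat.card PSL(2, F) → n < Nat.card PSL(2, F) →
      ¬ (n = 12 ∨ n = 24 ∨ n = 60 ∨ ∃ s m, 2 ≤ m ∧ s ^ m = Fintype.card F ∧ n ∣ s * (s - 1) * (s + 1))) :
    IsCoatom H := by
  classical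
  refine ⟨hH, fun K hK => by_contra fun n => h _ (card_dvd_of_le hK.le)
    (Set.Finite.card_lt_card (Set.toFinite (K : Set PSL(2, F))) hK) (card_subgroup_dvd_card K)
    ((card_le_card_group K).lt_of_ne fun e => n (eq_top_of_card_eq K e)) ?_⟩
  have sol : Group.IsSolvable K → Group.IsSolvable H := fun _ => Group.isSolvable_of_isSolvable_injective
    (inclusion_injective hK.le)
  have sq : (∀ x y : K, x * x * (y * y) = y * y * (x * x)) → ∀ f : alternatingGroup (Fin 4) →* H,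
      ¬ Function.Injective f := fun k f hf => (by decide +kernel : ¬ ∀ x y : alternatingGroup (Fin 4),
        x * x * (y * y) = y * y * (x * x)) fun x y => hf (inclusion_injective hK.le (by
      simpa only [map_mul] using k (inclusion hK.le (f x)) (inclusion hK.le (f y))))
  rcases dickson_PSL_proper n with ⟨x, hx⟩ | ⟨k, -, ⟨c, -⟩ | ⟨⟨e⟩⟩⟩ | ⟨⟨e⟩⟩ | ⟨⟨e⟩⟩ | ⟨⟨e⟩⟩ | ⟨R, _, m, h1, h2, f, hf⟩
  · rcases hs with hs | ⟨h2, f, hf⟩
    · exact (hs (isSolvable_of_fix ((ι F).comp H.subtype) (ι_injective.comp H.subtype_injective)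
        fun g => hx g (hK.le g.2))).elim
    obtain ⟨μ, m1, -, m3⟩ := exists_multiplier x
    obtain ⟨a, b, k1, k2⟩ : ∃ a b : alternatingGroup (Fin 4), a * b * a⁻¹ * b⁻¹ ≠ 1 ∧
      (a * b * a⁻¹ * b⁻¹) ^ 2 = 1 := by decide +kernel
    let φ : alternatingGroup (Fin 4) →* stabilizer PGL(2, F) x :=
      (((ι F).comp H.subtype).comp f).codRestrict _ fun g => hx _ (hK.le (f g).2)
    refine (h2 (Nat.cast_ofNat.symm.trans ((m3 (φ (a * b * a⁻¹ * b⁻¹)) ?_ (fun e => k1 ?_) 2).1 ?_))).elim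
    · simp only [map_mul, map_inv]
      rw [mul_inv_cancel_comm, mul_inv_cancel]
    · exact hf (Subtype.ext (ι_injective ((congrArg Subtype.val e).trans (by simp))))
    · rw [← map_pow, k2, map_one]
  · rcases hs with hs | ⟨-, f, hf⟩
    · exact (hs (sol (Group.isSolvable_of_comm fun a b => c.isMulCommutative.1.1 a b))).elim
    · exact (sq (fun a b => c.isMulCommutative.1.1 _ _) f hf).elim
  · rcases hs with hs | ⟨-, f, hf⟩
    · exact (hs (sol (have := isSolvable_dihedral k; Group.isSolvable_of_isSolvable_injective (f := e.toMonoidHom)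
        e.injective))).elim
    · refine (sq (fun a b => e.injective ?_) f hf).elim
      simp only [map_mul]
      rcases e a with i | i <;> rcases e b with j | j <;> simp [add_comm]
  · exact .inl ((Nat.card_congr e.toEquiv).trans card_alt_four')
  · exact .inr (.inl (by rw [Nat.card_congr e.toEquiv, Nat.card_perm, Nat.card_fin]; rfl))
  · exact .inr (.inr (.inl ((Nat.card_congr e.toEquiv).trans card_alt_five')))
  · exact .inr (.inr (.inr ⟨_, m, h1, h2, card_PGL2 (F := R) ▸ card_dvd_of_injective f hf⟩))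

theorem eq_of_dvd_subfield {q s m r : ℕ} (hq : IsPrimePow q) (hr : r.Prime) (hm : 2 ≤ m) (h : s ^ m = q ^ r)
    (hd : q * (q - 1) * (q + 1) ∣ 2 * (s * (s - 1) * (s + 1))) : s = q := by
  obtain ⟨p, b, hp, hb, rfl⟩ := (isPrimePow_nat_iff q).1 hq
  obtain ⟨a, -, rfl⟩ := (Nat.dvd_prime_pow hp).1 (show s ∣ p ^ (b * r) by
    rw [pow_mul, ← h]; exact dvd_pow_self s (by omega))
  have e : ∀ c, (p ^ c - 1) * (p ^ c + 1) = p ^ (c * 2) - 1 := fun c => by
    rw [pow_mul, mul_comm, ← Nat.sq_sub_sq, one_pow]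
  rw [mul_assoc, mul_assoc, e, e, mul_left_comm] at hd
  have h1 := hp.two_le
  have h2 : p ^ (b * 2) - 1 ∣ 2 * (p ^ (Nat.gcd b a * 2) - 1) := by
    rw [← Nat.gcd_mul_right, ← Nat.pow_sub_one_gcd_pow_sub_one, ← Nat.gcd_mul_left]
    refine Nat.dvd_gcd (Dvd.intro_left _ rfl) (Nat.Coprime.dvd_of_dvd_mul_left ?_ ((Dvd.intro_left _ rfl).trans hd))
    exact Nat.Coprime.pow_right _ ((hp.coprime_iff_not_dvd.2 fun k => hp.not_dvd_one
      ((Nat.dvd_sub_iff_right (Nat.one_le_pow _ _ hp.pos) (dvd_pow_self p (by omega))).1 k)).symm)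
  rw [← pow_mul, ← pow_mul, Nat.pow_right_inj hp.one_lt] at h
  have g0 := Nat.gcd_pos_of_pos_left a hb
  obtain ⟨c, hc⟩ : b ∣ a := by
    by_contra n
    obtain ⟨c, hc⟩ := Nat.gcd_dvd_left b a
    have : 2 ≤ c := by
      rcases c with _ | _ | c
      · omega
      · exact absurd ((dvd_of_eq (by omega)).trans (Nat.gcd_dvd_right b a)) n
      · omega
    have k1 := Nat.one_lt_pow (n := Nat.gcd b a * 2) (by omega) hp.one_lt
    have k2 := Nat.le_of_dvd (by omega) h2
    have k3 : (p ^ (Nat.gcd b a * 2)) ^ 2 ≤ p ^ (b * 2) := by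
      rw [← pow_mul]; exact Nat.pow_le_pow_right hp.pos (by nlinarith)
    have k4 : 2 * p ^ (Nat.gcd b a * 2) ≤ (p ^ (Nat.gcd b a * 2)) ^ 2 := by nlinarith
    omega
  rw [hc, mul_assoc, Nat.mul_right_inj hb.ne'] at h
  rcases (Nat.dvd_prime hr).1 (Dvd.intro _ h) with rfl | rfl
  · rw [hc, mul_one]
  · have := hr.pos
    nlinarith

end H10
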