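import Mathlib

/-! Arithmetic for the count of strongly real elements of order dividing `q² - q + 1` in a group of Ree type
(`ree_arith`). -/

set_option autoImplicit false

namespace H10

theorem ree_k1 {q a b e : ℤ} (q27 : 27 ≤ q) (q9 : 9 ∣ q) (q4 : q % 4 = 3) (q5 : ¬ 5 ∣ q ^ 2 - 1)
    (hc : ∀ x : ℤ, ¬ 3 ∣ x → IsCoprime x q) (hab : a * b = q ^ 2 - q + 1) (e0 : 0 < e) (e2 : 2 ∣ e)
    (ea : e ∣ a - 1) (eG : e ∣ q ^ 3 * (q ^ 2 - 1) * b) (hk : e * (q + 1) - 3 * b = a) : False := by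
  have h1 : e ∣ 3 * b + 1 := by
    have : 3 * b + 1 = e * (q + 1) - (a - 1) := by linear_combination -hk
    rw [this]; exact dvd_sub (dvd_mul_right _ _) ea
  have h2 : e ∣ 3 * (q ^ 2 - q + 1) + 1 := by
    have : 3 * (q ^ 2 - q + 1) + 1 = a * (3 * b + 1) - (a - 1) := by linear_combination -3 * hab
    rw [this]; exact dvd_sub (h1.mul_left _) ea
  have c1 : IsCoprime e b := by
    obtain ⟨u, hu⟩ := h1
    exact ⟨u, -3, by linear_combination -hu⟩
  have c2 : IsCoprime e q := hc e fun k => by have := k.trans h1; omega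
  have h3 : e ∣ q ^ 2 - 1 := c2.pow_right.dvd_of_dvd_mul_left (c1.dvd_of_dvd_mul_right eG)
  have h4 : e ∣ 3 * q - 7 := by
    have : 3 * q - 7 = 3 * (q ^ 2 - 1) - (3 * (q ^ 2 - q + 1) + 1) := by ring
    rw [this]; exact dvd_sub (h3.mul_left _) h2
  have h5 : e ∣ 40 := by
    have : (40 : ℤ) = 9 * (q ^ 2 - 1) - (3 * q - 7) * (3 * q + 7) := by ring
    rw [this]; exact dvd_sub (h3.mul_left _) (h4.mul_right _)
  have h6 : ¬ 4 ∣ e := fun k => by have := k.trans h4; omega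
  have h7 : ¬ 5 ∣ e := fun k => q5 (k.trans h3)
  have := Int.le_of_dvd (by norm_num) h5
  have : e = 2 := by interval_cases e <;> omega
  subst this
  have k : (a - q - 1) ^ 2 = -2 * q ^ 2 + 5 * q - 2 := by linear_combination -a * hk - 3 * hab
  nlinarith [sq_nonneg (a - q - 1)]

theorem ree_k3 {q a b c e : ℤ} (q9 : 9 ∣ q) (q4 : q % 4 = 3)
    (hc : ∀ x : ℤ, ¬ 3 ∣ x → IsCoprime x q) (hab : a * b = q ^ 2 - q + 1) (e0 : 0 < e) (e2 : 2 ∣ e)
    (ea : e ∣ a - 1) (eG : e ∣ q ^ 3 * (q ^ 2 - 1) * b) (hk : e * (q + 1) - 3 * b = 3 * a) (cb : 7 * c ≤ b)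
    (c0 : 0 < c) (h : 2 * q * e ≤ 6 * (a - 1) + 3 * e * (c - 1)) : False := by
  obtain ⟨Q, rfl⟩ := q9
  obtain ⟨f, rfl⟩ : 3 ∣ e := ⟨a + b - 3 * e * Q, by linear_combination hk⟩
  have hf : f * (9 * Q + 1) = a + b := by linarith
  have fa : f ∣ a - 1 := (dvd_mul_left f 3).trans ea
  have h1 : f ∣ b + 1 := by
    have : b + 1 = f * (9 * Q + 1) - (a - 1) := by linear_combination -hf
    rw [this]; exact dvd_sub (dvd_mul_right _ _) fa
  have h2 : f ∣ (9 * Q) ^ 2 - 9 * Q + 2 := by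
    have : (9 * Q) ^ 2 - 9 * Q + 2 = a * (b + 1) - (a - 1) := by linear_combination -hab
    rw [this]; exact dvd_sub (h1.mul_left _) fa
  have c1 : IsCoprime f b := by
    obtain ⟨u, hu⟩ := h1
    exact ⟨u, -1, by linear_combination -hu⟩
  have c2 : IsCoprime f (9 * Q) := hc f fun k => by
    obtain ⟨u, hu⟩ := k.trans h2
    have : 3 * (u - 27 * Q ^ 2 + 3 * Q) = 2 := by linear_combination -hu
    omega
  have h3 : f ∣ (9 * Q) ^ 2 - 1 :=
    c2.pow_right.dvd_of_dvd_mul_left (c1.dvd_of_dvd_mul_right ((dvd_mul_left f 3).trans eG))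
  have h4 : f ∣ 9 * Q - 3 := by
    have : 9 * Q - 3 = ((9 * Q) ^ 2 - 1) - ((9 * Q) ^ 2 - 9 * Q + 2) := by ring
    rw [this]; exact dvd_sub h3 h2
  have h5 : f ∣ 8 := by
    have : (8 : ℤ) = ((9 * Q) ^ 2 - 1) - (9 * Q - 3) * (9 * Q + 3) := by ring
    rw [this]; exact dvd_sub h3 (h4.mul_right _)
  obtain ⟨s, hs⟩ := (dvd_mul_right 3 f).trans ea
  obtain rfl : a = 3 * s + 1 := by omega
  have h6 : 3 * (s * b) + b = 9 * (9 * Q ^ 2 - Q) + 1 := by linear_combination hab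
  obtain ⟨t, rfl⟩ : ∃ t, b = 3 * t + 1 := ⟨(b - 1) / 3, by omega⟩
  have h7 : s + t = 3 * (9 * Q ^ 2 - Q - s * t) := by linarith
  have h8 : f = 9 * (9 * Q ^ 2 - Q - s * t - f * Q) + 2 := by linear_combination hf + 3 * h7
  have := Int.le_of_dvd (by norm_num) h5
  have : f = 2 := by omega
  subst this
  omega

theorem ree_arith {q a b c e j : ℤ} (q27 : 27 ≤ q) (q9 : 9 ∣ q) (q4 : q % 4 = 3) (q5 : ¬ 5 ∣ q ^ 2 - 1)
    (hc : ∀ x : ℤ, ¬ 3 ∣ x → IsCoprime x q) (hab : a * b = q ^ 2 - q + 1) (a0 : 0 < a) (e0 : 0 < e) (e2 : 2 ∣ e)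
    (ea : e ∣ a - 1) (hj : j * e = q ^ 3 * (q ^ 2 - 1) * b) (ja : a ∣ j - 1) (cb : 7 * c ≤ b) (c0 : 0 < c)
    (h : 2 * q * e ≤ 6 * (a - 1) + 3 * e * (c - 1)) (ha : 2 * q * (q - 1) ≤ 3 * a * (q + 1)) : False := by
  have eG : e ∣ q ^ 3 * (q ^ 2 - 1) * b := ⟨j, by rw [← hj, mul_comm]⟩
  obtain ⟨k, hk⟩ : a ∣ e * (q + 1) - 3 * b := by
    obtain ⟨u, hu⟩ := ja
    exact ⟨b * (b * (q ^ 4 + 2 * q ^ 3 - 3 * q - 3)) - u * e * (q + 1), by
      linear_combination (q + 1) * hj - e * (q + 1) * hu - b * (q ^ 4 + 2 * q ^ 3 - 3 * q - 3) * hab⟩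
  have b0 : 0 < b := by omega
  have ao : ¬ 2 ∣ a * b := by
    rw [hab]
    obtain ⟨u, rfl⟩ : ∃ u, q = 4 * u + 3 := ⟨q / 4, by omega⟩
    rintro ⟨v, hv⟩
    have : 2 * (v - 8 * u ^ 2 - 10 * u - 3) = 1 := by linear_combination -hv
    omega
  have ko : ¬ 2 ∣ k := fun ⟨u, hu⟩ => ao (Dvd.dvd.mul_left (by
    obtain ⟨v, rfl⟩ := e2
    subst hu
    exact ⟨v * (q + 1) - b - a * u, by linear_combination -hk⟩) a)
  have h1 : 8 * b ≤ 13 * q := by
    by_contra k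
    have k1 : (13 * q + 1) * (2 * q * (q - 1)) ≤ 8 * b * (3 * a * (q + 1)) :=
      mul_le_mul (by omega) ha (by nlinarith) (by omega)
    have k2 : 8 * b * (3 * a * (q + 1)) = 24 * (q ^ 3 + 1) := by linear_combination 24 * (q + 1) * hab
    nlinarith
  have h2 : 73 * (e * (q + 1)) < 336 * a := by nlinarith
  have h3 : 13 * q ≤ 21 * a := by nlinarith
  rcases lt_or_ge 0 k with k0 | k0
  · have : k < 5 := by nlinarith
    have : k = 1 ∨ k = 3 := by omega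
    rcases this with rfl | rfl
    · exact ree_k1 q27 q9 q4 q5 hc hab e0 e2 ea eG (by linarith)
    · exact ree_k3 q9 q4 hc hab e0 e2 ea eG (by linarith) cb c0 h
  have h4 : e * (q + 1) ≤ 3 * b := by nlinarith
  have : e < 4 := by
    by_contra k
    have k1 : a * (e * (q + 1)) ≤ a * (3 * b) := mul_le_mul_of_nonneg_left h4 a0.le
    have k2 : a * e < 3 * q := by nlinarith
    have k3 : 4 * a ≤ a * e := by nlinarith
    nlinarith
  obtain rfl : e = 2 := by omega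
  have : -5 < k := by nlinarith
  have : k = -1 ∨ k = -3 := by omega
  rcases this with rfl | rfl
  · have k1 : (a + q + 1) ^ 2 = 4 * q ^ 2 - q + 4 := by linear_combination 3 * hab + a * hk
    rcases lt_or_ge (a + q + 1) (2 * q) with k | k <;> nlinarith
  · omega

end H10
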