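import Cfsg.Agent.H10.Sieve
/-! `H10.PB.exists_sol`: the degrees in the principal block satisfy a predicate checked by the sieve;
`invol_val` (values at involutions), `sylow_cases`. -/

namespace H10
open H5 Cfsg Subgroup

/-- All solutions of the degree equation satisfy `Q`. -/
def solIn (Q : List ℤ → Bool) (B N p e m : ℕ) : Bool :=
  allMs (fun l => badDeg N p e ((p - 1) / e) m (N / (p * m * e)) l || Q l)
    (cands B p e ((p - 1) / e) m (N / (p * m * e))) (e - 1) N []

theorem invol_val {G : Type*} [Group G] [Finite G] {χ : G → ℂ} (h : IsCharacter G χ) {g : G}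
    (hg : g ^ 2 = 1) : ∃ k ≤ charDegree χ, χ g = charDegree χ - 2 * k ∧ detChar χ g = (-1) ^ k := by
  classical
  obtain ⟨n, ε, h1, h2, h3, h4⟩ := H6.exists_eigenvalues_det h g
  have h5 : ∀ i, ε i = if ε i = 1 then 1 else -1 := fun i => by
    split_ifs with e
    · exact e
    obtain ⟨k, hk⟩ := orderOf_dvd_of_pow_eq_one hg
    exact (sq_eq_one_iff.1 (by rw [hk, pow_mul, h2, one_pow])).resolve_left e
  have h6 := Finset.card_filter_add_card_filter_not (s := Finset.univ) fun i => ε i = 1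
  rw [Finset.card_fin] at h6
  rw [H7.charDegree_eq h1]
  refine ⟨(Finset.univ.filter fun i => ¬ ε i = 1).card, by omega, ?_, ?_⟩
  · have := h3 1
    simp only [pow_one] at this
    rw [this, Finset.sum_congr rfl fun i _ => h5 i, Finset.sum_ite, ← congrArg (Nat.cast : ℕ → ℂ) h6]
    simp; ring
  · rw [h4, Finset.prod_congr rfl fun i _ => h5 i, Finset.prod_ite]
    simp

variable {G : Type*} [Group G] [Finite G] [IsSimpleGroup G] {p : ℕ}

theorem PB.exists_sol [hp : Fact p.Prime] [Fintype G] {P : Sylow p G} {e t B : ℕ} (D : PB P e t)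
    (hG : ¬ IsMulCommutative G) (hB : Nat.card G ≤ B ^ 2) {Q : List ℤ → Bool}
    (h : solIn Q B (Nat.card G) p e (Nat.card (Sylow p G)) = true) [DecidableEq (IrrCharacter G)] :
    ∃ l : List ℤ, (l : Multiset ℤ) = ((D.X.erase (irrOne G)).val.map fun χ =>
      D.δ χ * charDegree (χ : G → ℂ)) ∧ 1 + l.sum = D.ε * D.f ∧ Q l = true := by
  classical
  have hG' := commutator_eq_top_of_simple hG
  obtain ⟨c, hc⟩ := card_dvd_of_le (comm_of_card_prime D.hP)
  rw [D.hP] at hc
  have h1 := card_sylow_mul_eq P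
  rw [D.he, hc] at h1
  have h2 : Nat.card G / (p * Nat.card (Sylow p G) * e) = c :=
    Nat.div_eq_of_eq_mul_right (Nat.mul_pos (Nat.mul_pos hp.out.pos Nat.card_pos) D.e_pos)
      (by rw [← h1]; ring)
  have h3 : (p - 1) / e = t := Nat.div_eq_of_eq_mul_left D.e_pos (by have := D.te; omega)
  rw [solIn, h2, h3] at h
  have h4 : ∀ χ : IrrCharacter G, χ ≠ irrOne G → χ ∈ D.X ∨ χ ∈ D.Y →
      charDegree (χ : G → ℂ) < 2 * p → SC P := fun χ h1 h2 h3 =>
    D.sc_of_faithful hG' h2 h3 (χ.2.charKer_eq_bot_of_isSimpleGroup fun e => h1 (Subtype.ext e))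
  have h5 : ∀ χ : IrrCharacter G, χ ≠ irrOne G → χ ∈ D.X ∨ χ ∈ D.Y →
      charDegree (χ : G → ℂ) ∣ 𝐂[(P : Subgroup G)].index →
      okDeg p e (Nat.card (Sylow p G)) c (charDegree (χ : G → ℂ)) = true := fun χ h1 h2 h3 => by
    rw [D.index_C] at h3
    simp only [okDeg, Bool.and_eq_true, decide_eq_true_eq, beq_iff_eq, Bool.or_eq_true]
    refine ⟨⟨two_le_deg hG' h1, Nat.mod_eq_zero_of_dvd h3⟩, or_iff_not_imp_right.2 fun h => ?_⟩
    rw [(h4 χ h1 h2 (by omega)).hC, D.hP] at hc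
    exact (Nat.mul_eq_left hp.out.ne_zero).1 hc.symm
  have h6 : ∀ χ : IrrCharacter G, χ ≠ irrOne G → χ ∈ D.X ∨ χ ∈ D.Y →
      charDegree (χ : G → ℂ) + 1 = p → Even e → Odd t →
      ¬ ∀ x ∈ (P : Subgroup G), x ≠ 1 → (χ : G → ℂ) x = -1 := fun χ h1 h2 h3 h5 h6 h7 => by
    obtain ⟨g, hg⟩ := exists_detChar_eq_neg_one D.hP (h4 χ h1 h2 (by omega)).hC D.he D.te h5 h6
      χ.2.isCharacter (by rw [← χ.2.coe_charDegree, ← h3]; simp) h7
    rw [detChar_eq_one_of_perfect hG'] at hg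
    norm_num at hg
  have h7 := D.sum_sq_le
  rw [← Finset.add_sum_erase _ _ D.one_mem, H7.charDegree_eq (n := 1) (by simp)] at h7
  have h8 : ∀ χ ∈ D.X, (D.δ χ * charDegree (χ : G → ℂ)).natAbs = charDegree (χ : G → ℂ) :=
    fun χ hχ => by rcases D.δ_sign χ hχ with h | h <;> simp [h]
  have h9 : (((D.X.erase (irrOne G)).val.map fun χ => D.δ χ * charDegree (χ : G → ℂ)).map
      fun x => x.natAbs ^ 2).sum = ∑ χ ∈ D.X.erase (irrOne G), charDegree (χ : G → ℂ) ^ 2 := by
    rw [Multiset.map_map]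
    exact Finset.sum_congr rfl fun χ hχ => by simp only [Function.comp, h8 χ (Finset.mem_of_mem_erase hχ)]
  obtain ⟨l, hl, h10⟩ := allMs_sound _ _ _ _ ((D.X.erase (irrOne G)).val.map fun χ =>
    D.δ χ * charDegree (χ : G → ℂ)) h (by
    rw [Multiset.card_map, Finset.card_val, Finset.card_erase_of_mem D.one_mem, D.cardX])
    (fun x hx => by
      obtain ⟨χ, hχ, rfl⟩ := Multiset.mem_map.1 hx
      obtain ⟨e1, e2⟩ := Finset.mem_erase.1 hχ
      have e3 := h5 χ e1 (.inl e2) (D.dvdX e2)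
      have e4 : charDegree (χ : G → ℂ) < B := lt_of_pow_lt_pow_left₀ 2 B.zero_le (by
        have := Finset.single_le_sum (f := fun χ : IrrCharacter G => charDegree (χ : G → ℂ) ^ 2)
          (fun _ _ => Nat.zero_le _) hχ
        omega)
      have e5 := D.degX χ e2
      simp only [cands, List.mem_append, List.mem_map, List.mem_filter, List.mem_range,
        Bool.and_eq_true, beq_iff_eq]
      rcases D.δ_sign χ e2 with e6 | e6 <;> rw [e6] at e5 ⊢
      · refine .inl ⟨_, ⟨e4, e3, ?_⟩, by simp⟩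
        rw [← Nat.mod_eq_of_lt hp.out.one_lt]
        exact Int.natCast_modEq_iff.1 e5
      · refine .inr ⟨_, ⟨e4, ⟨e3, Nat.mod_eq_zero_of_dvd ?_⟩, ?_⟩, by simp⟩
        · exact_mod_cast (by simpa using e5.symm.dvd : (p : ℤ) ∣ charDegree (χ : G → ℂ) + 1)
        · simp only [Bool.not_eq_true', Bool.and_eq_false_imp, Bool.and_eq_true, beq_iff_eq,
            beq_eq_false_iff_ne]
          exact fun e7 e8 => h6 χ e1 (.inl e2) e7.1 (Nat.even_iff.2 e7.2) (Nat.odd_iff.2 e8)
            fun x hx hx1 => by simp [D.valX χ e2 x hx hx1, e6]) (by omega)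
  rw [Multiset.coe_nil, add_zero] at hl
  have h11 : 1 + l.sum = D.ε * D.f := by
    rw [D.deg_eq, ← Finset.add_sum_erase _ _ D.one_mem, D.δ_one, H7.charDegree_eq (n := 1) (by simp),
      ← Multiset.sum_coe, hl]
    rfl
  refine ⟨l, hl, h11, (Bool.or_eq_true _ _ ▸ h10).resolve_left fun h10 => ?_⟩
  have h12 : (D.ε * D.f).natAbs = D.f := by rcases D.ε_sign with h | h <;> simp [h]
  obtain ⟨θ, hθ⟩ := D.Y_nonempty
  have h13 := h5 θ (D.ne_one_of_mem_Y hθ) (.inr hθ) (D.degY θ hθ ▸ D.dvdY)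
  rw [D.degY θ hθ] at h13
  simp only [badDeg, h11, h12, h13, Bool.not_true, Bool.false_or, Bool.or_eq_true,
    decide_eq_true_eq, Bool.and_eq_true, beq_iff_eq, List.any_eq_true, bne_iff_ne,
    Bool.not_eq_true'] at h10
  obtain (h10 | ⟨⟨rfl, e1⟩, e2⟩) | ⟨q, hq, e1, e2⟩ := h10
  · rw [← Multiset.sum_coe, ← Multiset.map_coe, hl, h9] at h10
    omega
  · obtain ⟨a, ha⟩ := Finset.card_eq_one.1 D.cardY
    have e3 : D.ε = 1 := D.ε_sign.resolve_right fun e => by
      have := hp.out.two_le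
      rw [e] at e2; omega
    rw [e3] at e2
    refine h6 θ (D.ne_one_of_mem_Y hθ) (.inr hθ) (by rw [D.degY θ hθ]; omega) (Nat.even_iff.2 e1)
      odd_one fun x hx hx1 => ?_
    have := D.sumY hx hx1
    rw [ha, Finset.mem_singleton] at hθ
    simpa [ha, hθ, e3] using this
  · have hq' : q.Prime := by
      simp only [List.mem_cons, List.not_mem_nil, or_false] at hq
      rcases hq with rfl | rfl | rfl | rfl <;> norm_num
    obtain ⟨b, -, hb⟩ := (Nat.dvd_prime_pow hq').1 (Nat.gcd_dvd_right (Nat.card G) (q ^ 20))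
    obtain ⟨S, s1, η, s2, s3, s4, s5, s6⟩ := D.bt_simple hG hq' (b := b)
      (by rw [hc]; exact fun h => e1 (Nat.mod_eq_zero_of_dvd h)) (hb ▸ Nat.gcd_dvd_left _ _)
    have key : ∀ d, (∀ k, d ≠ q ^ k) → q ^ 20 % d ≠ 0 := fun d hd h =>
      let ⟨k, _, hk⟩ := (Nat.dvd_prime_pow hq').1 (Nat.dvd_of_mod_eq_zero h); hd k hk
    refine (Bool.eq_false_iff.1 e2) (reach_of _ 1 ((if η = 1 then {-(D.ε * D.f)} else 0) +
      (S.erase (irrOne G)).val.map fun χ => D.δ χ * charDegree (χ : G → ℂ)) ?_ ?_)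
    · rw [← Multiset.filter_coe, Multiset.le_filter, ← Multiset.cons_coe, hl,
        ← Multiset.singleton_add]
      refine ⟨add_le_add (by split_ifs <;> simp) (Multiset.map_le_map
        (Finset.val_le_iff.2 (Finset.erase_subset_erase _ s1))), fun x hx => ?_⟩
      rcases Multiset.mem_add.1 hx with hx | hx
      · split_ifs at hx with h
        · rw [Multiset.mem_singleton.1 hx, Int.natAbs_neg, h12]
          exact key _ (s5 h)
        · simp at hx
      · obtain ⟨χ, hχ, rfl⟩ := Multiset.mem_map.1 hx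
        obtain ⟨e3, e4⟩ := Finset.mem_erase.1 hχ
        rw [h8 χ (s1 e4)]
        exact key _ (s4 χ e4 e3)
    · rw [← Finset.add_sum_erase _ _ s3, D.δ_one, H7.charDegree_eq (n := 1) (by simp)] at s6
      rw [hb]
      convert s6 using 1
      · simp
      · rcases s2 with rfl | rfl <;> simp [Finset.sum] <;> ring

theorem sylow_cases [hp : Fact p.Prime] [Fintype G] {P : Sylow p G} {e t B : ℕ} (D : PB P e t)
    (hG : ¬ IsMulCommutative G) (hB : Nat.card G ≤ B ^ 2) {L : List (ℕ × ℕ)}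
    (h : (List.range (Nat.card G / (p * p) + 1)).all (fun n => n == 0 ||
      Nat.card G % (1 + n * p) != 0 || (List.range p).all fun e => decide (e < 2) ||
        (p - 1) % e != 0 || Nat.card G % (p * (1 + n * p) * e) != 0 || decide ((1 + n * p, e) ∈ L) ||
          noSol B (Nat.card G) p e (1 + n * p)) = true) (he : e ≠ 1) :
    (Nat.card (Sylow p G), e) ∈ L := by
  obtain ⟨n, hn⟩ := exists_card_sylow_eq p G
  obtain ⟨c, hc⟩ := card_dvd_of_le (comm_of_card_prime D.hP)
  have h6 := card_sylow_mul_eq P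
  rw [D.he, hc, D.hP] at h6
  have h4 := D.te
  have h5 := D.e_pos
  have h1 : p ∣ Nat.card G := ⟨Nat.card (Sylow p G) * e * c, by rw [← h6]; ring⟩
  have h2 : 0 < c := Nat.pos_of_ne_zero (by rintro rfl; exact Nat.card_pos.ne' hc)
  replace h := List.all_eq_true.1 h n (List.mem_range.2 (Nat.lt_succ_of_le ((Nat.le_div_iff_mul_le
    (Nat.mul_pos hp.out.pos hp.out.pos)).2 (by
      rw [← h6, hn]
      nlinarith [Nat.mul_le_mul (Nat.le_add_left (n * p) 1) (Nat.mul_le_mul h5
        (Nat.le_mul_of_pos_right p h2))]))))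
  simp only [← hn, Bool.or_eq_true, beq_iff_eq, bne_iff_ne, decide_eq_true_eq, List.all_eq_true,
    List.mem_range] at h
  obtain (rfl | h) | h := h
  · exact (card_sylow_ne_one_of_simple hG h1 (by simpa using hn)).elim
  · exact (h (Nat.mod_eq_zero_of_dvd (Dvd.intro _ h6))).elim
  obtain (((h7 | h7) | h7) | h7) | h7 := h e (by nlinarith [D.t_pos])
  · omega
  · exact (h7 (Nat.mod_eq_zero_of_dvd ⟨t, by rw [mul_comm]; omega⟩)).elim
  · exact (h7 (Nat.mod_eq_zero_of_dvd ⟨c, by rw [← h6]; ring⟩)).elim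
  · exact h7
  · exact (not_noSol hG D hB h7).elim

end H10
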