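import Mathlib

/-! Bridges from the Sylow-count inequality to `S4181` (`H10.SyB.s4181`) and `S3580` (`H10.SyB.s3580`). -/

set_option autoImplicit false

namespace H10.SyB
open MulAction

theorem s4181 {G : Type*} [Group G] [Finite G] (p : ℕ) [Fact p.Prime]
    (hT : ∀ K : Subgroup G, Nat.card {P : Sylow p G // (P : Subgroup G) ≤ K} < Nat.card (Sylow p G) →
      (2 * p - 1) * Nat.card {P : Sylow p G // (P : Subgroup G) ≤ K} ≤ (p - 1) * Nat.card (Sylow p G))
    (hgen : Subgroup.closure {g : G | ∃ k : ℕ, orderOf g = p ^ k} = ⊤)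
    (H : Subgroup G) (hH : H ≠ ⊤) (P : Sylow p G) (hP : (P : Subgroup G) ≤ H) :
    (2 * p - 1) * Nat.card (Sylow p ↥H) ≤ (p - 1) * Nat.card (Sylow p G) := by
  have h1 : Nat.card (Sylow p H) ≤ Nat.card {P : Sylow p G // (P : Subgroup G) ≤ H} :=
    Nat.card_le_card_of_surjective (fun Q => Q.1.subtype Q.2) fun R => by
      obtain ⟨h, rfl⟩ := exists_smul_eq H (P.subtype hP) R
      exact ⟨⟨h • P, Sylow.smul_le hP h⟩, (Sylow.smul_subtype hP h).symm⟩
  have h2 : ∃ Q : Sylow p G, ¬ (Q : Subgroup G) ≤ H := by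
    by_contra! h
    refine hH (top_unique (hgen ▸ (Subgroup.closure_le _).2 fun g ⟨k, hk⟩ => ?_))
    obtain ⟨Q, hQ⟩ := (IsPGroup.of_card (G := Subgroup.zpowers g) ((Nat.card_zpowers g).trans hk)).exists_le_sylow
    exact h Q (hQ (Subgroup.mem_zpowers g))
  obtain ⟨Q, hQ⟩ := h2
  exact (Nat.mul_le_mul_left _ h1).trans (hT H (Finite.card_subtype_lt hQ))

theorem s3580 {G Ω : Type*} [Group G] [Finite G] [MulAction G Ω] [FaithfulSMul G Ω] [Finite Ω]
    (htrans : MulAction.IsPretransitive G Ω) (p : ℕ) [Fact p.Prime]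
    (hT : ∀ K : Subgroup G, Nat.card {P : Sylow p G // (P : Subgroup G) ≤ K} < Nat.card (Sylow p G) →
      (2 * p - 1) * Nat.card {P : Sylow p G // (P : Subgroup G) ≤ K} ≤ (p - 1) * Nat.card (Sylow p G))
    (hpG : p ∣ Nat.card G) (P : Sylow p G) :
    (2 * p - 1) * Nat.card (MulAction.orbitRel.Quotient ↥(P : Subgroup G) Ω) ≤ p * Nat.card Ω := by
  classical
  have hp : p.Prime := Fact.out
  rcases isEmpty_or_nonempty Ω with h0 | ⟨⟨α⟩⟩
  · have : Nat.card (orbitRel.Quotient ↥(P : Subgroup G) Ω) = 0 := Nat.card_of_isEmpty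
    simp [this]
  haveI := Fintype.ofFinite Ω
  haveI := Fintype.ofFinite (Sylow p G)
  haveI := Fintype.ofFinite (orbitRel.Quotient ↥(P : Subgroup G) Ω)
  have mv : ∀ (g : G) (Q : Sylow p G) (ω : Ω), (Q : Subgroup G) ≤ stabilizer G ω →
      ((g • Q : Sylow p G) : Subgroup G) ≤ stabilizer G (g • ω) := fun g Q ω h x hx => by
    rw [Sylow.coe_subgroup_smul, Subgroup.mem_pointwise_smul_iff_inv_smul_mem] at hx
    have := mem_stabilizer_iff.1 (h hx)
    rw [mem_stabilizer_iff]
    conv_rhs => rw [← this]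
    simp [mul_smul]
  let s : Ω → ℕ := fun ω => (Finset.univ.filter fun Q : Sylow p G => (Q : Subgroup G) ≤ stabilizer G ω).card
  let f : Sylow p G → ℕ := fun Q => (Finset.univ.filter fun ω : Ω => (Q : Subgroup G) ≤ stabilizer G ω).card
  have hs : ∀ a b, s a ≤ s b := fun a b => by
    obtain ⟨g, rfl⟩ := exists_smul_eq G a b
    exact Finset.card_le_card_of_injOn (fun Q => g • Q) (fun Q hQ => by
      simpa using mv g Q a (by simpa using hQ)) fun _ _ _ _ e => MulAction.injective g e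
  have hf : ∀ a b, f a ≤ f b := fun a b => by
    obtain ⟨g, rfl⟩ := exists_smul_eq G a b
    exact Finset.card_le_card_of_injOn (fun ω => g • ω) (fun ω hω => by
      simpa using mv g a ω (by simpa using hω)) fun _ _ _ _ e => MulAction.injective g e
  have dc : Fintype.card Ω * s α = Fintype.card (Sylow p G) * f P := by
    calc _ = ∑ ω, s ω := by simp [fun ω => le_antisymm (hs ω α) (hs α ω)]
      _ = ∑ Q, f Q := by simp only [s, f, Finset.card_filter]; exact Finset.sum_comm
      _ = _ := by simp [fun Q => le_antisymm (hf Q P) (hf P Q)]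
  have es : Nat.card {P : Sylow p G // (P : Subgroup G) ≤ stabilizer G α} = s α := by
    rw [Nat.card_eq_fintype_card, Fintype.card_subtype]
  have h2 : ∃ Q : Sylow p G, ¬ (Q : Subgroup G) ≤ stabilizer G α := by
    by_contra! h
    refine P.ne_bot_of_dvd_card hpG (eq_bot_iff.2 fun x hx => ?_)
    refine Subgroup.mem_bot.2 (eq_of_smul_eq_smul (α := Ω) fun ω => ?_)
    obtain ⟨g, rfl⟩ := exists_smul_eq G α ω
    have := mv g _ α (h (g⁻¹ • P))
    rw [smul_inv_smul] at this
    rw [one_smul]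
    exact this hx
  obtain ⟨Q, hQ⟩ := h2
  have k1 := hT _ (Finite.card_subtype_lt hQ)
  rw [es, Nat.card_eq_fintype_card] at k1
  have k2 : (2 * p - 1) * f P ≤ (p - 1) * Fintype.card Ω := by
    refine Nat.le_of_mul_le_mul_left ?_ (Fintype.card_pos (α := Sylow p G))
    calc _ = Fintype.card Ω * ((2 * p - 1) * s α) := by rw [mul_left_comm, ← dc]; ring
      _ ≤ Fintype.card Ω * ((p - 1) * Fintype.card (Sylow p G)) := Nat.mul_le_mul_left _ k1
      _ = _ := by ring
  let π : Ω → orbitRel.Quotient ↥(P : Subgroup G) Ω := Quotient.mk''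
  have k3 : p * Fintype.card (orbitRel.Quotient ↥(P : Subgroup G) Ω) ≤ Fintype.card Ω + (p - 1) * f P := by
    simp only [f]
    rw [← Finset.card_univ (α := Ω), Finset.card_eq_sum_card_fiberwise (f := π) (s := Finset.univ) (t := Finset.univ)
      (fun _ _ => Finset.mem_univ _), Finset.card_eq_sum_card_fiberwise (f := π) (t := Finset.univ)
      (s := Finset.univ.filter fun ω : Ω => (P : Subgroup G) ≤ stabilizer G ω) (fun _ _ => Finset.mem_univ _),
      Finset.mul_sum, ← Finset.sum_add_distrib, mul_comm, ← smul_eq_mul, ← Finset.card_univ]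
    refine Finset.card_nsmul_le_sum _ _ _ fun o _ => ?_
    obtain ⟨ω, rfl⟩ := Quotient.exists_rep o
    by_cases h : (P : Subgroup G) ≤ stabilizer G ω
    · have a1 : 1 ≤ (Finset.univ.filter fun x => π x = Quotient.mk _ ω).card :=
        Finset.card_pos.2 ⟨ω, Finset.mem_filter.2 ⟨Finset.mem_univ _, rfl⟩⟩
      have a2 : 1 ≤ ((Finset.univ.filter fun ω : Ω => (P : Subgroup G) ≤ stabilizer G ω).filter
          fun x => π x = Quotient.mk _ ω).card :=
        Finset.card_pos.2 ⟨ω, Finset.mem_filter.2 ⟨Finset.mem_filter.2 ⟨Finset.mem_univ _, h⟩, rfl⟩⟩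
      have := Nat.mul_le_mul_left (p - 1) a2
      have := hp.pos
      omega
    · refine le_add_right ?_
      obtain ⟨k, hk⟩ := P.isPGroup'.card_orbit ω
      have e : (Finset.univ.filter fun x => π x = Quotient.mk _ ω).card = p ^ k := by
        rw [← hk, Nat.card_eq_fintype_card, Fintype.card_subtype]
        congr 1
        ext x
        simp only [Finset.mem_filter, Finset.mem_univ, true_and]
        exact Quotient.eq''.trans orbitRel_apply
      rw [e]
      refine Nat.le_self_pow (fun k0 => h fun x hx => ?_) p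
      rw [k0, pow_zero, Nat.card_eq_one_iff_unique] at hk
      exact congrArg Subtype.val (hk.1.elim ⟨_, mem_orbit ω (⟨x, hx⟩ : (P : Subgroup G))⟩ ⟨_, mem_orbit_self ω⟩)
  rw [Nat.card_eq_fintype_card, Nat.card_eq_fintype_card]
  obtain ⟨m, rfl⟩ : ∃ m, p = m + 1 := ⟨p - 1, (Nat.succ_pred_eq_of_pos hp.pos).symm⟩
  rw [show 2 * (m + 1) - 1 = 2 * m + 1 by omega, Nat.add_sub_cancel] at *
  refine Nat.le_of_mul_le_mul_left ?_ hp.pos
  nlinarith [Nat.mul_le_mul_left (2 * m + 1) k3, Nat.mul_le_mul_left m k2]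

end H10.SyB
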